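import Cfsg.Agent.H583.ColSets

/-!
# Two-colourings with small stabilisers: dimensions 5 to 9 over the field of two elements
(helper583)
-/

set_option autoImplicit false

universe u w

namespace Cfsg.Agent.H583.Col

open MulAction
open scoped Pointwise commutatorElement

variable {G : Type u} {Ω : Type w} [Group G] [MulAction G Ω]

section Cop

variable {k : ℕ} (C : Coord G Ω 2 k)

theorem two_add (x : Fin k → ZMod 2) : x + x = 0 := by
  funext i
  rw [Pi.add_apply, Pi.zero_apply]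
  exact CharTwo.add_self_eq_zero _

/-- the points of `D` which are sums of three distinct points of `D` -/
def Coord.cop (D : Set Ω) : Set Ω :=
  {x | x ∈ D ∧ ∃ a ∈ D, ∃ b ∈ D, ∃ c ∈ D, a ≠ b ∧ a ≠ c ∧ b ≠ c ∧ C.e x = C.e a + C.e b + C.e c}

theorem Coord.cop_inv {D : Set Ω} {g : G} (hg : ∀ ω, g • ω ∈ D ↔ ω ∈ D) {x : Ω}
    (hx : x ∈ C.cop D) : g • x ∈ C.cop D := by
  obtain ⟨hxD, a, ha, b, hb, c, hc, hab, hac, hbc, h⟩ := hx
  refine ⟨(hg x).mpr hxD, g • a, (hg a).mpr ha, g • b, (hg b).mpr hb, g • c, (hg c).mpr hc,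
    fun h => hab (smul_left_cancel g h), fun h => hac (smul_left_cancel g h),
    fun h => hbc (smul_left_cancel g h), ?_⟩
  rw [C.smul, C.smul, C.smul, C.smul, h, map_add, map_add]
  have h1 := two_add (C.t g)
  calc C.T g (C.e a) + C.T g (C.e b) + C.T g (C.e c) + C.t g
      = C.T g (C.e a) + C.T g (C.e b) + C.T g (C.e c) + C.t g + (C.t g + C.t g) := by
        rw [h1, add_zero]
    _ = _ := by abel

/-- the criterion -/
theorem good_of_cop [FaithfulSMul G Ω] [Group.IsSolvable G] {D : Set Ω} (hD : C.basisSet ⊆ D)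
    (hfin : D.Finite) (h1 : (C.cop D).ncard ≤ 7) (h2 : (D \ C.cop D).ncard ≤ 7) : Good G D := by
  intro S hS
  refine ds_of_cover C S (fun x hx => ?_)
  by_cases hxc : x ∈ C.cop D
  · exact ⟨C.cop D, hxc, hfin.subset (fun y hy => hy.1), h1,
      fun g hg y hy => C.cop_inv (hS g hg) hy⟩
  · refine ⟨D \ C.cop D, ⟨hD hx, hxc⟩, hfin.subset Set.sdiff_subset, h2, fun g hg y hy => ?_⟩
    refine ⟨(hS g hg y).mpr hy.1, fun h => hy.2 ?_⟩
    have h3 := C.cop_inv (hS g⁻¹ (S.inv_mem hg)) h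
    rwa [inv_smul_smul] at h3

end Cop

/-- extension by zero -/
def ext3 (m : ℕ) (x : Fin 3 → ZMod 2) : Fin (3 + m) → ZMod 2 := Fin.append x 0

/-- the other basis vectors -/
def uvec (m : ℕ) (j : Fin m) : Fin (3 + m) → ZMod 2 := Pi.single (Fin.natAdd 3 j) 1

theorem ext3_left (m : ℕ) (x : Fin 3 → ZMod 2) (i : Fin 3) :
    ext3 m x (Fin.castAdd m i) = x i := Fin.append_left _ _ _

theorem ext3_right (m : ℕ) (x : Fin 3 → ZMod 2) (j : Fin m) :
    ext3 m x (Fin.natAdd 3 j) = 0 := by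
  unfold ext3
  rw [Fin.append_right]; rfl

theorem ext3_inj (m : ℕ) : Function.Injective (ext3 m) := by
  intro x y h
  funext i
  rw [← ext3_left m x, h, ext3_left]

theorem ext3_add (m : ℕ) (x y : Fin 3 → ZMod 2) : ext3 m (x + y) = ext3 m x + ext3 m y := by
  funext i
  refine Fin.addCases (fun i => ?_) (fun j => ?_) i
  · rw [ext3_left, Pi.add_apply, Pi.add_apply, ext3_left, ext3_left]
  · rw [ext3_right, Pi.add_apply, ext3_right, ext3_right, add_zero]

theorem ext3_zero (m : ℕ) : ext3 m 0 = 0 := by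
  funext i
  refine Fin.addCases (fun i => ?_) (fun j => ?_) i
  · rw [ext3_left]; rfl
  · rw [ext3_right]; rfl

theorem ext3_single (m : ℕ) (i : Fin 3) :
    ext3 m (Pi.single i 1) = Pi.single (Fin.castAdd m i) 1 := by
  funext j
  refine Fin.addCases (fun j => ?_) (fun j => ?_) j
  · rw [ext3_left, Pi.single_apply, Pi.single_apply]
    simp
  · rw [ext3_right, Pi.single_apply, if_neg]
    intro h
    have := congrArg Fin.val h
    simp at this
    omega

theorem uvec_inj (m : ℕ) : Function.Injective (uvec m) := by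
  intro i j h
  by_contra hij
  have h1 : uvec m i (Fin.natAdd 3 i) = 1 := by unfold uvec; simp
  have h2 : uvec m j (Fin.natAdd 3 i) = 0 := by
    unfold uvec
    rw [Pi.single_apply, if_neg]
    intro h; exact hij (Fin.natAdd_injective m 3 h)
  rw [h, h2] at h1
  exact zero_ne_one h1

theorem uvec_self (m : ℕ) (j : Fin m) : uvec m j (Fin.natAdd 3 j) = 1 := by
  unfold uvec; simp

theorem uvec_ne (m : ℕ) {i j : Fin m} (h : i ≠ j) : uvec m i (Fin.natAdd 3 j) = 0 := by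
  unfold uvec
  rw [Pi.single_apply, if_neg]
  intro h'; exact h (Fin.natAdd_injective m 3 h').symm

theorem ext3_ne_uvec (m : ℕ) (x : Fin 3 → ZMod 2) (j : Fin m) : ext3 m x ≠ uvec m j := by
  intro h
  have h1 := congrFun h (Fin.natAdd 3 j)
  rw [ext3_right, uvec_self] at h1
  exact zero_ne_one h1

/-- the set `E` -/
def Eset (m : ℕ) (D0 : Finset (Fin 3 → ZMod 2)) : Set (Fin (3 + m) → ZMod 2) :=
  (ext3 m '' D0) ∪ Set.range (uvec m)

theorem Eset_coord {m : ℕ} {D0 : Finset (Fin 3 → ZMod 2)} {x : Fin (3 + m) → ZMod 2}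
    (hx : x ∈ Eset m D0) {j : Fin m} (hne : x ≠ uvec m j) : x (Fin.natAdd 3 j) = 0 := by
  rcases hx with ⟨y, -, rfl⟩ | ⟨i, rfl⟩
  · exact ext3_right _ _ _
  · exact uvec_ne m (fun h => hne (by rw [h]))

/-- sums of three distinct points of `E` which belong to `E` -/
theorem Eset_sum {m : ℕ} {D0 : Finset (Fin 3 → ZMod 2)} {x a b c : Fin (3 + m) → ZMod 2}
    (hx : x ∈ Eset m D0) (ha : a ∈ Eset m D0) (hb : b ∈ Eset m D0) (hc : c ∈ Eset m D0)
    (hab : a ≠ b) (hac : a ≠ c) (hbc : b ≠ c) (h : x = a + b + c) :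
    ∃ x' ∈ D0, ∃ a' ∈ D0, ∃ b' ∈ D0, ∃ c' ∈ D0, a' ≠ b' ∧ a' ≠ c' ∧ b' ≠ c' ∧ x' = a' + b' + c' ∧
      x = ext3 m x' := by
  -- none of the four points is a `uvec`
  have hcoord : ∀ j, x (Fin.natAdd 3 j) = a (Fin.natAdd 3 j) + b (Fin.natAdd 3 j) +
      c (Fin.natAdd 3 j) := fun j => by rw [h]; rfl
  have hxa : x ≠ a := by
    intro hxa
    rw [hxa, add_assoc] at h
    have h1 : b + c = 0 := left_eq_add.mp h
    apply hbc
    rw [← two_add c] at h1
    exact add_right_cancel h1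
  have hxb : x ≠ b := by
    intro hxb
    rw [hxb, add_comm a b, add_assoc] at h
    have h1 : a + c = 0 := left_eq_add.mp h
    apply hac
    rw [← two_add c] at h1
    exact add_right_cancel h1
  have hxc : x ≠ c := by
    intro hxc
    rw [hxc] at h
    have h1 : a + b = 0 := right_eq_add.mp h
    apply hab
    rw [← two_add b] at h1
    exact add_right_cancel h1
  have key : ∀ j, x ≠ uvec m j ∧ a ≠ uvec m j ∧ b ≠ uvec m j ∧ c ≠ uvec m j := by
    intro j
    have h0 := hcoord j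
    refine ⟨fun e => ?_, fun e => ?_, fun e => ?_, fun e => ?_⟩
    · rw [Eset_coord ha (j := j) (fun e' => hxa (e.trans e'.symm)),
        Eset_coord hb (j := j) (fun e' => hxb (e.trans e'.symm)),
        Eset_coord hc (j := j) (fun e' => hxc (e.trans e'.symm)), e, uvec_self] at h0
      exact absurd h0 (by decide)
    · rw [Eset_coord hx (j := j) (fun e' => hxa (e'.trans e.symm)),
        Eset_coord hb (j := j) (fun e' => hab (e.trans e'.symm)),
        Eset_coord hc (j := j) (fun e' => hac (e.trans e'.symm)), e, uvec_self] at h0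
      exact absurd h0 (by decide)
    · rw [Eset_coord hx (j := j) (fun e' => hxb (e'.trans e.symm)),
        Eset_coord ha (j := j) (fun e' => hab (e'.trans e.symm)),
        Eset_coord hc (j := j) (fun e' => hbc (e.trans e'.symm)), e, uvec_self] at h0
      exact absurd h0 (by decide)
    · rw [Eset_coord hx (j := j) (fun e' => hxc (e'.trans e.symm)),
        Eset_coord ha (j := j) (fun e' => hac (e'.trans e.symm)),
        Eset_coord hb (j := j) (fun e' => hbc (e'.trans e.symm)), e, uvec_self] at h0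
      exact absurd h0 (by decide)
  have hmem : ∀ y ∈ Eset m D0, (∀ j, y ≠ uvec m j) → ∃ y' ∈ D0, ext3 m y' = y := by
    rintro y (⟨y', hy', rfl⟩ | ⟨j, rfl⟩) hy
    · exact ⟨y', hy', rfl⟩
    · exact absurd rfl (hy j)
  obtain ⟨x', hx', rfl⟩ := hmem x hx (fun j => (key j).1)
  obtain ⟨a', ha', rfl⟩ := hmem a ha (fun j => (key j).2.1)
  obtain ⟨b', hb', rfl⟩ := hmem b hb (fun j => (key j).2.2.1)
  obtain ⟨c', hc', rfl⟩ := hmem c hc (fun j => (key j).2.2.2)
  refine ⟨x', hx', a', ha', b', hb', c', hc', fun e => hab (by rw [e]), fun e => hac (by rw [e]),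
    fun e => hbc (by rw [e]), ?_, rfl⟩
  apply ext3_inj m
  rw [h, ext3_add, ext3_add]

theorem Eset_ncard (m : ℕ) (D0 : Finset (Fin 3 → ZMod 2)) : (Eset m D0).ncard = D0.card + m := by
  unfold Eset
  rw [Set.ncard_union_eq]
  · rw [Set.ncard_image_of_injective _ (ext3_inj m), Set.ncard_coe_finset, ← Set.image_univ,
      Set.ncard_image_of_injective _ (uvec_inj m), Set.ncard_univ, Nat.card_fin]
  · rw [Set.disjoint_left]
    rintro _ ⟨y, -, rfl⟩ ⟨j, hj⟩
    exact ext3_ne_uvec m y j hj.symm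

/-- the set in `Ω` -/
theorem good_Eset {m : ℕ} (C : Coord G Ω 2 (3 + m)) [FaithfulSMul G Ω] [Group.IsSolvable G]
    [Finite Ω] (D0 D1 : Finset (Fin 3 → ZMod 2)) (h0 : (0 : Fin 3 → ZMod 2) ∈ D0)
    (h1 : ∀ i : Fin 3, (Pi.single i 1 : Fin 3 → ZMod 2) ∈ D0) (h10 : D1 ⊆ D0)
    (hup : ∀ x ∈ D0, ∀ a ∈ D0, ∀ b ∈ D0, ∀ c ∈ D0, a ≠ b → a ≠ c → b ≠ c → x = a + b + c →
      x ∈ D1)
    (hlow : ∀ x ∈ D1, ∃ a ∈ D0, ∃ b ∈ D0, ∃ c ∈ D0, a ≠ b ∧ a ≠ c ∧ b ≠ c ∧ x = a + b + c)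
    (hc1 : D1.card ≤ 7) (hc2 : (D0 \ D1).card + m ≤ 7) :
    ∃ D : Set Ω, D.ncard = D0.card + m ∧ Good G D := by
  classical
  refine ⟨C.e ⁻¹' (Eset m D0), ?_, ?_⟩
  · rw [← Eset_ncard, ← Set.ncard_image_of_injective _ C.e.injective,
      Set.image_preimage_eq _ C.e.surjective]
  have hcop1 : C.cop (C.e ⁻¹' (Eset m D0)) ⊆ C.e ⁻¹' (ext3 m '' D1) := by
    rintro x ⟨hx, a, ha, b, hb, c, hc, hab, hac, hbc, h⟩
    obtain ⟨x', hx', a', ha', b', hb', c', hc', h1, h2, h3, h4, h5⟩ :=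
      Eset_sum hx ha hb hc (fun e => hab (C.e.injective e)) (fun e => hac (C.e.injective e))
        (fun e => hbc (C.e.injective e)) h
    exact ⟨x', hup x' hx' a' ha' b' hb' c' hc' h1 h2 h3 h4, h5.symm⟩
  have hcop2 : C.e ⁻¹' (ext3 m '' D1) ⊆ C.cop (C.e ⁻¹' (Eset m D0)) := by
    rintro x ⟨x', hx', hx⟩
    obtain ⟨a, ha, b, hb, c, hc, hab, hac, hbc, h⟩ := hlow x' hx'
    refine ⟨Or.inl ⟨x', h10 hx', hx⟩, C.e.symm (ext3 m a), ?_, C.e.symm (ext3 m b), ?_,
      C.e.symm (ext3 m c), ?_, ?_, ?_, ?_, ?_⟩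
    · exact Or.inl ⟨a, ha, by rw [Equiv.apply_symm_apply]⟩
    · exact Or.inl ⟨b, hb, by rw [Equiv.apply_symm_apply]⟩
    · exact Or.inl ⟨c, hc, by rw [Equiv.apply_symm_apply]⟩
    · exact fun e => hab (ext3_inj m (C.e.symm.injective e))
    · exact fun e => hac (ext3_inj m (C.e.symm.injective e))
    · exact fun e => hbc (ext3_inj m (C.e.symm.injective e))
    · rw [Equiv.apply_symm_apply, Equiv.apply_symm_apply, Equiv.apply_symm_apply, ← hx, h,
        ext3_add, ext3_add]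
  have hpre : ∀ A : Set (Fin (3 + m) → ZMod 2), (C.e ⁻¹' A).ncard = A.ncard := by
    intro A
    rw [← Set.ncard_image_of_injective _ C.e.injective, Set.image_preimage_eq _ C.e.surjective]
  refine good_of_cop C ?_ (Set.toFinite _) ?_ ?_
  · rintro x (rfl | ⟨i, rfl⟩)
    · rw [Set.mem_preimage, Equiv.apply_symm_apply]
      exact Or.inl ⟨0, h0, ext3_zero m⟩
    · rw [Set.mem_preimage]
      simp only [Equiv.apply_symm_apply]
      refine Fin.addCases (fun i => ?_) (fun j => ?_) i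
      · exact Or.inl ⟨Pi.single i 1, h1 i, ext3_single m i⟩
      · exact Or.inr ⟨j, rfl⟩
  · refine (Set.ncard_le_ncard hcop1 (Set.toFinite _)).trans ?_
    rw [hpre, Set.ncard_image_of_injective _ (ext3_inj m), Set.ncard_coe_finset]
    exact hc1
  · have hsub : (C.e ⁻¹' (Eset m D0)) \ C.cop (C.e ⁻¹' (Eset m D0)) ⊆
        C.e ⁻¹' (Eset m (D0 \ D1)) := by
      rintro x ⟨hx | hx, hx2⟩
      · obtain ⟨x', hx', hx⟩ := hx
        refine Or.inl ⟨x', ?_, hx⟩
        rw [Finset.mem_coe, Finset.mem_sdiff]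
        exact ⟨hx', fun h => hx2 (hcop2 ⟨x', h, hx⟩)⟩
      · exact Or.inr hx
    refine (Set.ncard_le_ncard hsub (Set.toFinite _)).trans ?_
    rw [hpre, Eset_ncard]
    exact hc2

/-- dimensions 5 to 9 over the field of two elements -/
theorem five_two {m : ℕ} (C : Coord G Ω 2 (3 + m)) [FaithfulSMul G Ω] [Group.IsSolvable G]
    [Finite Ω] (hm : m ≤ 6) : Five2 G Ω := by
  have e1 : ∃ D : Set Ω, D.ncard = 5 + m ∧ Good G D :=
    good_Eset C {![0, 0, 0], ![1, 0, 0], ![0, 1, 0], ![1, 1, 0], ![0, 0, 1]}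
      {![0, 0, 0], ![1, 0, 0], ![0, 1, 0], ![1, 1, 0]} (by decide) (by decide) (by decide)
      (by decide) (by decide) (by decide) (by
        have : (({![0, 0, 0], ![1, 0, 0], ![0, 1, 0], ![1, 1, 0], ![0, 0, 1]} :
          Finset (Fin 3 → ZMod 2)) \ {![0, 0, 0], ![1, 0, 0], ![0, 1, 0], ![1, 1, 0]}).card = 1 := by
          decide
        omega)
  have e2 : ∃ D : Set Ω, D.ncard = 6 + m ∧ Good G D :=
    good_Eset C {![0, 0, 0], ![1, 0, 0], ![0, 1, 0], ![1, 1, 0], ![0, 0, 1], ![1, 0, 1]}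
      {![0, 0, 0], ![1, 0, 0], ![0, 1, 0], ![1, 1, 0], ![0, 0, 1], ![1, 0, 1]}
      (by decide) (by decide) (by decide)
      (fun x hx _ _ _ _ _ _ _ _ _ _ => hx) (by decide) (by decide) (by rw [Finset.sdiff_self]; simpa using by omega)
  have e3 : ∃ D : Set Ω, D.ncard = 7 + m ∧ Good G D :=
    good_Eset C
      {![0, 0, 0], ![1, 0, 0], ![0, 1, 0], ![1, 1, 0], ![0, 0, 1], ![1, 0, 1], ![0, 1, 1]}
      {![0, 0, 0], ![1, 0, 0], ![0, 1, 0], ![1, 1, 0], ![0, 0, 1], ![1, 0, 1], ![0, 1, 1]}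
      (by decide) (by decide) (by decide)
      (fun x hx _ _ _ _ _ _ _ _ _ _ => hx) (by decide) (by decide) (by rw [Finset.sdiff_self]; simpa using by omega)
  have hc := C.card_eq Nat.prime_two
  have hcompl : ∀ s, (∃ D : Set Ω, D.ncard = s ∧ Good G D) →
      ∃ D : Set Ω, D.ncard = Nat.card Ω - s ∧ Good G D := by
    rintro s ⟨D, hD, hg⟩
    exact ⟨Dᶜ, by rw [Set.ncard_compl, hD], hg.compl⟩
  refine five_of_sizes ![5 + m, 6 + m, 7 + m, Nat.card Ω - (5 + m), Nat.card Ω - (6 + m)] ?_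
    (fun i => ?_)
  · intro i j hij
    rw [hc]
    interval_cases m <;> fin_cases i <;> fin_cases j <;>
      first | exact absurd rfl hij | simp
  · fin_cases i
    · exact e1
    · exact e2
    · exact e3
    · exact hcompl _ e1
    · exact hcompl _ e2

end Cfsg.Agent.H583.Col
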