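import Cfsg.Agent.H583.ColCount
import Cfsg.Agent.H583.ColTwo

/-!
# Rigid two-colourings in large dimensions (helper583)

* `f2`: five inequivalent 2-colourings with stabilisers of derived length at most 3.
-/

set_option autoImplicit false

universe u w

namespace Cfsg.Agent.H583.Col

open MulAction

variable {G : Type u} {Ω : Type w} [Group G] [MulAction G Ω] {r k : ℕ} (C : Coord G Ω r k)

include C in
/-- the fixed points of a nontrivial element -/
theorem card_fix_le [FaithfulSMul G Ω] (hr : r.Prime) {g : G} (hg : g ≠ 1) :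
    Nat.card {ω : Ω // g • ω = ω} * r ≤ r ^ k := by
  classical
  have hne : NeZero r := ⟨hr.ne_zero⟩
  by_cases hemp : IsEmpty {ω : Ω // g • ω = ω}
  · rw [Nat.card_of_isEmpty, zero_mul]; exact Nat.zero_le _
  rw [not_isEmpty_iff] at hemp
  obtain ⟨ω0, hω0⟩ := hemp
  let H : AddSubgroup (Fin k → ZMod r) := ((C.T g) - AddMonoidHom.id _).ker
  have hH : ∀ x, x ∈ H ↔ C.T g x = x := by
    intro x
    rw [AddMonoidHom.mem_ker, AddMonoidHom.sub_apply, AddMonoidHom.id_apply, sub_eq_zero]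
  have e0 := C.smul g ω0
  rw [hω0] at e0
  have hHtop : H ≠ ⊤ := by
    intro htop
    apply hg
    apply FaithfulSMul.eq_of_smul_eq_smul (α := Ω)
    intro ω
    rw [one_smul]
    have hT : ∀ x, C.T g x = x := fun x => (hH x).mp (by rw [htop]; trivial)
    refine C.smul_eq_self ?_ hT ω
    rw [hT] at e0
    exact left_eq_add.mp e0
  have h1 : Nat.card {ω : Ω // g • ω = ω} ≤ Nat.card H := by
    let f : {ω : Ω // g • ω = ω} → H := fun ω => ⟨C.e ω.1 - C.e ω0, by
      rw [hH, map_sub]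
      have e1 := C.smul g ω.1
      rw [ω.2] at e1
      conv_rhs => rw [e1, e0]
      abel⟩
    refine Nat.card_le_card_of_injective f (fun a b hab => ?_)
    have h2 := congrArg Subtype.val hab
    exact Subtype.ext (C.e.injective (sub_left_injective h2))
  have h2 : Nat.card H ∣ r ^ k := by
    have := AddSubgroup.card_addSubgroup_dvd_card H
    rwa [Nat.card_eq_fintype_card (α := Fin k → ZMod r), Fintype.card_fun, ZMod.card,
      Fintype.card_fin] at this
  obtain ⟨j, hj, hj2⟩ := (Nat.dvd_prime_pow hr).mp h2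
  have hjk : j ≠ k := by
    intro h
    apply hHtop
    rw [← AddSubgroup.card_eq_iff_eq_top, hj2, h, Nat.card_eq_fintype_card, Fintype.card_fun,
      ZMod.card, Fintype.card_fin]
  calc Nat.card {ω : Ω // g • ω = ω} * r ≤ Nat.card H * r := Nat.mul_le_mul_right _ h1
    _ = r ^ (j + 1) := by rw [hj2, pow_succ]
    _ ≤ r ^ k := Nat.pow_le_pow_right hr.pos (by omega)

include C in
/-- the order of the group -/
theorem card_group_le [FaithfulSMul G Ω] [Finite Ω] :
    Nat.card G ≤ (Nat.card Ω) ^ (k + 1) := by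
  classical
  have : Fintype Ω := Fintype.ofFinite Ω
  let b : Option (Fin k) → Ω := fun o => o.elim (C.e.symm 0) (fun i => C.e.symm (Pi.single i 1))
  let f : G → (Option (Fin k) → Ω) := fun g o => g • b o
  have hf : Function.Injective f := by
    intro g h hgh
    have h1 : ∀ o, (h⁻¹ * g) • b o = b o := by
      intro o
      have := congrFun hgh o
      rw [mul_smul, inv_smul_eq_iff]
      exact this
    have h2 : h⁻¹ * g = 1 := by
      apply FaithfulSMul.eq_of_smul_eq_smul (α := Ω)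
      intro ω
      rw [one_smul]
      exact C.smul_eq_of_basis (h1 none) (fun i => h1 (some i)) ω
    exact (inv_mul_eq_one.mp h2).symm
  refine (Nat.card_le_card_of_injective f hf).trans ?_
  rw [Nat.card_fun, Nat.card_eq_fintype_card (α := Option (Fin k)), Fintype.card_option,
    Fintype.card_fin]

theorem pow_bound_two {k : ℕ} (hk : 9 ≤ k) : k * (k + 1) + 1 ≤ 2 ^ (k - 2) := by
  induction k, hk using Nat.le_induction with
  | base => norm_num
  | succ k hk ih =>
    have h1 : 2 ^ (k + 1 - 2) = 2 * 2 ^ (k - 2) := by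
      rw [show k + 1 - 2 = (k - 2) + 1 by omega, pow_succ, mul_comm]
    rw [h1]
    nlinarith

theorem pow_bound_three {k : ℕ} (hk : 5 ≤ k) : 2 * k * (k + 1) + 1 ≤ 3 ^ (k - 1) := by
  induction k, hk using Nat.le_induction with
  | base => norm_num
  | succ k hk ih =>
    have h1 : 3 ^ (k + 1 - 1) = 3 * 3 ^ (k - 1) := by
      rw [show k + 1 - 1 = (k - 1) + 1 by omega, pow_succ, mul_comm]
    rw [h1]
    nlinarith

include C in
/-- large dimensions -/
theorem five_large [FaithfulSMul G Ω] [Finite Ω] (hr : r.Prime)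
    (h : (r = 2 ∧ 9 ≤ k) ∨ (3 ≤ r ∧ 5 ≤ k)) : FiveR G Ω (Fin 2) := by
  have hc := C.card_eq hr
  have hfinG : Finite G := by
    refine Finite.of_injective (fun g : G => fun ω : Ω => g • ω) (fun g h hgh => ?_)
    exact FaithfulSMul.eq_of_smul_eq_smul (α := Ω) (fun ω => congrFun hgh ω)
  have hGle := card_group_le C
  have hk1 : 1 ≤ k := by omega
  have hrk : r ^ k = r * r ^ (k - 1) := by
    rw [← pow_succ']; congr 1; omega
  have hfix : ∀ g : G, g ≠ 1 → Nat.card {ω : Ω // g • ω = ω} ≤ r ^ (k - 1) := by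
    intro g hg
    have h1 := card_fix_le C hr hg
    rw [hrk, mul_comm] at h1
    exact Nat.le_of_mul_le_mul_left h1 hr.pos
  -- `n = r ^ k`, `b = r ^ (k - 1)`
  set b := r ^ (k - 1) with hb
  have hbpos : 0 < b := Nat.pow_pos hr.pos
  -- it is enough to bound the exponent
  have key : ∀ m E : ℕ, r ^ k + b ≤ 2 * m + 1 → r ^ (k * (k + 1)) ≤ 2 ^ E →
      E + (m + 1) ≤ r ^ k → 5 ≤ 2 ^ m → FiveR G Ω (Fin 2) := by
    intro m E h1 h2 h3 h4
    refine five_of_count (m := m) (fun g hg => ?_) ?_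
    · have := hfix g hg
      rw [hc]; omega
    · calc Nat.card G * (2 ^ m + 5) ≤ (r ^ k) ^ (k + 1) * (2 ^ m + 2 ^ m) := by
            rw [hc] at hGle
            exact Nat.mul_le_mul hGle (by omega)
        _ = r ^ (k * (k + 1)) * 2 ^ (m + 1) := by rw [← pow_mul, pow_succ, mul_two]
        _ ≤ 2 ^ E * 2 ^ (m + 1) := Nat.mul_le_mul_right _ h2
        _ = 2 ^ (E + (m + 1)) := (pow_add _ _ _).symm
        _ ≤ 2 ^ (r ^ k) := Nat.pow_le_pow_right (by norm_num) h3
        _ = 2 ^ Nat.card Ω := by rw [hc]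
  rcases h with ⟨rfl, hk⟩ | ⟨hr3, hk⟩
  · have h2 := pow_bound_two hk
    have hb2 : b = 2 * 2 ^ (k - 2) := by
      rw [hb, ← pow_succ']; congr 1; omega
    refine key (3 * 2 ^ (k - 2)) (k * (k + 1)) ?_ le_rfl ?_ ?_
    · rw [hrk, hb2]; omega
    · rw [hrk, hb2]; omega
    · calc 5 ≤ 2 ^ 3 := by norm_num
        _ ≤ 2 ^ (3 * 2 ^ (k - 2)) := Nat.pow_le_pow_right (by norm_num) (by omega)
  · have h3 := pow_bound_three hk
    have hb3 : 3 ^ (k - 1) ≤ b := Nat.pow_le_pow_left hr3 _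
    obtain ⟨s, rfl⟩ : ∃ s, r = s + 1 := ⟨r - 1, by omega⟩
    have hs2 : 2 ≤ s := by omega
    have hr2 : s + 1 ≤ 2 ^ s := Nat.lt_two_pow_self
    have hE : (s + 1) ^ (k * (k + 1)) ≤ 2 ^ (s * (k * (k + 1))) := by
      rw [pow_mul 2 s]
      exact Nat.pow_le_pow_left hr2 _
    -- the number `m`
    have hnb : (s + 1) ^ k = s * b + b := by rw [hrk]; ring
    have hmain : 2 * (s * (k * (k + 1))) + 2 ≤ s * b := by
      have h4 : s * (2 * k * (k + 1) + 1) ≤ s * b := Nat.mul_le_mul_left _ (h3.trans hb3)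
      nlinarith
    obtain ⟨m, hm⟩ : ∃ m, (s + 1) ^ k + b ≤ 2 * m + 1 ∧ 2 * m ≤ (s + 1) ^ k + b :=
      ⟨((s + 1) ^ k + b) / 2, by omega, by omega⟩
    refine key m (s * (k * (k + 1))) hm.1 hE ?_ ?_
    · rw [hnb] at hm ⊢
      omega
    · have : 3 ≤ m := by
        have h5 : 81 ≤ b := by
          refine le_trans ?_ hb3
          calc 81 = 3 ^ 4 := by norm_num
            _ ≤ 3 ^ (k - 1) := Nat.pow_le_pow_right (by norm_num) (by omega)
        omega
      calc 5 ≤ 2 ^ 3 := by norm_num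
        _ ≤ 2 ^ m := Nat.pow_le_pow_right (by norm_num) this

/-- **(F2)** -/
theorem f2 {G : Type u} {Ω : Type w} [Group G] [Finite G] [Group.IsSolvable G] [MulAction G Ω]
    [FaithfulSMul G Ω] [MulAction.IsPreprimitive G Ω] [Finite Ω] (hn : 5 ≤ Nat.card Ω) :
    ∃ c : Fin 5 → Ω → Fin 2, (∀ i j, i ≠ j → ∀ g : G, ¬ ∀ ω, c i (g • ω) = c j ω) ∧
      ∀ i, ∀ S : Subgroup G, (∀ g ∈ S, ∀ ω, c i (g • ω) = c i ω) → derivedSeries S 3 = ⊥ := by
  obtain ⟨r, k, hr, ⟨C⟩⟩ := exists_coord (G := G) (Ω := Ω) inferInstance (by omega)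
  by_cases hk : k ≤ 4
  · exact five_small C hr hk hn
  by_cases hr2 : r = 2
  · subst hr2
    by_cases hk9 : 9 ≤ k
    · exact (five_large C hr (Or.inl ⟨rfl, hk9⟩)).five2
    · obtain ⟨m, rfl⟩ : ∃ m, k = 3 + m := ⟨k - 3, by omega⟩
      exact five_two C (by omega)
  · have := hr.two_le
    exact (five_large C hr (Or.inr ⟨by omega, by omega⟩)).five2

end Cfsg.Agent.H583.Col
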