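import Cfsg.Agent.H583.ColSets

/-!
# Rigid two-colourings by counting (helper583)
-/

set_option autoImplicit false

universe u w

namespace Cfsg.Agent.H583.Col

open MulAction

/-- two fixed colourings which agree on `{x ≤ σ x}` are equal -/
theorem agree_le {n : ℕ} (σ : Fin n → Fin n) {A : Type*} (c c' : Fin n → A)
    (hc : ∀ x, c (σ x) = c x) (hc' : ∀ x, c' (σ x) = c' x)
    (h : ∀ x, x ≤ σ x → c x = c' x) (x : Fin n) : c x = c' x := by
  induction x using WellFoundedLT.induction with
  | _ x ih =>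
    by_cases hx : x ≤ σ x
    · exact h x hx
    · rw [← hc x, ← hc' x]
      exact ih _ (not_le.mp hx)

theorem agree_ge {n : ℕ} (σ : Fin n → Fin n) {A : Type*} (c c' : Fin n → A)
    (hc : ∀ x, c (σ x) = c x) (hc' : ∀ x, c' (σ x) = c' x)
    (h : ∀ x, σ x ≤ x → c x = c' x) (x : Fin n) : c x = c' x := by
  induction x using WellFoundedGT.induction with
  | _ x ih =>
    by_cases hx : σ x ≤ x
    · exact h x hx
    · rw [← hc x, ← hc' x]
      exact ih _ (not_le.mp hx)

theorem card_fixed_le {n : ℕ} (σ : Fin n → Fin n) {m : ℕ}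
    (hm : n + (Finset.univ.filter (fun x => σ x = x)).card ≤ 2 * m + 1) :
    (Finset.univ.filter (fun c : Fin n → Fin 2 => ∀ x, c (σ x) = c x)).card ≤ 2 ^ m := by
  classical
  let A : Finset (Fin n) := Finset.univ.filter (fun x => x ≤ σ x)
  let B : Finset (Fin n) := Finset.univ.filter (fun x => σ x ≤ x)
  have hAB : A.card + B.card = n + (Finset.univ.filter (fun x => σ x = x)).card := by
    have h1 := Finset.card_union_add_card_inter A B
    have h2 : A ∪ B = Finset.univ := by
      ext x
      simp only [A, B, Finset.mem_union, Finset.mem_filter, Finset.mem_univ, true_and, iff_true]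
      exact le_total _ _
    have h3 : A ∩ B = Finset.univ.filter (fun x => σ x = x) := by
      ext x
      simp only [A, B, Finset.mem_inter, Finset.mem_filter, Finset.mem_univ, true_and]
      exact ⟨fun h => le_antisymm h.2 h.1, fun h => ⟨h.ge, h.le⟩⟩
    rw [h2, h3, Finset.card_univ, Fintype.card_fin] at h1
    exact h1.symm
  have key : ∀ S : Finset (Fin n), S.card ≤ m →
      (∀ c c' : Fin n → Fin 2, (∀ x, c (σ x) = c x) → (∀ x, c' (σ x) = c' x) →
        (∀ x ∈ S, c x = c' x) → ∀ x, c x = c' x) →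
      (Finset.univ.filter (fun c : Fin n → Fin 2 => ∀ x, c (σ x) = c x)).card ≤ 2 ^ m := by
    intro S hS h
    have h1 : (Finset.univ.filter (fun c : Fin n → Fin 2 => ∀ x, c (σ x) = c x)).card ≤
        (Finset.univ : Finset (S → Fin 2)).card := by
      refine Finset.card_le_card_of_injOn (fun c x => c x) (fun c _ => Finset.mem_univ _) ?_
      intro c hc c' hc' hcc
      simp only [Finset.coe_filter, Finset.mem_univ, true_and, Set.mem_ofPred_eq] at hc hc'
      funext x
      exact h c c' hc hc' (fun x hx => congrFun hcc ⟨x, hx⟩) x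
    refine h1.trans ?_
    rw [Finset.card_univ, Fintype.card_fun, Fintype.card_fin, Fintype.card_coe]
    exact Nat.pow_le_pow_right (by norm_num) hS
  by_cases hA : A.card ≤ m
  · refine key A hA (fun c c' hc hc' h => agree_le σ c c' hc hc' (fun x hx => h x ?_))
    simpa [A] using hx
  · refine key B (by omega) (fun c c' hc hc' h => agree_ge σ c c' hc hc' (fun x hx => h x ?_))
    simpa [B] using hx

variable {G : Type u} {Ω : Type w} [Group G] [MulAction G Ω]

theorem card_fixed_col [Finite Ω] (g : G) {m : ℕ}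
    (hm : Nat.card Ω + Nat.card {ω : Ω // g • ω = ω} ≤ 2 * m + 1) :
    Nat.card {c : Ω → Fin 2 // ∀ ω, c (g • ω) = c ω} ≤ 2 ^ m := by
  classical
  let e := Finite.equivFin Ω
  let σ : Fin (Nat.card Ω) → Fin (Nat.card Ω) := fun x => e (g • e.symm x)
  have h1 : Nat.card {ω : Ω // g • ω = ω} = (Finset.univ.filter (fun x => σ x = x)).card := by
    rw [← Fintype.card_subtype, ← Nat.card_eq_fintype_card]
    refine Nat.card_congr (Equiv.subtypeEquiv e (fun ω => ?_))
    simp only [σ, Equiv.symm_apply_apply, EmbeddingLike.apply_eq_iff_eq]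
  have h2 : Nat.card {c : Ω → Fin 2 // ∀ ω, c (g • ω) = c ω} =
      (Finset.univ.filter (fun c : Fin (Nat.card Ω) → Fin 2 => ∀ x, c (σ x) = c x)).card := by
    rw [← Fintype.card_subtype, ← Nat.card_eq_fintype_card]
    refine Nat.card_congr (Equiv.subtypeEquiv (Equiv.arrowCongr e (Equiv.refl _)) (fun c => ?_))
    simp only [σ, Equiv.arrowCongr_apply, Function.comp_apply, Equiv.symm_apply_apply,
      Equiv.coe_refl, id]
    constructor
    · intro h x
      exact h _
    · intro h ω
      have := h (e ω)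
      rwa [Equiv.symm_apply_apply] at this
  rw [h2]
  exact card_fixed_le σ (by rw [← h1]; exact hm)

/-- a rigid colouring -/
def IsRigid (G : Type u) {Ω : Type w} [Group G] [MulAction G Ω] {A : Type*} (c : Ω → A) : Prop :=
  ∀ g : G, (∀ ω, c (g • ω) = c ω) → g = 1

/-- five inequivalent rigid colourings -/
def FiveR (G : Type u) (Ω : Type w) [Group G] [MulAction G Ω] (A : Type) : Prop :=
  ∃ c : Fin 5 → Ω → A, (∀ i, IsRigid G (c i)) ∧
    ∀ i j, i ≠ j → ∀ g : G, ¬ ∀ ω, c i (g • ω) = c j ω

theorem FiveR.five2 (h : FiveR G Ω (Fin 2)) : Five2 G Ω := by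
  obtain ⟨c, h1, h2⟩ := h
  refine ⟨c, h2, fun i S hS => ?_⟩
  rw [eq_bot_iff]
  intro g _
  rw [Subgroup.mem_bot]
  exact Subtype.ext (h1 i g (hS g g.2))

theorem card_rigid [Finite G] [Finite Ω] {m : ℕ}
    (hm : ∀ g : G, g ≠ 1 → Nat.card Ω + Nat.card {ω : Ω // g • ω = ω} ≤ 2 * m + 1) :
    2 ^ Nat.card Ω ≤ Nat.card {c : Ω → Fin 2 // IsRigid G c} + Nat.card G * 2 ^ m := by
  classical
  have : Fintype Ω := Fintype.ofFinite Ω
  have : Fintype G := Fintype.ofFinite G
  let R : Finset (Ω → Fin 2) := Finset.univ.filter (fun c => IsRigid G c)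
  let F : G → Finset (Ω → Fin 2) := fun g => Finset.univ.filter (fun c => ∀ ω, c (g • ω) = c ω)
  have h1 : (Finset.univ : Finset (Ω → Fin 2)) ⊆
      R ∪ (Finset.univ.filter (fun g : G => g ≠ 1)).biUnion F := by
    intro c _
    by_cases hc : IsRigid G c
    · exact Finset.mem_union_left _ (by simpa [R] using hc)
    · refine Finset.mem_union_right _ ?_
      unfold IsRigid at hc
      push Not at hc
      obtain ⟨g, hg, hg1⟩ := hc
      rw [Finset.mem_biUnion]
      exact ⟨g, by simpa using hg1, by simpa [F] using hg⟩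
  have h2 := Finset.card_le_card h1
  have h3 : ((Finset.univ.filter (fun g : G => g ≠ 1)).biUnion F).card ≤ Nat.card G * 2 ^ m := by
    refine (Finset.card_biUnion_le).trans ?_
    refine (Finset.sum_le_card_nsmul _ _ (2 ^ m) (fun g hg => ?_)).trans ?_
    · have hg' : g ≠ 1 := by simpa using hg
      have := card_fixed_col g (hm g hg')
      rw [Nat.card_eq_fintype_card, Fintype.card_subtype] at this
      exact this
    · rw [smul_eq_mul, Nat.card_eq_fintype_card]
      exact Nat.mul_le_mul_right _ (Finset.card_le_univ _)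
  have h4 : R.card = Nat.card {c : Ω → Fin 2 // IsRigid G c} := by
    rw [Nat.card_eq_fintype_card, Fintype.card_subtype]
  rw [Finset.card_univ, Fintype.card_fun, Fintype.card_fin] at h2
  rw [Nat.card_eq_fintype_card (α := Ω), ← h4]
  exact h2.trans ((Finset.card_union_le _ _).trans (Nat.add_le_add_left h3 _))

/-- the orbit relation on rigid colourings -/
def rigSetoid (G : Type u) (Ω : Type w) [Group G] [MulAction G Ω] (A : Type) :
    Setoid {c : Ω → A // IsRigid G c} where
  r c c' := ∃ g : G, ∀ ω, c.1 (g • ω) = c'.1 ω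
  iseqv :=
    { refl := fun c => ⟨1, fun ω => by rw [one_smul]⟩
      symm := by
        rintro c c' ⟨g, hg⟩
        exact ⟨g⁻¹, fun ω => by rw [← hg, smul_inv_smul]⟩
      trans := by
        rintro c c' c'' ⟨g, hg⟩ ⟨h, hh⟩
        exact ⟨g * h, fun ω => by rw [mul_smul, hg, hh]⟩ }

theorem five_of_count [Finite G] [Finite Ω] {m : ℕ}
    (hm : ∀ g : G, g ≠ 1 → Nat.card Ω + Nat.card {ω : Ω // g • ω = ω} ≤ 2 * m + 1)
    (hG : Nat.card G * (2 ^ m + 5) ≤ 2 ^ Nat.card Ω) : FiveR G Ω (Fin 2) := by
  classical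
  have h1 := card_rigid hm
  let s := rigSetoid G Ω (Fin 2)
  let f : Quotient s × G → {c : Ω → Fin 2 // IsRigid G c} := fun p =>
    ⟨fun ω => (Quotient.out p.1).1 (p.2 • ω), by
      intro g hg
      have h2 := (Quotient.out p.1).2 (p.2 * g * p.2⁻¹) (fun ω => by
        have := hg (p.2⁻¹ • ω)
        simp only at this
        rw [smul_inv_smul] at this
        rw [mul_smul, mul_smul, this])
      rwa [conj_eq_one_iff] at h2⟩
  have hf : Function.Surjective f := by
    intro c
    have h2 : Quotient.out (Quotient.mk s c) ≈ c := Quotient.mk_out c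
    obtain ⟨g, hg⟩ := h2
    exact ⟨(Quotient.mk s c, g), Subtype.ext (funext hg)⟩
  have h3 : Nat.card {c : Ω → Fin 2 // IsRigid G c} ≤ Nat.card (Quotient s) * Nat.card G := by
    rw [← Nat.card_prod]
    exact Nat.card_le_card_of_surjective f hf
  have hGpos : 0 < Nat.card G := Nat.card_pos
  have h5 : 5 ≤ Nat.card (Quotient s) := by
    by_contra hlt
    have h6 : Nat.card (Quotient s) * Nat.card G ≤ 4 * Nat.card G :=
      Nat.mul_le_mul_right _ (by omega)
    nlinarith
  have hfinq : Finite (Quotient s) := inferInstance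
  let e := Finite.equivFin (Quotient s)
  let ι : Fin 5 → Quotient s := fun i => e.symm (Fin.castLE h5 i)
  have hι : Function.Injective ι := fun i j h => Fin.castLE_injective h5 (e.symm.injective h)
  refine ⟨fun i => (Quotient.out (ι i)).1, fun i => (Quotient.out (ι i)).2, ?_⟩
  intro i j hij g hg
  apply hij
  apply hι
  rw [← Quotient.out_eq (ι i), ← Quotient.out_eq (ι j)]
  exact Quotient.sound ⟨g, hg⟩

end Cfsg.Agent.H583.Col
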