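import Cfsg.Agent.H583.ColApi

/-!
# Two-colourings with small stabilisers: sets (helper583)
-/

set_option autoImplicit false

universe u w

namespace Cfsg.Agent.H583.Col

open MulAction
open scoped Pointwise commutatorElement

variable {G : Type u} {Ω : Type w} [Group G] [MulAction G Ω]

/-- every subgroup which preserves `D` has derived length at most 3 -/
def Good (G : Type u) {Ω : Type w} [Group G] [MulAction G Ω] (D : Set Ω) : Prop :=
  ∀ S : Subgroup G, (∀ g ∈ S, ∀ ω, g • ω ∈ D ↔ ω ∈ D) → derivedSeries S 3 = ⊥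

theorem Good.compl {D : Set Ω} (h : Good G D) : Good G Dᶜ := by
  intro S hS
  refine h S (fun g hg ω => ?_)
  have := hS g hg ω
  rwa [Set.mem_compl_iff, Set.mem_compl_iff, not_iff_not] at this

/-- the target for two colours -/
def Five2 (G : Type u) (Ω : Type w) [Group G] [MulAction G Ω] : Prop :=
  ∃ c : Fin 5 → Ω → Fin 2, (∀ i j, i ≠ j → ∀ g : G, ¬ ∀ ω, c i (g • ω) = c j ω) ∧
    ∀ i, ∀ S : Subgroup G, (∀ g ∈ S, ∀ ω, c i (g • ω) = c i ω) → derivedSeries S 3 = ⊥

theorem five_of_sets (D : Fin 5 → Set Ω)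
    (hcard : ∀ i j, i ≠ j → (D i).ncard ≠ (D j).ncard) (hgood : ∀ i, Good G (D i)) :
    Five2 G Ω := by
  classical
  refine ⟨fun i ω => if ω ∈ D i then 1 else 0, ?_, ?_⟩
  · intro i j hij g hg
    apply hcard i j hij
    have h1 : ∀ ω, g • ω ∈ D i ↔ ω ∈ D j := by
      intro ω
      have h2 := hg ω
      by_cases ha : g • ω ∈ D i <;> by_cases hb : ω ∈ D j <;> simp_all
    have h3 : D i = g • D j := by
      ext x
      rw [Set.mem_smul_set_iff_inv_smul_mem, ← h1, smul_inv_smul]
    rw [h3, Set.ncard_smul_set]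
  · intro i S hS
    refine hgood i S (fun g hg ω => ?_)
    have h2 := hS g hg ω
    by_cases ha : g • ω ∈ D i <;> by_cases hb : ω ∈ D i <;> simp_all

variable {r k : ℕ} (C : Coord G Ω r k)

/-- the points of the affine basis -/
def Coord.basisSet : Set Ω :=
  insert (C.e.symm 0) (Set.range (fun i : Fin k => C.e.symm (Pi.single i 1)))

theorem Coord.basisSet_finite : C.basisSet.Finite := (Set.finite_range _).insert _

theorem Coord.basisSet_ncard : C.basisSet.ncard ≤ k + 1 := by
  refine (Set.ncard_insert_le _ _).trans ?_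
  have h1 : (Set.range (fun i : Fin k => C.e.symm (Pi.single i 1))).ncard ≤ k := by
    rw [← Set.image_univ]
    refine (Set.ncard_image_le (Set.finite_univ)).trans ?_
    rw [Set.ncard_univ, Nat.card_fin]
  omega

/-- subgroups for which every basis point lies in a small invariant set -/
theorem ds_of_cover [FaithfulSMul G Ω] [Group.IsSolvable G] (S : Subgroup G)
    (h : ∀ x ∈ C.basisSet, ∃ D : Set Ω, x ∈ D ∧ D.Finite ∧ D.ncard ≤ 7 ∧
      ∀ g ∈ S, ∀ y ∈ D, g • y ∈ D) : derivedSeries S 3 = ⊥ := by
  rw [eq_bot_iff]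
  intro g hg
  rw [Subgroup.mem_bot]
  have h1 : ∀ x ∈ C.basisSet, (g : G) • x = x := by
    intro x hx
    obtain ⟨D, hxD, hfin, h7, hD⟩ := h x hx
    exact tri_seven_set (G := S) D hfin h7 (fun s y hy => hD s s.2 y hy) hg hxD
  apply Subtype.ext
  apply FaithfulSMul.eq_of_smul_eq_smul (α := Ω)
  intro ω
  rw [Subgroup.coe_one, one_smul]
  exact C.smul_eq_of_basis (h1 _ (Set.mem_insert _ _))
    (fun i => h1 _ (Set.mem_insert_of_mem _ ⟨i, rfl⟩)) ω

theorem good_of_seven [FaithfulSMul G Ω] [Group.IsSolvable G] {D : Set Ω} (hD : C.basisSet ⊆ D)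
    (hfin : D.Finite) (h7 : D.ncard ≤ 7) : Good G D := by
  intro S hS
  exact ds_of_cover C S (fun x hx => ⟨D, hD hx, hfin, h7, fun g hg y hy => (hS g hg y).mpr hy⟩)

include C in
theorem exists_good [FaithfulSMul G Ω] [Group.IsSolvable G] [Finite Ω] {s : ℕ} (h1 : k + 1 ≤ s)
    (h2 : s ≤ Nat.card Ω) (h3 : s ≤ 7) : ∃ D : Set Ω, D.ncard = s ∧ Good G D := by
  classical
  have : Fintype Ω := Fintype.ofFinite Ω
  obtain ⟨t, ht1, -, ht2⟩ := Finset.exists_subsuperset_card_eq
    (s := (C.basisSet_finite.toFinset)) (t := Finset.univ) (Finset.subset_univ _) (n := s)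
    (by rw [← Set.ncard_eq_toFinset_card _ C.basisSet_finite]
        exact C.basisSet_ncard.trans h1)
    (by rw [Finset.card_univ, ← Nat.card_eq_fintype_card]; exact h2)
  refine ⟨t, by rw [Set.ncard_coe_finset, ht2], good_of_seven C ?_ (Finset.finite_toSet t) ?_⟩
  · intro x hx
    exact ht1 (by simpa using hx)
  · rw [Set.ncard_coe_finset, ht2]; exact h3

include C in
theorem exists_good_compl [FaithfulSMul G Ω] [Group.IsSolvable G] [Finite Ω] {s : ℕ}
    (h1 : k + 1 ≤ s) (h2 : s ≤ Nat.card Ω) (h3 : s ≤ 7) :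
    ∃ D : Set Ω, D.ncard = Nat.card Ω - s ∧ Good G D := by
  obtain ⟨D, hD, hg⟩ := exists_good (G := G) C h1 h2 h3
  exact ⟨Dᶜ, by rw [Set.ncard_compl, hD], hg.compl⟩

theorem five_of_sizes (s : Fin 5 → ℕ) (hs : ∀ i j, i ≠ j → s i ≠ s j)
    (h : ∀ i, ∃ D : Set Ω, D.ncard = s i ∧ Good G D) : Five2 G Ω := by
  choose D hD hg using h
  exact five_of_sets D (fun i j hij => by rw [hD, hD]; exact hs i j hij) hg

include C in
/-- dimension at most four -/
theorem five_small [FaithfulSMul G Ω] [Group.IsSolvable G] [Finite Ω] (hr : r.Prime)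
    (hk : k ≤ 4) (hn : 5 ≤ Nat.card Ω) : Five2 G Ω := by
  have hc := C.card_eq hr
  set n := Nat.card Ω with hndef
  by_cases hk2 : k ≤ 2
  · by_cases hn7 : n ≤ 6
    · refine five_of_sizes ![1, 2, 3, 4, 5] (by decide) (fun i => ?_)
      fin_cases i
      · obtain ⟨D, hD, hg⟩ := exists_good_compl (G := G) C (s := n - 1) (by omega) (by omega)
          (by omega)
        exact ⟨D, by rw [hD]; simp; omega, hg⟩
      · obtain ⟨D, hD, hg⟩ := exists_good_compl (G := G) C (s := n - 2) (by omega) (by omega)
          (by omega)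
        exact ⟨D, by rw [hD]; simp; omega, hg⟩
      · exact exists_good (G := G) C (s := 3) (by omega) (by omega) (by omega)
      · exact exists_good (G := G) C (s := 4) (by omega) (by omega) (by omega)
      · exact exists_good (G := G) C (s := 5) (by omega) (by omega) (by omega)
    · refine five_of_sizes ![3, 4, 5, 6, 7] (by decide) (fun i => ?_)
      fin_cases i
      · exact exists_good (G := G) C (s := 3) (by omega) (by omega) (by omega)
      · exact exists_good (G := G) C (s := 4) (by omega) (by omega) (by omega)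
      · exact exists_good (G := G) C (s := 5) (by omega) (by omega) (by omega)
      · exact exists_good (G := G) C (s := 6) (by omega) (by omega) (by omega)
      · exact exists_good (G := G) C (s := 7) (by omega) (by omega) (by omega)
  · have hn8 : n = 8 ∨ 16 ≤ n := by
      have hr2 := hr.two_le
      have hk3 : k = 3 ∨ k = 4 := by omega
      rcases hk3 with rfl | rfl
      · by_cases h2 : r = 2
        · left; rw [hc, h2]; norm_num
        · right
          have h3 : 3 ≤ r := by omega
          rw [hc]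
          calc 16 ≤ 3 ^ 3 := by norm_num
            _ ≤ r ^ 3 := Nat.pow_le_pow_left h3 3
      · right
        rw [hc]
        calc 16 ≤ 2 ^ 4 := by norm_num
          _ ≤ r ^ 4 := Nat.pow_le_pow_left hr2 4
    refine five_of_sizes ![5, 6, 7, n - 5, n - 6] ?_ (fun i => ?_)
    · intro i j hij
      fin_cases i <;> fin_cases j <;> first | exact absurd rfl hij | (simp <;> omega)
    · fin_cases i
      · exact exists_good (G := G) C (s := 5) (by omega) (by omega) (by omega)
      · exact exists_good (G := G) C (s := 6) (by omega) (by omega) (by omega)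
      · exact exists_good (G := G) C (s := 7) (by omega) (by omega) (by omega)
      · exact exists_good_compl (G := G) C (s := 5) (by omega) (by omega) (by omega)
      · exact exists_good_compl (G := G) C (s := 6) (by omega) (by omega) (by omega)

end Cfsg.Agent.H583.Col
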