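import Cfsg.Agent.H254.FxEvenTI
import Cfsg.Agent.H254.FxTools

/-!
# The configuration `3²:Q_8` and `OddTI` (helper583, task 2052)

`heis_false` : `OddTI k D` with `3 ∣ |D|` is impossible if `G` contains a subgroup `⟨x, z⟩` of order nine normalised by
a quaternion group `⟨m, n⟩`.
-/

set_option autoImplicit false
set_option linter.unusedSectionVars false

namespace Cfsg.Agent.H583.FxHeis

open Subgroup Cfsg.Agent.H254.Fx

variable {G : Type*} [Group G]

/-- an element of prime order modulo a subgroup -/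
theorem mul_card_dvd [Finite G] {A Y : Subgroup G} (hA : A ≤ Y) {g : G} (hg : g ∈ Y) (hn : g ∈ normalizer (A : Set G))
    {p : ℕ} (hp : p.Prime) (hgp : g ^ p ∈ A) (hgA : g ∉ A) : p * Nat.card A ∣ Nat.card Y := by
  have : Fact p.Prime := ⟨hp⟩
  set B := A ⊔ zpowers g with hB
  have hBY : B ≤ Y := sup_le hA (zpowers_le.2 hg)
  have hBN : B ≤ normalizer (A : Set G) := sup_le le_normalizer (zpowers_le.2 hn)
  have hAB : A ≤ B := le_sup_left
  have hgB : g ∈ B := mem_sup_right (mem_zpowers g)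
  have hnorm : (A.subgroupOf B).Normal := normal_subgroupOf_of_le_normalizer hBN
  have h1 : p ∣ (A.subgroupOf B).index := by
    have h2 : orderOf (QuotientGroup.mk' (A.subgroupOf B) ⟨g, hgB⟩) = p := by
      refine orderOf_eq_prime ?_ ?_
      · rw [← map_pow, QuotientGroup.mk'_apply, QuotientGroup.eq_one_iff, mem_subgroupOf]
        exact hgp
      · rw [Ne, QuotientGroup.mk'_apply, QuotientGroup.eq_one_iff, mem_subgroupOf]
        exact hgA
    rw [Subgroup.index, ← h2]
    exact orderOf_dvd_natCard _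
  have h2 : Nat.card (A.subgroupOf B) * (A.subgroupOf B).index = Nat.card B := card_mul_index _
  rw [Nat.card_congr (subgroupOfEquivOfLe hAB).toEquiv] at h2
  have h3 : p * Nat.card A ∣ Nat.card B := by
    rw [← h2, mul_comm]
    exact mul_dvd_mul_left _ h1
  exact h3.trans (card_dvd_of_le hBY)

/-- the relations of `3²:Q_8` -/
structure Heis (x z m n : G) : Prop where
  xz : x * z = z * x
  x3 : x ^ 3 = 1
  z3 : z ^ 3 = 1
  mz : x * m * z = m
  mx : m * x = z * m
  nz : x * n * z = z * n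
  nx : x * n * x = z ^ 2 * n
  m4 : m * m * (m * m) = 1
  nn : n * n = m * m
  mnm : m * n * m = n
  x1 : x ≠ 1
  m1 : m * m ≠ 1

variable {x z m n : G}

theorem Heis.m_z (h : Heis x z m n) : m * z * m⁻¹ = x⁻¹ := by
  have h1 := h.mz
  rw [mul_inv_eq_iff_eq_mul, eq_inv_mul_iff_mul_eq, ← mul_assoc]
  exact h1

theorem Heis.m_x (h : Heis x z m n) : m * x * m⁻¹ = z := by
  rw [mul_inv_eq_iff_eq_mul]; exact h.mx

theorem Heis.n_z (h : Heis x z m n) : n * z * n⁻¹ = x⁻¹ * z := by
  rw [mul_inv_eq_iff_eq_mul, mul_assoc, eq_inv_mul_iff_mul_eq, ← mul_assoc]; exact h.nz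

theorem Heis.n_x (h : Heis x z m n) : n * x * n⁻¹ = x⁻¹ * z ^ 2 := by
  rw [mul_inv_eq_iff_eq_mul, mul_assoc, eq_inv_mul_iff_mul_eq, ← mul_assoc]; exact h.nx

/-- the subgroup of order nine -/
def P (x z : G) : Subgroup G := closure {x, z}

theorem x_mem : x ∈ P x z := subset_closure (by simp)
theorem z_mem : z ∈ P x z := subset_closure (by simp)

theorem Heis.comm (h : Heis x z m n) {a b : G} (ha : a ∈ P x z) (hb : b ∈ P x z) : a * b = b * a := by
  have h1 : P x z ≤ centralizer (P x z : Set G) := by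
    rw [P, le_centralizer_iff_isMulCommutative]
    refine isMulCommutative_closure ?_
    rintro a (rfl | rfl) b (rfl | rfl)
    · rfl
    · exact h.xz
    · exact h.xz.symm
    · rfl
  exact (mem_centralizer_iff.1 (h1 hb) a ha)

theorem Heis.cube (h : Heis x z m n) {a : G} (ha : a ∈ P x z) : a ^ 3 = 1 := by
  rw [P] at ha
  induction ha using closure_induction with
  | mem a ha =>
    rcases ha with rfl | rfl
    · exact h.x3
    · exact h.z3
  | one => exact one_pow _
  | mul a b ha hb iha ihb =>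
    have h1 : Commute a b := h.comm ha hb
    rw [h1.mul_pow, iha, ihb, one_mul]
  | inv a _ iha => rw [inv_pow, iha, inv_one]

theorem Heis.isPGroup (h : Heis x z m n) : IsPGroup 3 (P x z) := by
  intro a
  exact ⟨1, Subtype.ext (by rw [pow_one]; exact h.cube a.2)⟩

theorem mem_normalizer_P [Finite G] {g : G} (hx : g * x * g⁻¹ ∈ P x z) (hz : g * z * g⁻¹ ∈ P x z) :
    g ∈ normalizer (P x z : Set G) := by
  rw [Cfsg.Agent.EvenType.StrongP.mem_norm]
  refine eq_of_le_of_card_ge ?_ ?_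
  · rw [P, MonoidHom.map_closure, Set.image_pair, closure_le]
    rintro a (rfl | rfl)
    · exact hx
    · exact hz
  · rw [card_map_eq]

theorem Heis.m_norm [Finite G] (h : Heis x z m n) : m ∈ normalizer (P x z : Set G) := by
  apply mem_normalizer_P
  · rw [h.m_x]; exact z_mem
  · rw [h.m_z]; exact inv_mem x_mem

theorem Heis.n_norm [Finite G] (h : Heis x z m n) : n ∈ normalizer (P x z : Set G) := by
  apply mem_normalizer_P
  · rw [h.n_x]; exact mul_mem (inv_mem x_mem) (pow_mem z_mem _)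
  · rw [h.n_z]; exact mul_mem (inv_mem x_mem) z_mem

theorem Heis.inv_x (h : Heis x z m n) : (m * m) * x * (m * m)⁻¹ = x⁻¹ := by
  have : (m * m) * x * (m * m)⁻¹ = m * (m * x * m⁻¹) * m⁻¹ := by group
  rw [this, h.m_x, h.m_z]

theorem Heis.inv_z (h : Heis x z m n) : (m * m) * z * (m * m)⁻¹ = z⁻¹ := by
  have : (m * m) * z * (m * m)⁻¹ = m * (m * z * m⁻¹) * m⁻¹ := by group
  have h2 : m * x⁻¹ * m⁻¹ = (m * x * m⁻¹)⁻¹ := by group
  rw [this, h.m_z, h2, h.m_x]

theorem Heis.inv_all (h : Heis x z m n) {a : G} (ha : a ∈ P x z) : (m * m) * a * (m * m)⁻¹ = a⁻¹ := by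
  rw [P] at ha
  induction ha using closure_induction with
  | mem a ha =>
    rcases ha with rfl | rfl
    · exact h.inv_x
    · exact h.inv_z
  | one => group
  | mul a b ha hb iha ihb =>
    have h1 : (m * m) * (a * b) * (m * m)⁻¹ = ((m * m) * a * (m * m)⁻¹) * ((m * m) * b * (m * m)⁻¹) := by group
    rw [h1, iha, ihb, ← mul_inv_rev, h.comm ha hb]
  | inv a _ iha =>
    rw [← conj_inv, iha]

theorem Heis.orderOf_m (h : Heis x z m n) : orderOf m = 4 := by
  have h1 : m ^ 4 = 1 := by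
    rw [← h.m4, ← pow_two, ← pow_two, ← pow_mul]
  have h2 := orderOf_dvd_of_pow_eq_one h1
  have h3 : ¬ orderOf m ∣ 2 := by
    intro h4
    apply h.m1
    rw [← pow_two]
    exact orderOf_dvd_iff_pow_eq_one.1 h4
  have h5 : orderOf m ≤ 4 := Nat.le_of_dvd (by norm_num) h2
  interval_cases hm : orderOf m
  all_goals first | rfl | (exfalso; revert h2 h3; decide)

/-- `8 ∣ |N(⟨x, z⟩)|` -/
theorem Heis.eight [Finite G] (h : Heis x z m n) : 8 ∣ Nat.card (normalizer (P x z : Set G)) := by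
  have h1 : n * m * n⁻¹ = m⁻¹ := by
    rw [mul_inv_eq_iff_eq_mul, eq_inv_mul_iff_mul_eq, ← mul_assoc]; exact h.mnm
  have h2 : n ∈ normalizer (zpowers m : Set G) := by
    rw [Cfsg.Agent.EvenType.StrongP.mem_norm]
    refine eq_of_le_of_card_ge ?_ ?_
    · rw [MonoidHom.map_zpowers, zpowers_le]
      change n * m * n⁻¹ ∈ zpowers m
      rw [h1]
      exact inv_mem (mem_zpowers m)
    · rw [card_map_eq]
  have h3 : n ∉ zpowers m := by
    intro hmem
    obtain ⟨k, hk⟩ := mem_zpowers_iff.1 hmem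
    have h4 : n * m * n⁻¹ = m := by rw [← hk]; group
    apply h.m1
    rw [h4] at h1
    exact mul_eq_one_iff_eq_inv.2 h1
  have h4 := mul_card_dvd (A := zpowers m) (Y := normalizer (P x z : Set G)) (zpowers_le.2 h.m_norm) h.n_norm h2
    Nat.prime_two (by rw [pow_two, h.nn]; exact mul_mem (mem_zpowers m) (mem_zpowers m)) h3
  rwa [Nat.card_zpowers, h.orderOf_m] at h4

/-- `9 ∣ |⟨x, z⟩|` -/
theorem Heis.nine [Finite G] (h : Heis x z m n) : 9 ∣ Nat.card (P x z) := by
  have hf : Fact (Nat.Prime 3) := ⟨Nat.prime_three⟩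
  have hx : orderOf x = 3 := orderOf_eq_prime h.x3 h.x1
  have h3 : z ∉ zpowers x := by
    intro hmem
    rw [← (isOfFinOrder_of_finite x).mem_powers_iff_mem_zpowers] at hmem
    obtain ⟨k, hk⟩ := hmem
    have hk' : z = x ^ k := hk.symm
    have h4 := h.m_z
    rw [hk', ← conj_pow, h.m_x, hk', ← pow_mul] at h4
    have h5 : x ^ (k * k + 1) = 1 := by
      rw [pow_succ, h4, inv_mul_cancel]
    have h6 := orderOf_dvd_of_pow_eq_one h5
    rw [hx] at h6
    have h7 : (k * k + 1) % 3 = 0 := Nat.mod_eq_zero_of_dvd h6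
    rw [Nat.add_mod, Nat.mul_mod] at h7
    have h8 : k % 3 < 3 := Nat.mod_lt _ (by norm_num)
    interval_cases k % 3 <;> omega
  have h4 := mul_card_dvd (A := zpowers x) (Y := P x z) (zpowers_le.2 x_mem) z_mem
    (Cfsg.Agent.H254.Fx.mem_normalizer_of_comm h.xz.symm) Nat.prime_three (by rw [h.z3]; exact one_mem _) h3
  rwa [Nat.card_zpowers, hx] at h4

/-- a Sylow subgroup in `D`: every `r`-subgroup may be assumed to be in `D` -/
theorem exists_le_of_sylow [Finite G] {k r : ℕ} (hr : r.Prime) {D : Subgroup G} (h : OddTI k D) {Q : Sylow r G}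
    (hQ : (Q : Subgroup G) ≤ D) {X : Subgroup G} (hX : IsPGroup r X) : ∃ D' : Subgroup G, OddTI k D' ∧ X ≤ D' := by
  have : Fact r.Prime := ⟨hr⟩
  obtain ⟨R, hR⟩ := hX.exists_le_sylow
  obtain ⟨g, hg⟩ := MulAction.exists_smul_eq G Q R
  refine ⟨D.map (MulAut.conj g).toMonoidHom, h.conj_map g, ?_⟩
  refine hR.trans ?_
  rw [← hg, Sylow.coe_subgroup_smul]
  exact map_mono hQ

/-- **the configuration is impossible** -/
theorem heis_false [Finite G] (h : Heis x z m n) {k : ℕ} {D : Subgroup G} (hD : OddTI k D) (h3 : 3 ∣ Nat.card D) :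
    False := by
  have hf : Fact (Nat.Prime 3) := ⟨Nat.prime_three⟩
  have hP1 : P x z ≠ ⊥ := by
    intro h1
    have h2 := x_mem (x := x) (z := z)
    rw [h1, mem_bot] at h2
    exact h.x1 h2
  suffices hex : ∃ D' : Subgroup G, OddTI k D' ∧ P x z ≤ D' by
    obtain ⟨D', hD', hle⟩ := hex
    exact hD'.not_eight hle hP1 le_rfl h.eight
  rcases hD.three h3 with ⟨Q, hQ⟩ | h9
  · exact exists_le_of_sylow Nat.prime_three hD hQ h.isPGroup
  · obtain ⟨Q, hQ⟩ := h.isPGroup.exists_le_sylow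
    have hPQ : P x z = (Q : Subgroup G) := by
      refine eq_of_le_of_card_ge hQ ?_
      have h4 := Nat.le_of_dvd Nat.card_pos h.nine
      have h5 : Nat.card (Q : Subgroup G) = 9 := (h9 Q).1
      omega
    obtain ⟨d, hd⟩ := exists_prime_orderOf_dvd_card' 3 h3
    have hd' : orderOf (d : G) = 3 := by rw [Subgroup.orderOf_coe]; exact hd
    obtain ⟨g, hg⟩ := exists_conj_of_sylow_le Nat.prime_three (le_refl (Q : Subgroup G)) hd'
    have hD' := hD.conj_map g
    set D' := D.map (MulAut.conj g).toMonoidHom with hD'def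
    set d' := g * (d : G) * g⁻¹ with hd'def
    have hdD : d' ∈ D' := ⟨d, d.2, rfl⟩
    have hd1 : d' ≠ 1 := by
      intro h1
      have h2 : orderOf d' = 3 := by
        rw [← hd']; exact (MulAut.conj g).orderOf_eq (d : G)
      rw [h1, orderOf_one] at h2
      omega
    have hdP : d' ∈ P x z := by rw [hPQ]; exact hg
    have hN := hD'.normz hdD hd1
    refine ⟨D', hD', fun y hy => ?_⟩
    refine hD'.noinv y (hN (Cfsg.Agent.H254.Fx.mem_normalizer_of_comm (h.comm hy hdP))) (m * m) (hN ?_) ?_ ?_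
    · rw [Cfsg.Agent.EvenType.StrongP.mem_norm]
      refine eq_of_le_of_card_ge ?_ ?_
      · rw [MonoidHom.map_zpowers, zpowers_le]
        change (m * m) * d' * (m * m)⁻¹ ∈ zpowers d'
        rw [h.inv_all hdP]
        exact inv_mem (mem_zpowers _)
      · rw [card_map_eq]
    · rw [h.cube hy]; exact one_mem _
    · rw [h.inv_all hy, inv_mul_cancel]; exact one_mem _

end Cfsg.Agent.H583.FxHeis
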