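import Cfsg.Agent.H583.FxThree
import Cfsg.Agent.H583.FxHeis

/-!
# `3²:Q_8` in `PSL_3(q)`, `q ≡ 1 mod 3` (helper583, task 2052)
-/

set_option autoImplicit false
set_option linter.unusedSectionVars false

namespace Cfsg.Agent.H583.FxThree

open Matrix Subgroup Cfsg.Agent.H254.Fx Cfsg.Agent.H583.FxHeis

variable {F : Type} [Field F]

def Xm (F : Type) [Field F] : Matrix (Fin 3) (Fin 3) F := !![0, 0, 1; 1, 0, 0; 0, 1, 0]
def Zm (w : F) : Matrix (Fin 3) (Fin 3) F := !![1, 0, 0; 0, w, 0; 0, 0, w ^ 2]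
def Mm (w d : F) : Matrix (Fin 3) (Fin 3) F := !![d, d, d; d, d * w, d * w ^ 2; d, d * w ^ 2, d * w]
def Nm (w d : F) : Matrix (Fin 3) (Fin 3) F :=
  !![d, d * w ^ 2, d * w ^ 2; d * w, d * w, d * w ^ 2; d * w, d * w ^ 2, d * w]

variable {w d : F}

theorem det_Xm : (Xm F).det = 1 := by rw [Xm, det_fin_three]; simp

theorem det_Zm (hw : w ^ 2 + w + 1 = 0) : (Zm w).det = 1 := by
  rw [Zm, det_fin_three]; simp
  grind

theorem det_Mm (hw : w ^ 2 + w + 1 = 0) (hd : d * (w - w ^ 2) = 1) : (Mm w d).det = 1 := by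
  rw [Mm, det_fin_three]; simp
  grind

theorem det_Nm (hw : w ^ 2 + w + 1 = 0) (hd : d * (w - w ^ 2) = 1) : (Nm w d).det = 1 := by
  rw [Nm, det_fin_three]; simp
  grind

theorem rel_xz (hw : w ^ 2 + w + 1 = 0) : w • (Xm F * Zm w) = Zm w * Xm F := by
  ext i j
  fin_cases i <;> fin_cases j <;> simp [Xm, Zm, mul_apply, Fin.sum_univ_three] <;> grind

theorem rel_mz (hw : w ^ 2 + w + 1 = 0) : Xm F * Mm w d * Zm w = Mm w d := by
  ext i j
  fin_cases i <;> fin_cases j <;> simp [Xm, Zm, Mm, mul_apply, Fin.sum_univ_three] <;> grind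

theorem rel_mx (hw : w ^ 2 + w + 1 = 0) : Mm w d * Xm F = Zm w * Mm w d := by
  ext i j
  fin_cases i <;> fin_cases j <;> simp [Xm, Zm, Mm, mul_apply, Fin.sum_univ_three] <;> grind

theorem rel_nz (hw : w ^ 2 + w + 1 = 0) : w ^ 2 • (Xm F * Nm w d * Zm w) = Zm w * Nm w d := by
  ext i j
  fin_cases i <;> fin_cases j <;> simp [Xm, Zm, Nm, mul_apply, Fin.sum_univ_three] <;> grind

theorem rel_nx (hw : w ^ 2 + w + 1 = 0) : w • (Xm F * Nm w d * Xm F) = Zm w ^ 2 * Nm w d := by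
  rw [pow_two]
  ext i j
  fin_cases i <;> fin_cases j <;> simp [Xm, Zm, Nm, mul_apply, Fin.sum_univ_three] <;> grind

theorem rel_mm (hw : w ^ 2 + w + 1 = 0) (hd : d * (w - w ^ 2) = 1) :
    Mm w d * Mm w d = !![-1, 0, 0; 0, 0, -1; 0, -1, 0] := by
  ext i j
  fin_cases i <;> fin_cases j <;> simp [Mm, mul_apply, Fin.sum_univ_three] <;> grind

theorem rel_nn (hw : w ^ 2 + w + 1 = 0) (hd : d * (w - w ^ 2) = 1) :
    Nm w d * Nm w d = !![-1, 0, 0; 0, 0, -1; 0, -1, 0] := by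
  ext i j
  fin_cases i <;> fin_cases j <;> simp [Nm, mul_apply, Fin.sum_univ_three] <;> grind

theorem rel_mnm (hw : w ^ 2 + w + 1 = 0) (hd : d * (w - w ^ 2) = 1) : Mm w d * Nm w d * Mm w d = Nm w d := by
  ext i j
  fin_cases i <;> fin_cases j <;> simp [Mm, Nm, mul_apply, Fin.sum_univ_three] <;> grind

/-- equality modulo scalars -/
theorem mk_eq_of_smul {a b : Matrix.SpecialLinearGroup (Fin 3) F} (c : F) (h : c • a.1 = b.1) : mk F a = mk F b := by
  have h1 : b.1 * (a⁻¹).1 = c • (1 : Matrix (Fin 3) (Fin 3) F) := by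
    rw [← h, smul_mul_assoc, ← Matrix.SpecialLinearGroup.coe_mul, mul_inv_cancel]
    rfl
  have h2 : mk F (b * a⁻¹) = 1 := by
    refine mk_eq_one.2 ⟨c, ?_, ?_⟩
    · have h3 := (b * a⁻¹).2
      rw [Matrix.SpecialLinearGroup.coe_mul, h1, det_smul, det_one, mul_one, Fintype.card_fin] at h3
      exact h3
    · rw [Matrix.SpecialLinearGroup.coe_mul, h1, scalar_apply, smul_one_eq_diagonal]
  rw [map_mul, map_inv, mul_inv_eq_one] at h2
  exact h2.symm

def Xs (F : Type) [Field F] : Matrix.SpecialLinearGroup (Fin 3) F := ⟨Xm F, det_Xm⟩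
def Zs (hw : w ^ 2 + w + 1 = 0) : Matrix.SpecialLinearGroup (Fin 3) F := ⟨Zm w, det_Zm hw⟩
def Ms (hw : w ^ 2 + w + 1 = 0) (hd : d * (w - w ^ 2) = 1) : Matrix.SpecialLinearGroup (Fin 3) F :=
  ⟨Mm w d, det_Mm hw hd⟩
def Ns (hw : w ^ 2 + w + 1 = 0) (hd : d * (w - w ^ 2) = 1) : Matrix.SpecialLinearGroup (Fin 3) F :=
  ⟨Nm w d, det_Nm hw hd⟩

/-- **`3²:Q_8` in `PSL_3(q)`.** -/
theorem heis (hw : w ^ 2 + w + 1 = 0) (hd : d * (w - w ^ 2) = 1) :
    Heis (mk F (Xs F)) (mk F (Zs hw)) (mk F (Ms hw hd)) (mk F (Ns hw hd)) where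
  xz := by
    rw [← map_mul, ← map_mul]
    exact mk_eq_of_smul w (rel_xz hw)
  x3 := by
    rw [← map_pow]
    have h1 : Xs F ^ 3 = 1 := by
      apply Subtype.ext
      rw [Matrix.SpecialLinearGroup.coe_pow]
      change Xm F ^ 3 = 1
      rw [pow_three]
      ext i j
      fin_cases i <;> fin_cases j <;> simp [Xm, mul_apply, Fin.sum_univ_three]
    rw [h1, map_one]
  z3 := by
    rw [← map_pow]
    have h1 : Zs hw ^ 3 = 1 := by
      apply Subtype.ext
      rw [Matrix.SpecialLinearGroup.coe_pow]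
      change Zm w ^ 3 = 1
      rw [pow_three]
      ext i j
      fin_cases i <;> fin_cases j <;> simp [Zm, mul_apply, Fin.sum_univ_three] <;> grind
    rw [h1, map_one]
  mz := by
    rw [← map_mul, ← map_mul]
    congr 1
    exact Subtype.ext (rel_mz hw)
  mx := by
    rw [← map_mul, ← map_mul]
    congr 1
    exact Subtype.ext (rel_mx hw)
  nz := by
    rw [← map_mul, ← map_mul, ← map_mul]
    exact mk_eq_of_smul (w ^ 2) (rel_nz hw)
  nx := by
    rw [← map_pow, ← map_mul, ← map_mul, ← map_mul]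
    exact mk_eq_of_smul w (rel_nx hw)
  m4 := by
    rw [← map_mul, ← map_mul]
    have h1 : Ms hw hd * Ms hw hd * (Ms hw hd * Ms hw hd) = 1 := by
      apply Subtype.ext
      change Mm w d * Mm w d * (Mm w d * Mm w d) = 1
      rw [rel_mm hw hd]
      ext i j
      fin_cases i <;> fin_cases j <;> simp [mul_apply, Fin.sum_univ_three]
    rw [h1, map_one]
  nn := by
    rw [← map_mul, ← map_mul]
    congr 1
    exact Subtype.ext ((rel_nn hw hd).trans (rel_mm hw hd).symm)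
  mnm := by
    rw [← map_mul, ← map_mul]
    congr 1
    exact Subtype.ext (rel_mnm hw hd)
  x1 := by
    intro h
    obtain ⟨c, -, hc⟩ := mk_eq_one.1 h
    have h1 := congrFun (congrFun hc 1) 0
    simp [Xs, Xm] at h1
  m1 := by
    intro h
    rw [← map_mul] at h
    obtain ⟨c, -, hc⟩ := mk_eq_one.1 h
    have h2 : (Ms hw hd * Ms hw hd).1 = !![-1, 0, 0; 0, 0, -1; 0, -1, 0] := rel_mm hw hd
    rw [h2] at hc
    have h1 := congrFun (congrFun hc 1) 2
    simp at h1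

/-- **`3 ∣ q - 1`** -/
theorem no_three_split [Fintype F] (h : 3 ∣ Fintype.card F - 1) {k : ℕ}
    {D : Subgroup (ProjectiveSpecialLinearGroup (Fin 3) F)} (hD : OddTI k D) (h3 : 3 ∣ Nat.card D) : False := by
  have hf : Fact (Nat.Prime 3) := ⟨Nat.prime_three⟩
  obtain ⟨z, hz⟩ := exists_prime_orderOf_dvd_card' (G := Fˣ) 3 (by rwa [Nat.card_units, Nat.card_eq_fintype_card])
  obtain ⟨w, hwdef⟩ : ∃ w : F, w = z := ⟨_, rfl⟩
  have hw3 : w ^ 3 = 1 := by
    rw [hwdef, ← Units.val_pow_eq_pow_val, ← hz, pow_orderOf_eq_one, Units.val_one]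
  have hw1 : w ≠ 1 := by
    intro h1
    have h2 : z = 1 := Units.ext (by rw [← hwdef, h1, Units.val_one])
    rw [h2, orderOf_one] at hz
    omega
  have hw : w ^ 2 + w + 1 = 0 := by
    have h1 : (w - 1) * (w ^ 2 + w + 1) = 0 := by linear_combination hw3
    exact (mul_eq_zero.1 h1).resolve_left (sub_ne_zero.2 hw1)
  have hne : w - w ^ 2 ≠ 0 := by
    intro h1
    have h2 : w * (1 - w) = 0 := by linear_combination h1
    rcases mul_eq_zero.1 h2 with h4 | h4
    · rw [h4] at hw3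
      norm_num at hw3
    · exact hw1 (sub_eq_zero.1 h4).symm
  exact heis_false (heis hw (d := (w - w ^ 2)⁻¹) (inv_mul_cancel₀ hne)) hD h3

end Cfsg.Agent.H583.FxThree
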