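import Cfsg.Agent.H124.LinCyc

/-!
# Linear algebra in dimension three for the rows `PSL_3(q)` of S3002 (helper583, task 2052)

* `exists_eps` : an involution `t`: one of `t - 1`, `t + 1` has rank at most one;
* `no_inv_three` : `x` of order `r`, `q` of order three modulo `r`: no involution centralises or inverts `x`;
* `no_comm_two`, `no_four_two` : `q` even of order two modulo `r`: no involution centralises `x`, no element of order four
  normalises `⟨x⟩`.
-/

set_option autoImplicit false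
set_option linter.unusedSectionVars false

namespace Cfsg.Agent.H583.FxLin

open Module Subgroup

variable {F : Type*} [Field F] {V : Type*} [AddCommGroup V] [Module F V]

/-- `T - ε` -/
def dl (t : V ≃ₗ[F] V) (ε : F) : V →ₗ[F] V := (t : V →ₗ[F] V) - ε • LinearMap.id

theorem dl_apply (t : V ≃ₗ[F] V) (ε : F) (v : V) : dl t ε v = t v - ε • v := rfl

theorem mem_ker_dl {t : V ≃ₗ[F] V} {ε : F} {v : V} : v ∈ LinearMap.ker (dl t ε) ↔ t v = ε • v := by
  rw [LinearMap.mem_ker, dl_apply, sub_eq_zero]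

/-- the fixed vectors -/
def fx (x : V ≃ₗ[F] V) : Submodule F V := LinearMap.ker (dl x 1)

theorem mem_fx {x : V ≃ₗ[F] V} {v : V} : v ∈ fx x ↔ x v = v := by
  rw [fx, mem_ker_dl, one_smul]

theorem exists_eps [FiniteDimensional F V] (h3 : finrank F V = 3) {t : V ≃ₗ[F] V} (ht : t * t = 1) :
    ∃ ε : F, (ε = 1 ∨ ε = -1) ∧ finrank F (LinearMap.range (dl t ε)) ≤ 1 := by
  by_contra hcon
  push Not at hcon
  have h1 := hcon 1 (Or.inl rfl)
  have h2 := hcon (-1) (Or.inr rfl)
  have hle : LinearMap.range (dl t (-1)) ≤ LinearMap.ker (dl t 1) := by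
    rintro _ ⟨v, rfl⟩
    rw [LinearMap.mem_ker, dl_apply, dl_apply]
    have h4 : t (t v) = v := by
      rw [← LinearEquiv.mul_apply, ht]; rfl
    rw [map_sub, map_smul, h4, one_smul, neg_smul, neg_smul, one_smul, one_smul]
    abel
  have h4 := LinearMap.finrank_range_add_finrank_ker (dl t 1)
  have h5 := Submodule.finrank_mono hle
  omega

theorem range_eq_span [FiniteDimensional F V] {N : V →ₗ[F] V} (hN : finrank F (LinearMap.range N) ≤ 1) {u : V}
    (hu : N u ≠ 0) : LinearMap.range N = Submodule.span F {N u} := by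
  symm
  apply Submodule.eq_of_le_of_finrank_le
  · rw [Submodule.span_singleton_le_iff_mem]
    exact ⟨u, rfl⟩
  · rw [finrank_span_singleton hu]
    exact hN

/-- an eigenvector -/
theorem exists_eigen [FiniteDimensional F V] {N : V →ₗ[F] V} (hN : finrank F (LinearMap.range N) ≤ 1) {u : V}
    (hu : N u ≠ 0) {x : V ≃ₗ[F] V} (hx : ∀ v, x (N v) = N (x v)) : ∃ a : F, x (N u) = a • N u := by
  have h1 : x (N u) ∈ LinearMap.range N := ⟨x u, (hx u).symm⟩
  rw [range_eq_span hN hu, Submodule.mem_span_singleton] at h1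
  obtain ⟨a, ha⟩ := h1
  exact ⟨a, ha.symm⟩

theorem pow_eigen {x : V ≃ₗ[F] V} {w : V} {a : F} (h : x w = a • w) (n : ℕ) : (x ^ n) w = a ^ n • w := by
  induction n with
  | zero => simp
  | succ n ih => rw [pow_succ, LinearEquiv.mul_apply, h, map_smul, ih, smul_smul, ← pow_succ']

theorem eigen_pow {x : V ≃ₗ[F] V} {w : V} {a : F} (h : x w = a • w) (hw : w ≠ 0) {r : ℕ} (hx : x ^ r = 1) :
    a ^ r = 1 := by
  have h1 := pow_eigen h r
  rw [hx] at h1
  have h2 : (1 - a ^ r) • w = 0 := by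
    rw [sub_smul, one_smul, ← h1]
    exact sub_self w
  rcases smul_eq_zero.1 h2 with h3 | h3
  · exact (sub_eq_zero.1 h3).symm
  · exact absurd h3 hw

/-- an involution inverting an element of odd order: a fixed vector -/
theorem exists_fixed [FiniteDimensional F V] (h3 : finrank F V = 3) {t x : V ≃ₗ[F] V} {ε : F}
    (hε : finrank F (LinearMap.range (dl t ε)) ≤ 1) (hinv : t * x * t⁻¹ = x⁻¹) {m : ℕ}
    (hm : x ^ (2 * m) = x) : ∃ v : V, v ≠ 0 ∧ x v = v := by
  have hk := LinearMap.finrank_range_add_finrank_ker (dl t ε)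
  set U := LinearMap.ker (dl t ε) with hU
  set y : V ≃ₗ[F] V := x ^ m with hy
  -- `t x = y⁻¹ t y`
  have e1 : y⁻¹ * t * y = t * x := by
    have h4 : t * y * t⁻¹ = y⁻¹ := by rw [hy, ← inv_pow, ← hinv, conj_pow]
    have h5 : y⁻¹ * t = t * y := by rw [← h4, inv_mul_cancel_right]
    rw [h5, mul_assoc, hy, ← pow_add, ← two_mul, hm]
  set U' := U.map ((y⁻¹ : V ≃ₗ[F] V) : V →ₗ[F] V) with hU'
  have h4 : finrank F U' = finrank F U := LinearEquiv.finrank_map_eq (y⁻¹) U
  have h5 := Submodule.finrank_sup_add_finrank_inf_eq U U'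
  have h6 : finrank F ↥(U ⊔ U') ≤ finrank F V := Submodule.finrank_le _
  have h7 : U ⊓ U' ≠ ⊥ := by
    intro h
    rw [h, finrank_bot] at h5
    omega
  obtain ⟨v, hv, hv0⟩ := Submodule.exists_mem_ne_zero_of_ne_bot h7
  refine ⟨v, hv0, ?_⟩
  obtain ⟨hvU, u, hu, huv⟩ := Submodule.mem_inf.1 hv
  have huv' : y⁻¹ u = v := huv
  have h8 : t v = ε • v := mem_ker_dl.1 hvU
  have h9 : t u = ε • u := mem_ker_dl.1 hu
  have h10 : y v = u := by
    rw [← huv', ← LinearEquiv.mul_apply, mul_inv_cancel]; rfl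
  have h11 : (t * x) v = ε • v := by
    rw [← e1, LinearEquiv.mul_apply, LinearEquiv.mul_apply, h10, h9, map_smul, huv']
  rw [LinearEquiv.mul_apply, ← h8] at h11
  exact t.injective h11

section fixed

variable [Fintype F] [Finite V] {r e : ℕ} [hr : Fact r.Prime]

/-- the dimension of the fixed space on an invariant subspace -/
theorem dvd_fx (he : 0 < e) (hiff : ∀ j, r ∣ Fintype.card F ^ j - 1 ↔ e ∣ j) {x : V ≃ₗ[F] V} (hx : x ^ r = 1)
    (U : Submodule F V) (hU : ∀ u ∈ U, x u ∈ U) : e ∣ finrank F U - finrank F ↥(fx x ⊓ U) := by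
  have hfin : Finite (V ≃ₗ[F] V) := Finite.of_injective (fun f : V ≃ₗ[F] V => (f : V → V)) DFunLike.coe_injective
  have hA : IsPGroup r ↥(zpowers x) := by
    intro g
    obtain ⟨k, hk⟩ := mem_zpowers_iff.1 g.2
    refine ⟨1, Subtype.ext ?_⟩
    change (g : V ≃ₗ[F] V) ^ r ^ 1 = 1
    rw [pow_one, ← hk, ← zpow_natCast, ← zpow_mul, mul_comm, zpow_mul, zpow_natCast, hx, one_zpow]
  have hinv : ∀ a : ↥(zpowers x), ∀ u ∈ U, (zpowers x).subtype a u ∈ U := by
    intro a u hu
    obtain ⟨k, hk⟩ := (mem_powers_iff_mem_zpowers (x := x)).2 a.2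
    change (a : V ≃ₗ[F] V) u ∈ U
    rw [← hk]
    clear hk
    induction k with
    | zero => exact hu
    | succ k ih =>
      change (x ^ (k + 1)) u ∈ U
      rw [pow_succ', LinearEquiv.mul_apply]
      exact hU _ ih
  have h1 := H124.LinCyc.dvd_sub (V := ↥U) he hiff hA (H124.LinCyc.restr (zpowers x).subtype U hinv)
  have h2 : finrank F ↥(H124.LinCyc.fix (H124.LinCyc.restr (zpowers x).subtype U hinv)) = finrank F ↥(fx x ⊓ U) := by
    have h3 : (H124.LinCyc.fix (H124.LinCyc.restr (zpowers x).subtype U hinv)).map U.subtype = fx x ⊓ U := by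
      ext v
      constructor
      · rintro ⟨u, hu, rfl⟩
        refine Submodule.mem_inf.2 ⟨mem_fx.2 ?_, u.2⟩
        have h4 := congrArg Subtype.val (hu ⟨x, mem_zpowers x⟩)
        exact h4
      · rintro ⟨hv, hvU⟩
        refine ⟨⟨v, hvU⟩, fun a => Subtype.ext ?_, rfl⟩
        obtain ⟨k, hk⟩ := (mem_powers_iff_mem_zpowers (x := x)).2 a.2
        change (a : V ≃ₗ[F] V) v = v
        rw [← hk]
        have h5 := pow_eigen (x := x) (w := v) (a := (1 : F)) (by rw [one_smul]; exact mem_fx.1 hv) k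
        rw [one_pow, one_smul] at h5
        exact h5
    rw [← h3]
    exact (Submodule.finrank_map_subtype_eq U _).symm
  rwa [h2] at h1

theorem dvd_fx_top (he : 0 < e) (hiff : ∀ j, r ∣ Fintype.card F ^ j - 1 ↔ e ∣ j) {x : V ≃ₗ[F] V} (hx : x ^ r = 1) :
    e ∣ finrank F V - finrank F ↥(fx x) := by
  have h1 := dvd_fx he hiff hx ⊤ (fun u _ => Submodule.mem_top)
  rwa [inf_top_eq, finrank_top] at h1

theorem fx_ne_top {x : V ≃ₗ[F] V} (hx1 : x ≠ 1) : finrank F ↥(fx x) < finrank F V := by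
  have hle : finrank F ↥(fx x) ≤ finrank F V := Submodule.finrank_le _
  refine lt_of_le_of_ne hle fun h => hx1 ?_
  have h1 : fx x = ⊤ := Submodule.eq_top_of_finrank_eq h
  ext v
  have h2 : v ∈ fx x := by rw [h1]; exact Submodule.mem_top
  exact mem_fx.1 h2

theorem eq_one_of_pow {a : F} (h : a ^ r = 1) (hd : ¬ r ∣ Fintype.card F - 1) : a = 1 := by
  have ha : a ≠ 0 := by
    rintro rfl
    rw [zero_pow hr.out.ne_zero] at h
    exact zero_ne_one h
  have h1 : a ^ (Fintype.card F - 1) = 1 := FiniteField.pow_card_sub_one_eq_one a ha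
  have h2 : orderOf a ∣ r := orderOf_dvd_of_pow_eq_one h
  have h3 : orderOf a ∣ Fintype.card F - 1 := orderOf_dvd_of_pow_eq_one h1
  rcases (Nat.dvd_prime hr.out).1 h2 with h4 | h4
  · exact orderOf_eq_one_iff.1 h4
  · rw [h4] at h3
    exact absurd h3 hd

/-- **`e = 3`.** -/
theorem no_inv_three (hiff : ∀ j, r ∣ Fintype.card F ^ j - 1 ↔ 3 ∣ j) (hr2 : r ≠ 2) (h3 : finrank F V = 3)
    {t x : V ≃ₗ[F] V} (hx : x ^ r = 1) (hx1 : x ≠ 1) (ht : t * t = 1) (hs : ∀ c : F, ∃ v, t v ≠ c • v)
    (hc : t * x * t⁻¹ = x ∨ t * x * t⁻¹ = x⁻¹) : False := by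
  have hnd : ¬ r ∣ Fintype.card F - 1 := by
    intro h
    have h1 := (hiff 1).1 (by rwa [pow_one])
    omega
  have hfx : fx x = ⊥ := by
    have h1 := dvd_fx_top (by norm_num) hiff hx
    have h2 := fx_ne_top hx1
    rw [h3] at h1 h2
    have h4 : finrank F ↥(fx x) = 0 := by omega
    exact Submodule.finrank_eq_zero.1 h4
  have hnofix : ∀ v : V, x v = v → v = 0 := by
    intro v hv
    have h1 : v ∈ fx x := mem_fx.2 hv
    rw [hfx] at h1
    exact (Submodule.mem_bot F).1 h1
  obtain ⟨ε, -, hε⟩ := exists_eps h3 ht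
  rcases hc with hc | hc
  · obtain ⟨u, hu⟩ := hs ε
    have hu' : dl t ε u ≠ 0 := by
      rw [dl_apply, sub_ne_zero]; exact hu
    have hcomm : t * x = x * t := by
      rw [mul_inv_eq_iff_eq_mul] at hc; exact hc
    obtain ⟨a, ha⟩ := exists_eigen hε hu' (x := x) (by
      intro v
      rw [dl_apply, dl_apply, map_sub, map_smul]
      congr 1
      have := congrArg (fun f : V ≃ₗ[F] V => f v) hcomm
      exact this.symm)
    have h4 := eq_one_of_pow (eigen_pow ha hu' hx) hnd
    rw [h4, one_smul] at ha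
    exact hu' (hnofix _ ha)
  · have hodd : Odd r := hr.out.odd_of_ne_two hr2
    obtain ⟨k, hk⟩ := hodd
    obtain ⟨v, hv0, hv⟩ := exists_fixed h3 hε hc (m := k + 1) (by
      have : 2 * (k + 1) = r + 1 := by omega
      rw [this, pow_succ, hx, one_mul])
    exact hv0 (hnofix v hv)

/-! ### `e = 2`, `q` even -/

variable [CharP F 2]

theorem two_smul_eq_zero (F : Type*) [Field F] [CharP F 2] {V : Type*} [AddCommGroup V] [Module F V] (v : V) :
    v + v = 0 := by
  rw [← two_smul F v, CharTwo.two_eq_zero, zero_smul]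

theorem sub_eq_add (F : Type*) [Field F] [CharP F 2] {V : Type*} [AddCommGroup V] [Module F V] (v w : V) :
    v - w = v + w := by
  have h : w + w = 0 := two_smul_eq_zero F w
  rw [sub_eq_add_neg, neg_eq_of_add_eq_zero_left h]

theorem rank_dl_one [FiniteDimensional F V] (h3 : finrank F V = 3) {t : V ≃ₗ[F] V} (ht : t * t = 1) :
    finrank F (LinearMap.range (dl t 1)) ≤ 1 := by
  obtain ⟨ε, hε, h⟩ := exists_eps h3 ht
  rcases hε with rfl | rfl
  · exact h
  · rwa [CharTwo.neg_eq] at h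

theorem dl_ne {t : V ≃ₗ[F] V} (ht1 : t ≠ 1) : ∃ u, dl t (1 : F) u ≠ 0 := by
  by_contra hcon
  push Not at hcon
  apply ht1
  ext v
  have h := hcon v
  rw [dl_apply, one_smul, sub_eq_zero] at h
  exact h

theorem dl_dl {t : V ≃ₗ[F] V} (ht : t * t = 1) (u : V) : dl t (1 : F) (dl t 1 u) = 0 := by
  have h4 : t (t u) = u := by
    rw [← LinearEquiv.mul_apply, ht]; rfl
  rw [dl_apply, dl_apply, one_smul, one_smul, map_sub, h4, sub_eq_add F, sub_eq_add F,
    sub_eq_add F]
  have h5 : u + t u + (t u + u) = (u + t u) + (u + t u) := by abel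
  rw [h5]
  exact two_smul_eq_zero F _

/-- **`e = 2`, `q` even: an involution does not commute with `x`.** -/
theorem no_comm_two (hiff : ∀ j, r ∣ Fintype.card F ^ j - 1 ↔ 2 ∣ j) (h3 : finrank F V = 3)
    {t x : V ≃ₗ[F] V} (hx : x ^ r = 1) (hx1 : x ≠ 1) (ht : t * t = 1) (ht1 : t ≠ 1) (hc : t * x = x * t) : False := by
  have hnd : ¬ r ∣ Fintype.card F - 1 := by
    intro h
    have h1 := (hiff 1).1 (by rwa [pow_one])
    omega
  have hε := rank_dl_one h3 ht
  obtain ⟨u, hu⟩ := dl_ne (F := F) ht1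
  have hcN : ∀ v, x (dl t (1 : F) v) = dl t 1 (x v) := by
    intro v
    rw [dl_apply, dl_apply, map_sub, map_smul]
    congr 1
    exact (congrArg (fun f : V ≃ₗ[F] V => f v) hc).symm
  obtain ⟨a, ha⟩ := exists_eigen hε hu hcN
  have h4 := eq_one_of_pow (eigen_pow ha hu hx) hnd
  rw [h4, one_smul] at ha
  have h5 := dvd_fx_top (by norm_num) hiff hx
  have h6 := fx_ne_top hx1
  rw [h3] at h5 h6
  set U := LinearMap.ker (dl t (1 : F)) with hU
  have h7 := dvd_fx (by norm_num) hiff hx U (by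
    intro v hv
    rw [hU, LinearMap.mem_ker] at hv ⊢
    rw [← hcN, hv, map_zero])
  have h8 := LinearMap.finrank_range_add_finrank_ker (dl t (1 : F))
  rw [h3, ← hU] at h8
  have h9 : dl t (1 : F) u ∈ fx x ⊓ U := Submodule.mem_inf.2 ⟨mem_fx.2 ha, by
    rw [hU, LinearMap.mem_ker]; exact dl_dl ht u⟩
  have h10 : fx x ⊓ U ≠ ⊥ := by
    intro h
    rw [h] at h9
    exact hu ((Submodule.mem_bot F).1 h9)
  have h11 : finrank F ↥(fx x ⊓ U) ≠ 0 := by
    rw [Ne, Submodule.finrank_eq_zero]; exact h10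
  have h12 : finrank F ↥(fx x ⊓ U) ≤ finrank F ↥(fx x) := Submodule.finrank_mono inf_le_left
  have h13 : finrank F ↥(fx x ⊓ U) ≤ finrank F ↥U := Submodule.finrank_mono inf_le_right
  have h14 : finrank F ↥U ≤ 3 := by rw [← h3]; exact Submodule.finrank_le _
  have h15 : finrank F (LinearMap.range (dl t (1 : F))) ≠ 0 := by
    rw [Ne, Submodule.finrank_eq_zero]
    intro h
    exact hu (by
      have : dl t (1 : F) u ∈ LinearMap.range (dl t (1 : F)) := ⟨u, rfl⟩
      rw [h] at this
      exact (Submodule.mem_bot F).1 this)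
  omega

/-- **`e = 2`, `q` even: no element of order four normalises `⟨x⟩`.** -/
theorem no_four_two (hiff : ∀ j, r ∣ Fintype.card F ^ j - 1 ↔ 2 ∣ j) (h3 : finrank F V = 3)
    {g t x : V ≃ₗ[F] V} (hx : x ^ r = 1) (hx1 : x ≠ 1) (hg : g * g = t) (ht : t * t = 1) (ht1 : t ≠ 1)
    (hc : t * x * t⁻¹ = x⁻¹) (hgx : ∀ v ∈ fx x, g v ∈ fx x) : False := by
  have h5 := dvd_fx_top (by norm_num) hiff hx
  have h6 := fx_ne_top hx1
  rw [h3] at h5 h6
  have h7 : finrank F ↥(fx x) = 1 := by omega
  have hne : fx x ≠ ⊥ := by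
    intro h
    rw [h, finrank_bot] at h7
    omega
  obtain ⟨l, hl, hl0⟩ := Submodule.exists_mem_ne_zero_of_ne_bot hne
  have hL : fx x = Submodule.span F {l} := by
    symm
    apply Submodule.eq_of_le_of_finrank_le
    · rw [Submodule.span_singleton_le_iff_mem]; exact hl
    · rw [finrank_span_singleton hl0, h7]
  have hr0 : (r : F) ≠ 0 := by
    intro h
    have h8 : 2 ∣ r := (CharP.cast_eq_zero_iff F 2 r).1 h
    have h9 := (Nat.prime_dvd_prime_iff_eq Nat.prime_two hr.out).1 h8
    have h10 := (hiff 2).2 dvd_rfl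
    rw [← h9] at h10
    obtain ⟨n, -, hn⟩ := FiniteField.card F 2
    have h11 : 2 ∣ Fintype.card F ^ 2 := by
      rw [hn, ← pow_mul]
      exact dvd_pow_self 2 (by have := n.pos; omega)
    have h12 : 1 ≤ Fintype.card F ^ 2 := Nat.one_le_pow _ _ Fintype.card_pos
    omega
  -- `W = range (x - 1)` meets `fx x` trivially
  have hW : ∀ v, v ∈ LinearMap.range (dl x (1 : F)) → x v = v → v = 0 := by
    rintro _ ⟨u, rfl⟩ hv
    set v := dl x (1 : F) u with hvd
    have e1 : x u = u + v := by rw [hvd, dl_apply, one_smul]; abel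
    have e2 : ∀ n : ℕ, (x ^ n) u = u + (n : F) • v := by
      intro n
      induction n with
      | zero => simp
      | succ n ih =>
        rw [pow_succ', LinearEquiv.mul_apply, ih, map_add, map_smul, hv, e1, Nat.cast_succ, add_smul, one_smul]
        abel
    have e3 := e2 r
    rw [hx] at e3
    have e4 : (r : F) • v = 0 := by
      have : u = u + (r : F) • v := e3
      exact left_eq_add.1 this
    exact (smul_eq_zero.1 e4).resolve_left hr0
  have htl : t l = l := by
    have h8 : t l ∈ fx x := by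
      rw [mem_fx, ← LinearEquiv.mul_apply]
      have h9 : x * t = t * x⁻¹ := by
        rw [← hc]
        have h10 : t⁻¹ = t := inv_eq_of_mul_eq_one_left ht
        rw [h10]
        calc x * t = (t * t) * x * t := by rw [ht, one_mul]
          _ = t * (t * x * t) := by group
      rw [h9, LinearEquiv.mul_apply]
      congr 1
      have h10 := mem_fx.1 hl
      calc x⁻¹ l = x⁻¹ (x l) := by rw [h10]
        _ = l := by rw [← LinearEquiv.mul_apply, inv_mul_cancel]; rfl
    rw [hL, Submodule.mem_span_singleton] at h8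
    obtain ⟨b, hb⟩ := h8
    have h9 := eigen_pow hb.symm hl0 (r := 2) (by rw [pow_two, ht])
    have h10 : b = 1 := by
      have h11 : (b - 1) ^ 2 = 0 := by
        rw [CharTwo.sub_eq_add, CharTwo.add_sq, h9, one_pow, CharTwo.add_self_eq_zero]
      exact sub_eq_zero.1 (pow_eq_zero_iff (two_ne_zero) |>.1 h11)
    rw [← hb, h10, one_smul]
  have hgl : g l = l := by
    have h8 := hgx l hl
    rw [hL, Submodule.mem_span_singleton] at h8
    obtain ⟨b, hb⟩ := h8
    have h9 := eigen_pow hb.symm hl0 (r := 4) (by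
      have : g ^ 4 = (g * g) * (g * g) := by rw [← pow_two, ← pow_two, ← pow_mul]
      rw [this, hg, ht])
    have h10 : b = 1 := by
      have h11 : (b - 1) ^ 4 = 0 := by
        have : (b - 1) ^ 4 = ((b - 1) ^ 2) ^ 2 := by ring
        rw [this, CharTwo.sub_eq_add, CharTwo.add_sq, one_pow, CharTwo.add_sq, ← pow_mul, h9, one_pow,
          CharTwo.add_self_eq_zero]
      exact sub_eq_zero.1 (pow_eq_zero_iff (by norm_num) |>.1 h11)
    rw [← hb, h10, one_smul]
  -- `w` in the range of `t - 1`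
  have hε := rank_dl_one h3 ht
  obtain ⟨u, hu⟩ := dl_ne (F := F) ht1
  set w := dl t (1 : F) u with hw
  have hrange := range_eq_span hε hu
  -- `w ∈ W`
  have hwW : w ∈ LinearMap.range (dl x (1 : F)) := by
    have hsup : fx x ⊔ LinearMap.range (dl x (1 : F)) = ⊤ := by
      apply Submodule.eq_top_of_finrank_eq
      have h8 := Submodule.finrank_sup_add_finrank_inf_eq (fx x) (LinearMap.range (dl x (1 : F)))
      have h9 : fx x ⊓ LinearMap.range (dl x (1 : F)) = ⊥ := by
        rw [eq_bot_iff]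
        rintro v ⟨h10, h11⟩
        exact (Submodule.mem_bot F).2 (hW v h11 (mem_fx.1 h10))
      have h10 := LinearMap.finrank_range_add_finrank_ker (dl x (1 : F))
      have h11 : finrank F ↥(LinearMap.ker (dl x (1 : F))) = 1 := h7
      rw [h9, finrank_bot] at h8
      omega
    have h8 : u ∈ fx x ⊔ LinearMap.range (dl x (1 : F)) := by rw [hsup]; exact Submodule.mem_top
    obtain ⟨v, hv, z, ⟨z', rfl⟩, hvz⟩ := Submodule.mem_sup.1 h8
    rw [hL, Submodule.mem_span_singleton] at hv
    obtain ⟨c, rfl⟩ := hv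
    rw [hw, ← hvz, map_add, map_smul]
    have h9 : dl t (1 : F) l = 0 := by rw [dl_apply, one_smul, htl, sub_self]
    rw [h9, smul_zero, zero_add, dl_apply, one_smul]
    refine Submodule.sub_mem _ ?_ ⟨z', rfl⟩
    -- `t (x z' - z') = x⁻¹ (t z') - t z'`
    refine ⟨-(x⁻¹ (t z')), ?_⟩
    rw [dl_apply, dl_apply, one_smul, one_smul, map_neg, map_sub]
    have h10 : x (x⁻¹ (t z')) = t z' := by
      rw [← LinearEquiv.mul_apply, mul_inv_cancel]; rfl
    have h11 : x⁻¹ (t z') = t (x z') := by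
      have h12 : x⁻¹ * t = t * x := by rw [← hc, inv_mul_cancel_right]
      exact congrArg (fun f : V ≃ₗ[F] V => f z') h12
    rw [h10, h11]
    abel
  have hgw : g w = w := by
    have hcN : ∀ v, g (dl t (1 : F) v) = dl t 1 (g v) := by
      intro v
      rw [dl_apply, dl_apply, map_sub, map_smul]
      congr 1
      have h8 : g * t = t * g := by rw [← hg, mul_assoc]
      exact congrArg (fun f : V ≃ₗ[F] V => f v) h8
    obtain ⟨b, hb⟩ := exists_eigen hε hu hcN
    have h9 := eigen_pow hb hu (r := 4) (by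
      have : g ^ 4 = (g * g) * (g * g) := by rw [← pow_two, ← pow_two, ← pow_mul]
      rw [this, hg, ht])
    have h10 : b = 1 := by
      have h11 : (b - 1) ^ 4 = 0 := by
        have : (b - 1) ^ 4 = ((b - 1) ^ 2) ^ 2 := by ring
        rw [this, CharTwo.sub_eq_add, CharTwo.add_sq, one_pow, CharTwo.add_sq, ← pow_mul, h9, one_pow,
          CharTwo.add_self_eq_zero]
      exact sub_eq_zero.1 (pow_eq_zero_iff (by norm_num) |>.1 h11)
    rw [hb, h10, one_smul]
  -- `ker (g - 1)` has dimension at least two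
  have hind : finrank F ↥(Submodule.span F {l} ⊔ Submodule.span F {w}) = 2 := by
    have h8 := Submodule.finrank_sup_add_finrank_inf_eq (Submodule.span F {l}) (Submodule.span F {w})
    have h9 : Submodule.span F {l} ⊓ Submodule.span F {w} = ⊥ := by
      rw [eq_bot_iff]
      rintro v ⟨h10, h11⟩
      rw [SetLike.mem_coe, ← hL] at h10
      rw [SetLike.mem_coe, Submodule.mem_span_singleton] at h11
      obtain ⟨c, rfl⟩ := h11
      exact (Submodule.mem_bot F).2 (hW _ (Submodule.smul_mem _ c hwW) (mem_fx.1 h10))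
    rw [h9, finrank_bot, finrank_span_singleton hl0, finrank_span_singleton hu] at h8
    omega
  have hle : Submodule.span F {l} ⊔ Submodule.span F {w} ≤ LinearMap.ker (dl g (1 : F)) := by
    rw [sup_le_iff, Submodule.span_singleton_le_iff_mem, Submodule.span_singleton_le_iff_mem, mem_ker_dl, mem_ker_dl,
      one_smul, one_smul]
    exact ⟨hgl, hgw⟩
  have h8 := Submodule.finrank_mono hle
  have h9 := LinearMap.finrank_range_add_finrank_ker (dl g (1 : F))
  have h10 : finrank F (LinearMap.range (dl g (1 : F))) ≤ 1 := by omega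
  -- `(g - 1)² = t - 1`
  have hsq : dl g (1 : F) (dl g 1 u) = w := by
    have h11 : g (g u) = t u := by rw [← LinearEquiv.mul_apply, hg]
    rw [hw]
    simp only [dl_apply, one_smul, sub_eq_add F, map_add, h11]
    have h12 : t u + g u + (g u + u) = t u + u + (g u + g u) := by abel
    rw [h12, two_smul_eq_zero F, add_zero]
  have hgu : dl g (1 : F) (dl g 1 u) ≠ 0 := by rw [hsq]; exact hu
  have h11 := range_eq_span h10 hgu
  have h12 : dl g (1 : F) u ∈ LinearMap.range (dl g (1 : F)) := ⟨u, rfl⟩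
  rw [h11, hsq, Submodule.mem_span_singleton] at h12
  obtain ⟨c, hc⟩ := h12
  apply hgu
  rw [← hc, map_smul, dl_apply, one_smul, hgw, sub_self, smul_zero]

end fixed

end Cfsg.Agent.H583.FxLin
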