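import Cfsg.Agent.H583.FxPslThree

/-!
# `PSL_3(q)`, `q ≥ 8` even: point stabilizers of even order (helper583, task 2052)
-/

set_option autoImplicit false
set_option linter.unusedSectionVars false

namespace Cfsg.Agent.H583.FxThree

open Matrix Subgroup Cfsg.Agent.H254.Fx Cfsg.Agent.H254.Ev Cfsg.Agent.H583.FxLin

variable {F : Type} [Field F]

local notation "K3" => ProjectiveSpecialLinearGroup (Fin 3) F

/-- `2^n - 1` is not a power of three for `n ≥ 3` -/
theorem exists_prime_five {n : ℕ} (hn : 3 ≤ n) : ∃ s : ℕ, s.Prime ∧ 5 ≤ s ∧ s ∣ 2 ^ n - 1 := by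
  by_contra hcon
  push Not at hcon
  obtain ⟨m, rfl⟩ : ∃ m, n = m + 3 := ⟨n - 3, by omega⟩
  have h8 : 2 ^ (m + 3) = 8 * 2 ^ m := by rw [pow_add]; ring
  have hpos : 1 ≤ 2 ^ m := Nat.one_le_two_pow
  have h1 : ∀ {d : ℕ}, d.Prime → d ∣ 2 ^ (m + 3) - 1 → d = 3 := by
    intro d hd hdd
    have h2 : ¬ 5 ≤ d := fun h5 => hcon d hd h5 hdd
    have h3 := hd.two_le
    have h4 : d ≠ 4 := by rintro rfl; revert hd; decide
    have h5 : d ≠ 2 := by
      rintro rfl
      omega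
    omega
  have h2 := Nat.eq_prime_pow_of_unique_prime_dvd (by omega) h1
  generalize (2 ^ (m + 3) - 1).primeFactorsList.length = b at h2
  have h3 : 3 ^ b % 8 = 1 ∨ 3 ^ b % 8 = 3 := by
    clear h2
    induction b with
    | zero => left; rfl
    | succ b ih => rw [pow_succ]; omega
  omega

/-- an involution of `SL_3(q)`, `q` even, in a suitable basis -/
theorem exists_basis [Fintype F] [CharP F 2] {b : Matrix.SpecialLinearGroup (Fin 3) F} (hb : b * b = 1) (hb1 : b ≠ 1) :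
    ∃ P : GL (Fin 3) F, b.1 * P.1 = P.1 * !![1, 0, 1; 0, 1, 0; 0, 0, 1] := by
  have ht : τ F b * τ F b = 1 := by rw [← map_mul, hb, map_one]
  have ht1 : τ F b ≠ 1 := fun h => hb1 (τ_injective (h.trans (map_one _).symm))
  have hε := rank_dl_one finrank_three ht
  obtain ⟨v, hv⟩ := dl_ne (F := F) ht1
  have hker := LinearMap.finrank_range_add_finrank_ker (dl (τ F b) (1 : F))
  rw [finrank_three] at hker
  set w := dl (τ F b) (1 : F) v with hw
  have hbw : τ F b w = w := by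
    have h1 := dl_dl (F := F) ht v
    rw [← hw, dl_apply, one_smul, sub_eq_zero] at h1
    exact h1
  have hbv : τ F b v = w + v := by rw [hw, dl_apply, one_smul]; abel
  obtain ⟨u, hu, huw⟩ : ∃ u ∈ LinearMap.ker (dl (τ F b) (1 : F)), u ∉ Submodule.span F {w} := by
    by_contra hcon
    push Not at hcon
    have h1 := Submodule.finrank_mono (show LinearMap.ker (dl (τ F b) (1 : F)) ≤ Submodule.span F {w} from hcon)
    rw [finrank_span_singleton hv] at h1
    omega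
  have hbu : τ F b u = u := by
    rw [mem_ker_dl, one_smul] at hu
    exact hu
  let P : Matrix (Fin 3) (Fin 3) F := Matrix.of fun i j => ![w i, u i, v i] j
  have hmul : ∀ x : Fin 3 → F, P *ᵥ x = x 0 • w + x 1 • u + x 2 • v := by
    intro x
    ext i
    simp [P, mulVec, dotProduct, Fin.sum_univ_three, mul_comm]
  have hdet : P.det ≠ 0 := by
    intro h
    obtain ⟨x, hx0, hx⟩ := Matrix.exists_mulVec_eq_zero_iff.2 h
    rw [hmul] at hx
    have h1 := congrArg (dl (τ F b) (1 : F)) hx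
    rw [map_add, map_add, map_smul, map_smul, map_smul, map_zero, ← hw] at h1
    have h2 : dl (τ F b) (1 : F) w = 0 := by rw [dl_apply, one_smul, hbw, sub_self]
    have h3 : dl (τ F b) (1 : F) u = 0 := by rw [dl_apply, one_smul, hbu, sub_self]
    rw [h2, h3, smul_zero, smul_zero, zero_add, zero_add] at h1
    have h4 : x 2 = 0 := (smul_eq_zero.1 h1).resolve_right hv
    rw [h4, zero_smul, add_zero] at hx
    have h5 : x 1 = 0 := by
      by_contra h6
      apply huw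
      rw [Submodule.mem_span_singleton]
      refine ⟨-((x 1)⁻¹ * x 0), ?_⟩
      have h7 : x 1 • u = -(x 0 • w) := by
        rw [eq_neg_iff_add_eq_zero, add_comm]; exact hx
      calc (-((x 1)⁻¹ * x 0)) • w = (x 1)⁻¹ • (-(x 0 • w)) := by rw [neg_smul, mul_smul, smul_neg]
        _ = (x 1)⁻¹ • (x 1 • u) := by rw [h7]
        _ = u := by rw [smul_smul, inv_mul_cancel₀ h6, one_smul]
    rw [h5, zero_smul, add_zero] at hx
    have h6 : x 0 = 0 := (smul_eq_zero.1 hx).resolve_right hv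
    apply hx0
    ext i
    fin_cases i
    · exact h6
    · exact h5
    · exact h4
  refine ⟨Matrix.GeneralLinearGroup.mkOfDetNeZero P hdet, ?_⟩
  change b.1 * P = P * _
  have hb' : ∀ x : Fin 3 → F, b.1 *ᵥ x = τ F b x := fun x => rfl
  apply Matrix.ext_of_mulVec_single
  intro j
  rw [← mulVec_mulVec, ← mulVec_mulVec, hmul, hmul, hb', map_add, map_add, map_smul, map_smul, map_smul, hbw, hbu, hbv]
  fin_cases j
  · simp [mulVec, dotProduct, Fin.sum_univ_three]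
  · simp [mulVec, dotProduct, Fin.sum_univ_three]
  · simp [mulVec, dotProduct, Fin.sum_univ_three]

/-- **an element of order `s` commuting with an involution** -/
theorem exists_comm [Fintype F] [CharP F 2] {s : ℕ} (hs : s.Prime) (h5 : 5 ≤ s) (hd : s ∣ Fintype.card F - 1)
    {t : K3} (ht : orderOf t = 2) : ∃ z : K3, orderOf z = s ∧ z * t = t * z := by
  have hfs : Fact s.Prime := ⟨hs⟩
  obtain ⟨b, hb, hb2⟩ := exists_lift (ok_two (F := F)) (y := t) (by rw [← ht, pow_orderOf_eq_one])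
  have hb1 : b ≠ 1 := by
    rintro rfl
    rw [map_one] at hb
    rw [← hb, orderOf_one] at ht
    omega
  obtain ⟨P, hP⟩ := exists_basis (by rw [← pow_two, hb2]) hb1
  obtain ⟨ζ, hζ⟩ := exists_prime_orderOf_dvd_card' (G := Fˣ) s (by rwa [Nat.card_units, Nat.card_eq_fintype_card])
  have hz3 : ζ ^ 3 ≠ 1 := by
    intro h
    have h1 := orderOf_dvd_of_pow_eq_one h
    rw [hζ] at h1
    have := Nat.le_of_dvd (by norm_num) h1
    omega
  have hζs : ζ ^ s = 1 := by rw [← hζ, pow_orderOf_eq_one]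
  set δ := dS F (ζ, (ζ ^ 2)⁻¹) with hδ
  have hδ1 : δ.1 = Matrix.diagonal ![(ζ : F), (((ζ ^ 2)⁻¹ : Fˣ) : F), (ζ : F)] := by
    rw [hδ, coe_dS]
    congr 1
    funext i
    fin_cases i
    · rfl
    · rfl
    · change (((ζ * (ζ ^ 2)⁻¹)⁻¹ : Fˣ) : F) = (ζ : F)
      congr 1
      group
  have hδs : δ ^ s = 1 := by
    rw [hδ, ← map_pow]
    have h1 : (ζ, (ζ ^ 2)⁻¹) ^ s = (1 : Fˣ × Fˣ) := by
      refine Prod.ext hζs ?_
      change ((ζ ^ 2)⁻¹) ^ s = 1
      rw [inv_pow, ← pow_mul, mul_comm, pow_mul, hζs, one_pow, inv_one]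
    rw [h1, map_one]
  -- `z = P δ P⁻¹`
  let cj : Matrix.SpecialLinearGroup (Fin 3) F →* Matrix.SpecialLinearGroup (Fin 3) F :=
    { toFun := fun a => ⟨P.1 * a.1 * (P⁻¹).1, by
        rw [det_mul, det_mul, a.2, mul_one, ← det_mul]
        have h1 : P.1 * (P⁻¹).1 = 1 := by
          change (P * P⁻¹).1 = 1
          rw [mul_inv_cancel]; rfl
        rw [h1, det_one]⟩
      map_one' := by
        apply Subtype.ext
        change P.1 * 1 * (P⁻¹).1 = 1
        rw [mul_one]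
        change (P * P⁻¹).1 = 1
        rw [mul_inv_cancel]; rfl
      map_mul' := by
        intro a c
        apply Subtype.ext
        change P.1 * (a.1 * c.1) * (P⁻¹).1 = (P.1 * a.1 * (P⁻¹).1) * (P.1 * c.1 * (P⁻¹).1)
        have h1 : (P⁻¹).1 * P.1 = 1 := by
          change (P⁻¹ * P).1 = 1
          rw [inv_mul_cancel]; rfl
        calc P.1 * (a.1 * c.1) * (P⁻¹).1 = P.1 * a.1 * 1 * (c.1 * (P⁻¹).1) := by rw [mul_one]; noncomm_ring
          _ = (P.1 * a.1 * (P⁻¹).1) * (P.1 * c.1 * (P⁻¹).1) := by rw [← h1]; noncomm_ring }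
  have hPi : (P⁻¹).1 * P.1 = 1 := by
    change (P⁻¹ * P).1 = 1
    rw [inv_mul_cancel]; rfl
  have hPi' : P.1 * (P⁻¹).1 = 1 := by
    change (P * P⁻¹).1 = 1
    rw [mul_inv_cancel]; rfl
  refine ⟨mk F (cj δ), ?_, ?_⟩
  · refine orderOf_eq_prime (by rw [← map_pow, ← map_pow, hδs, map_one, map_one]) fun h => ?_
    obtain ⟨c, hc, h1⟩ := mk_eq_one.1 h
    have h2 : P.1 * δ.1 * (P⁻¹).1 = Matrix.scalar (Fin 3) c := h1
    have h3 : δ.1 = Matrix.scalar (Fin 3) c := by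
      calc δ.1 = ((P⁻¹).1 * P.1) * δ.1 * ((P⁻¹).1 * P.1) := by rw [hPi, one_mul, mul_one]
        _ = (P⁻¹).1 * (P.1 * δ.1 * (P⁻¹).1) * P.1 := by noncomm_ring
        _ = (P⁻¹).1 * Matrix.scalar (Fin 3) c * P.1 := by rw [h2]
        _ = Matrix.scalar (Fin 3) c * ((P⁻¹).1 * P.1) := by
          rw [← (Matrix.scalar_commute c (Commute.all c) (P⁻¹).1).eq, mul_assoc]
        _ = Matrix.scalar (Fin 3) c := by rw [hPi, mul_one]
    have h4 : mk F δ = 1 := mk_eq_one.2 ⟨c, hc, h3⟩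
    exact hz3 (mk_dS_eq_one h4).2
  · rw [← hb, ← map_mul, ← map_mul]
    congr 1
    apply Subtype.ext
    change (P.1 * δ.1 * (P⁻¹).1) * b.1 = b.1 * (P.1 * δ.1 * (P⁻¹).1)
    have h1 : (P⁻¹).1 * b.1 = !![1, 0, 1; 0, 1, 0; 0, 0, 1] * (P⁻¹).1 := by
      calc (P⁻¹).1 * b.1 = (P⁻¹).1 * (b.1 * P.1) * (P⁻¹).1 := by
            rw [mul_assoc, mul_assoc b.1, hPi', mul_one]
        _ = ((P⁻¹).1 * P.1) * !![1, 0, 1; 0, 1, 0; 0, 0, 1] * (P⁻¹).1 := by rw [hP, mul_assoc (P⁻¹).1 P.1]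
        _ = !![1, 0, 1; 0, 1, 0; 0, 0, 1] * (P⁻¹).1 := by rw [hPi, one_mul]
    have h2 : δ.1 * !![1, 0, 1; 0, 1, 0; 0, 0, 1] = !![1, 0, 1; 0, 1, 0; 0, 0, 1] * δ.1 := by
      rw [hδ1]
      ext i j
      fin_cases i <;> fin_cases j <;> simp [mul_apply, Fin.sum_univ_three]
    rw [mul_assoc, h1, ← mul_assoc (P.1 * δ.1), mul_assoc P.1, h2, ← mul_assoc P.1, ← hP]
    simp only [mul_assoc]

/-- **`PSL_3(q)`, `q ≥ 8` even: no proper subgroup of even order with `FixLE 4`** -/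
theorem top_even [Fintype F] [CharP F 2] (h8 : 8 ≤ Fintype.card F) : ∀ H : Subgroup K3, FixLE 4 H → 2 ∣ Nat.card H →
    H = ⊤ := by
  intro H hH h2
  by_contra htop
  have hs := simple (F := F)
  obtain ⟨n, -, hn⟩ := FiniteField.card F 2
  have hn3 : 3 ≤ (n : ℕ) := by
    by_contra hlt
    have h5 : (2 : ℕ) ^ (n : ℕ) ≤ 2 ^ 2 := Nat.pow_le_pow_right (by norm_num) (by omega)
    omega
  obtain ⟨s, hsp, hs5, hsd⟩ := exists_prime_five hn3
  rw [← hn] at hsd
  have hf2 : Fact (Nat.Prime 2) := ⟨Nat.prime_two⟩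
  obtain ⟨t, ht⟩ := exists_prime_orderOf_dvd_card' 2 h2
  have ht' : orderOf (t : K3) = 2 := by rw [Subgroup.orderOf_coe]; exact ht
  obtain ⟨z, hz, hzt⟩ := exists_comm hsp hs5 hsd ht'
  have ht1 : (t : K3) ≠ 1 := by
    intro h
    rw [h, orderOf_one] at ht'
    omega
  have hzH := hH.mem_of_comm le_rfl t.2 ht1 hzt (by rw [hz]; exact coprime_six_of_prime hsp hs5)
  have hsH : s ∣ Nat.card H := by
    rw [← hz]; exact orderOf_dvd_card_of_mem hzH
  exact hH.false_of_noSP le_rfl htop hsp hs5 hsH (noSP_split hsp hs5 hsd)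

/-- **`PSL_3(q)`, `q ≥ 8` even** -/
theorem noEx_even [Fintype F] [CharP F 2] (h8 : 8 ≤ Fintype.card F) : ∀ H : Subgroup K3, FixLE 4 H → 2 ∣ Nat.card H →
    ¬ ∃ g : K3, g ≠ 1 ∧ (MulAction.fixedBy (K3 ⧸ H) g).ncard = 4 := by
  rintro H hH h2 ⟨g, -, h4⟩
  exact ne_top_of_exact (by norm_num) h4 (top_even h8 H hH h2)

/-- **`PSL_3(q)`, `q ≥ 8` even** -/
theorem top_psl3_even (F : Type) [Field F] [Fintype F] [CharP F 2] (h8 : 8 ≤ Fintype.card F) :
    ∀ H : Subgroup (Matrix.ProjectiveSpecialLinearGroup (Fin 3) F), FixLE 4 H → 2 ∣ Nat.card H → H = ⊤ := top_even h8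

/-- **`PSL_3(q)`, `q ≥ 8` even** -/
theorem noEx_psl3_even (F : Type) [Field F] [Fintype F] [CharP F 2] (h8 : 8 ≤ Fintype.card F) :
    ∀ H : Subgroup (Matrix.ProjectiveSpecialLinearGroup (Fin 3) F), FixLE 4 H → 2 ∣ Nat.card H →
      ¬ ∃ g : Matrix.ProjectiveSpecialLinearGroup (Fin 3) F, g ≠ 1 ∧
        (MulAction.fixedBy (Matrix.ProjectiveSpecialLinearGroup (Fin 3) F ⧸ H) g).ncard = 4 := noEx_even h8

end Cfsg.Agent.H583.FxThree
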