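import Cfsg.Agent.H583.FxTorus
import Cfsg.Agent.H583.FxHeisMat
import Cfsg.Agent.H242.StrP.LinAll
import Cfsg.Agent.H818.StrP.Own
import Cfsg.Agent.S0249

/-!
# The rows `PSL_3(q)` of S3002 (helper583, task 2052)

* `noTI4_psl3` : `NoTI 4 (PSL_3(q))`, `q ≥ 3`;
* `noEx_psl3_even` : `q ≥ 8` even: no action of fixity 4 with point stabilizers of even order and an element with
  exactly four fixed points.
-/

set_option autoImplicit false
set_option linter.unusedSectionVars false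

namespace Cfsg.Agent.H583.FxThree

open Matrix Subgroup Cfsg.Agent.H254.Fx Cfsg.Agent.H254.Ev Cfsg.Agent.H583.FxHeis

variable {F : Type} [Field F]

local notation "K3" => ProjectiveSpecialLinearGroup (Fin 3) F

/-! ### Arithmetic -/

theorem iff_of_prime {q r e : ℕ} (hr : r.Prime) (he : e.Prime) (hq : 1 ≤ q) (h1 : ¬ r ∣ q - 1) (h2 : r ∣ q ^ e - 1) :
    ∀ j, r ∣ q ^ j - 1 ↔ e ∣ j := by
  have : Fact r.Prime := ⟨hr⟩
  have key : ∀ j, r ∣ q ^ j - 1 ↔ ((q : ZMod r)) ^ j = 1 := by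
    intro j
    have h3 : 1 ≤ q ^ j := Nat.one_le_pow _ _ hq
    rw [← ZMod.natCast_eq_zero_iff, Nat.cast_sub h3, sub_eq_zero, Nat.cast_pow, Nat.cast_one]
  have h4 : orderOf ((q : ZMod r)) ∣ e := orderOf_dvd_of_pow_eq_one ((key e).1 h2)
  have h5 : orderOf ((q : ZMod r)) = e := by
    rcases (Nat.dvd_prime he).1 h4 with h | h
    · exfalso
      apply h1
      have h6 := (key 1).2 (by rw [pow_one]; exact orderOf_eq_one_iff.1 h)
      rwa [pow_one] at h6
    · exact h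
  intro j
  rw [key, ← orderOf_dvd_iff_pow_eq_one, h5]

theorem card_formula [Fintype F] : Nat.gcd 3 (Fintype.card F - 1) * ((Fintype.card F - 1) * Nat.card K3) =
    (Fintype.card F ^ 3 - 1) * (Fintype.card F ^ 3 - Fintype.card F) * (Fintype.card F ^ 3 - Fintype.card F ^ 2) := by
  have h := Cfsg.Agent.S0243.result (F := F) rfl 3 (by norm_num)
  rw [Fin.prod_univ_three] at h
  have e0 : ((0 : Fin 3) : ℕ) = 0 := rfl
  have e1 : ((1 : Fin 3) : ℕ) = 1 := rfl
  have e2 : ((2 : Fin 3) : ℕ) = 2 := rfl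
  rw [e0, e1, e2, pow_zero, pow_one] at h
  exact h

theorem prime_cases [Fintype F] {r : ℕ} (hr : r.Prime) (hd : r ∣ Nat.card K3) :
    r ∣ Fintype.card F ∨ r ∣ Fintype.card F - 1 ∨
      (¬ r ∣ Fintype.card F - 1 ∧ r ∣ Fintype.card F ^ 2 - 1) ∨
      (¬ r ∣ Fintype.card F - 1 ∧ r ∣ Fintype.card F ^ 3 - 1) := by
  set q := Fintype.card F with hq
  have hq1 : 1 < q := Fintype.one_lt_card
  by_cases h1 : r ∣ q
  · exact Or.inl h1
  by_cases h2 : r ∣ q - 1
  · exact Or.inr (Or.inl h2)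
  have h3 : r ∣ (q ^ 3 - 1) * (q ^ 3 - q) * (q ^ 3 - q ^ 2) := by
    rw [← card_formula]
    exact Dvd.dvd.mul_left (Dvd.dvd.mul_left hd _) _
  rcases hr.dvd_mul.1 h3 with h4 | h4
  · rcases hr.dvd_mul.1 h4 with h5 | h5
    · exact Or.inr (Or.inr (Or.inr ⟨h2, h5⟩))
    · have e1 : q ^ 3 - q = q * (q ^ 2 - 1) := by
        rw [Nat.mul_sub_one, ← pow_succ']
      rw [e1] at h5
      exact Or.inr (Or.inr (Or.inl ⟨h2, (hr.dvd_mul.1 h5).resolve_left h1⟩))
  · exfalso
    have e1 : q ^ 3 - q ^ 2 = q ^ 2 * (q - 1) := by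
      rw [Nat.mul_sub_one, ← pow_succ]
    rw [e1] at h4
    rcases hr.dvd_mul.1 h4 with h5 | h5
    · exact h1 (hr.dvd_of_dvd_pow h5)
    · exact h2 h5

theorem dvd27 [Fintype F] (h3 : 3 ∣ Fintype.card F) : 27 ∣ Nat.card K3 := by
  have hf := card_formula (F := F)
  set q := Fintype.card F with hq
  have hq1 : 1 < q := Fintype.one_lt_card
  have e1 : q ^ 3 - q = q * (q ^ 2 - 1) := by
    rw [Nat.mul_sub_one, ← pow_succ']
  have e2 : q ^ 3 - q ^ 2 = q ^ 2 * (q - 1) := by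
    rw [Nat.mul_sub_one, ← pow_succ]
  have h4 : 27 ∣ (q ^ 3 - 1) * (q ^ 3 - q) * (q ^ 3 - q ^ 2) := by
    rw [e1, e2]
    obtain ⟨k, hk⟩ := h3
    refine ⟨k ^ 3 * ((q ^ 3 - 1) * (q ^ 2 - 1) * (q - 1)), ?_⟩
    generalize q ^ 3 - 1 = A
    generalize q ^ 2 - 1 = B
    generalize q - 1 = C
    rw [hk]
    ring
  have h5 : Nat.Coprime 3 (q - 1) := by
    rw [Nat.prime_three.coprime_iff_not_dvd]
    omega
  have h6 : Nat.Coprime 27 (Nat.gcd 3 (q - 1)) := by rw [h5]; exact Nat.coprime_one_right _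
  have h7 : Nat.Coprime 27 (q - 1) := Nat.Coprime.pow_left 3 h5
  rw [← hf] at h4
  exact h7.dvd_of_dvd_mul_left (h6.dvd_of_dvd_mul_left h4)

/-! ### Simplicity and an involution -/

theorem simple [Fintype F] : IsSimpleGroup K3 := Cfsg.Agent.S0249.result 3 le_rfl

theorem not_comm [Fintype F] : ¬ IsMulCommutative K3 := by
  intro hc
  let A : Matrix.SpecialLinearGroup (Fin 3) F := ⟨!![1, 1, 0; 0, 1, 0; 0, 0, 1], by rw [det_fin_three]; simp⟩
  let B : Matrix.SpecialLinearGroup (Fin 3) F := ⟨!![1, 0, 0; 1, 1, 0; 0, 0, 1], by rw [det_fin_three]; simp⟩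
  have h1 : mk F (A * B * (B * A)⁻¹) = 1 := by
    rw [map_mul, map_inv, mul_inv_eq_one, map_mul, map_mul]
    exact hc.is_comm.comm _ _
  obtain ⟨c, -, h2⟩ := mk_eq_one.1 h1
  have h3 : (A * B).1 = Matrix.scalar (Fin 3) c * (B * A).1 := by
    rw [← h2, ← Matrix.SpecialLinearGroup.coe_mul, inv_mul_cancel_right]
  have h4 : (!![1, 1, 0; 0, 1, 0; 0, 0, 1] * !![1, 0, 0; 1, 1, 0; 0, 0, 1] : Matrix (Fin 3) (Fin 3) F) =
      Matrix.scalar (Fin 3) c * (!![1, 0, 0; 1, 1, 0; 0, 0, 1] * !![1, 1, 0; 0, 1, 0; 0, 0, 1]) := h3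
  have h5 := congrFun (congrFun h4 0) 0
  have h6 := congrFun (congrFun h4 2) 2
  simp [mul_apply, Fin.sum_univ_three] at h5 h6
  rw [← h6] at h5
  have h7 : (1 : F) = 0 := by linear_combination h5
  exact one_ne_zero h7

theorem two_dvd [Fintype F] : 2 ∣ Nat.card K3 := by
  let A : Matrix.SpecialLinearGroup (Fin 3) F := ⟨!![0, 1, 0; 1, 0, 0; 0, 0, -1], by rw [det_fin_three]; simp⟩
  have hA : A * A = 1 := by
    apply Subtype.ext
    change (!![0, 1, 0; 1, 0, 0; 0, 0, -1] * !![0, 1, 0; 1, 0, 0; 0, 0, -1] : Matrix (Fin 3) (Fin 3) F) = 1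
    ext i j
    fin_cases i <;> fin_cases j <;> simp [mul_apply, Fin.sum_univ_three]
  have hf : Fact (Nat.Prime 2) := ⟨Nat.prime_two⟩
  have h1 : orderOf (mk F A) = 2 := by
    refine orderOf_eq_prime (by rw [pow_two, ← map_mul, hA, map_one]) fun h => ?_
    obtain ⟨c, -, h2⟩ := mk_eq_one.1 h
    have h3 : (!![0, 1, 0; 1, 0, 0; 0, 0, -1] : Matrix (Fin 3) (Fin 3) F) = Matrix.scalar (Fin 3) c := h2
    have h4 := congrFun (congrFun h3 0) 1
    simp at h4
  rw [← h1]
  exact orderOf_dvd_natCard _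

/-! ### The prime divisors of `q - 1` -/

/-- two commuting elements of order `s` which are independent -/
theorem not_cyc {G : Type*} [Group G] [Finite G] {s : ℕ} [Fact s.Prime] {a b : G} (ha : orderOf a = s)
    (hb : orderOf b = s) (hab : a * b = b * a) (hn : ∀ k : ℕ, b ≠ a ^ k) : ¬ ∀ P : Sylow s G, IsCyclic ↥P := by
  intro hcyc
  have h1 : IsPGroup s ↥(closure ({a, b} : Set G)) := by
    have hcm : ∀ x ∈ closure ({a, b} : Set G), ∀ y ∈ closure ({a, b} : Set G), x * y = y * x := by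
      have h2 : IsMulCommutative ↥(closure ({a, b} : Set G)) := by
        refine isMulCommutative_closure ?_
        rintro x (rfl | rfl) y (rfl | rfl)
        · rfl
        · exact hab
        · exact hab.symm
        · rfl
      intro x hx y hy
      exact congrArg Subtype.val (h2.is_comm.comm ⟨x, hx⟩ ⟨y, hy⟩)
    have key : ∀ x ∈ closure ({a, b} : Set G), x ^ s = 1 := by
      intro x hx
      induction hx using closure_induction with
      | mem x hx =>
        rcases hx with rfl | rfl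
        · rw [← ha, pow_orderOf_eq_one]
        · rw [← hb, pow_orderOf_eq_one]
      | one => exact one_pow _
      | mul x y hx hy ihx ihy =>
        have h3 : Commute x y := hcm x hx y hy
        rw [h3.mul_pow, ihx, ihy, one_mul]
      | inv x _ ihx => rw [inv_pow, ihx, inv_one]
    intro x
    exact ⟨1, Subtype.ext (by rw [pow_one]; exact key x x.2)⟩
  obtain ⟨P, hP⟩ := h1.exists_le_sylow
  have h2 : zpowers a = zpowers b := by
    refine Cfsg.Agent.OddOrderLocal.CyclicSub.eq_of_card_eq_of_le_cyclic (Z := (P : Subgroup G)) (hcyc P) ?_ ?_ ?_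
    · rw [zpowers_le]; exact hP (subset_closure (by simp))
    · rw [zpowers_le]; exact hP (subset_closure (by simp))
    · rw [Nat.card_zpowers, Nat.card_zpowers, ha, hb]
  have h3 : b ∈ zpowers a := by rw [h2]; exact mem_zpowers b
  rw [← (isOfFinOrder_of_finite a).mem_powers_iff_mem_zpowers] at h3
  obtain ⟨k, hk⟩ := h3
  exact hn k hk.symm

/-- diagonal matrices -/
def dS (F : Type) [Field F] : Fˣ × Fˣ →* Matrix.SpecialLinearGroup (Fin 3) F where
  toFun p := ⟨Matrix.diagonal ![((p.1 : Fˣ) : F), ((p.2 : Fˣ) : F), (((p.1 * p.2)⁻¹ : Fˣ) : F)], by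
    rw [det_diagonal, Fin.prod_univ_three]
    change ((p.1 : Fˣ) : F) * ((p.2 : Fˣ) : F) * (((p.1 * p.2)⁻¹ : Fˣ) : F) = 1
    rw [← Units.val_mul]
    exact Units.mul_inv _⟩
  map_one' := by
    apply Subtype.ext
    ext i j
    fin_cases i <;> fin_cases j <;> simp
  map_mul' p q := by
    apply Subtype.ext
    change Matrix.diagonal _ = Matrix.diagonal _ * Matrix.diagonal _
    rw [diagonal_mul_diagonal]
    congr 1
    funext i
    fin_cases i
    · simp
    · simp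
    · simp; ring

theorem coe_dS (p : Fˣ × Fˣ) : (dS F p).1 =
    Matrix.diagonal ![((p.1 : Fˣ) : F), ((p.2 : Fˣ) : F), (((p.1 * p.2)⁻¹ : Fˣ) : F)] := rfl

theorem mk_dS_eq_one {p : Fˣ × Fˣ} (h : mk F (dS F p) = 1) : p.1 = p.2 ∧ p.1 ^ 3 = 1 := by
  obtain ⟨c, hc, h1⟩ := mk_eq_one.1 h
  rw [coe_dS, scalar_apply] at h1
  have h2 := Matrix.diagonal_injective h1
  have h3 := congrFun h2 0
  have h4 := congrFun h2 1
  simp only [cons_val_zero, cons_val_one] at h3 h4
  refine ⟨Units.ext (h3.trans h4.symm), Units.ext ?_⟩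
  rw [Units.val_pow_eq_pow_val, h3, hc, Units.val_one]

/-- **`s ∣ q - 1`, `s ≥ 5`** -/
theorem noSP_split [Fintype F] {s : ℕ} (hs : s.Prime) (h5 : 5 ≤ s) (hd : s ∣ Fintype.card F - 1) :
    Cfsg.Agent.H998.StrP.NoSP s K3 := by
  have : Fact s.Prime := ⟨hs⟩
  obtain ⟨r, hch⟩ := CharP.exists F
  obtain ⟨n, hr, hn⟩ := FiniteField.card F r
  have : Fact r.Prime := ⟨hr⟩
  have hsr : s ≠ r := by
    rintro rfl
    have h1 : s ∣ Fintype.card F := by rw [hn]; exact dvd_pow_self _ n.ne_zero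
    have h2 : 1 < Fintype.card F := Fintype.one_lt_card
    have h3 := Nat.dvd_sub h1 hd
    rw [Nat.sub_sub_self h2.le] at h3
    exact hs.one_lt.ne' (Nat.dvd_one.1 h3)
  have := simple (F := F)
  refine Cfsg.Agent.H242.StrP.LinAll.noSP_psl (r := r) (F := F) (n := 3) (G := K3) (by omega) hsr (by norm_num) (by omega)
    not_comm (MulEquiv.refl _) ?_ (by omega)
  obtain ⟨z, hz⟩ := exists_prime_orderOf_dvd_card' (G := Fˣ) s (by rwa [Nat.card_units, Nat.card_eq_fintype_card])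
  have hz3 : z ^ 3 ≠ 1 := by
    intro h
    have h1 := orderOf_dvd_of_pow_eq_one h
    rw [hz] at h1
    have := Nat.le_of_dvd (by norm_num) h1
    omega
  have hzs : z ^ s = 1 := by rw [← hz, pow_orderOf_eq_one]
  have ho : ∀ p : Fˣ × Fˣ, p ^ s = 1 → (p.1 = p.2 → p.1 ^ 3 ≠ 1) → orderOf (mk F (dS F p)) = s := by
    intro p hp hne
    refine orderOf_eq_prime (by rw [← map_pow, ← map_pow, hp, map_one, map_one]) fun h => ?_
    obtain ⟨h1, h2⟩ := mk_dS_eq_one h
    exact hne h1 h2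
  refine not_cyc (a := mk F (dS F (z, z⁻¹))) (b := mk F (dS F (1, z))) (ho _ ?_ ?_) (ho _ ?_ ?_) ?_ ?_
  · exact Prod.ext hzs (by rw [Prod.pow_snd, inv_pow, hzs, inv_one]; rfl)
  · intro h
    exact hz3
  · exact Prod.ext (one_pow _) hzs
  · intro h
    exfalso
    have h1 : (1 : Fˣ) = z := h
    apply hz3
    rw [← h1, one_pow]
  · rw [← map_mul, ← map_mul, ← map_mul, ← map_mul, mul_comm]
  · intro k h
    have h1 : mk F (dS F ((1, z) * ((z, z⁻¹) ^ k)⁻¹)) = 1 := by
      rw [map_mul, map_mul, map_inv, map_inv, map_pow, map_pow, h, mul_inv_cancel]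
    obtain ⟨h2, h3⟩ := mk_dS_eq_one h1
    have h4 : (1 : Fˣ) * (z ^ k)⁻¹ = z * ((z⁻¹) ^ k)⁻¹ := h2
    have h5 : ((1 : Fˣ) * (z ^ k)⁻¹) ^ 3 = 1 := h3
    rw [one_mul] at h4 h5
    rw [inv_pow, inv_inv] at h4
    apply hz3
    -- `z^{-k} = z^{k+1}`, `z^{-3k} = 1`
    have h6 : (z ^ k) ^ 3 = 1 := by rw [inv_pow, inv_eq_one] at h5; exact h5
    have h7 : z * (z ^ k * z ^ k) = 1 := by
      rw [← mul_assoc, ← h4, inv_mul_cancel]
    have h8 : (z * (z ^ k * z ^ k)) ^ 3 = 1 := by rw [h7, one_pow]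
    rw [mul_pow, mul_pow, h6, one_mul, mul_one] at h8
    exact h8

/-- **the characteristic** -/
theorem noSP_own [Fintype F] {p : ℕ} [Fact p.Prime] [CharP F p] : Cfsg.Agent.H998.StrP.NoSP p K3 :=
  Cfsg.Agent.H818.StrP.Own.HasRGD2.noSP (Cfsg.Agent.H818.StrP.Own.hasRGD2_PSL (F := F) 2 le_rfl (p := p))

/-! ### Characteristic three -/

/-- the unipotent radical in `PSL_3` -/
def UK (F : Type) [Field F] : Subgroup (ProjectiveSpecialLinearGroup (Fin 3) F) := ((mk F).comp (uS F)).range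

theorem UK_ne_bot : UK F ≠ ⊥ := by
  intro h
  have h1 : mk F (uS F (Multiplicative.ofAdd ((1 : F), (0 : F)))) ∈ UK F := ⟨_, rfl⟩
  rw [h, mem_bot] at h1
  obtain ⟨c, -, h2⟩ := mk_eq_one.1 h1
  have h3 : uM (1 : F) 0 = Matrix.scalar (Fin 3) c := h2
  have h4 := congrFun (congrFun h3 0) 2
  simp [uM] at h4

theorem gK_mem_normalizer [Fintype F] (A : GL (Fin 2) F) : gK F A ∈ normalizer (UK F : Set K3) := by
  rw [Cfsg.Agent.EvenType.StrongP.mem_norm]
  refine eq_of_le_of_card_ge ?_ ?_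
  · rintro _ ⟨_, ⟨p, rfl⟩, rfl⟩
    obtain ⟨p', hp'⟩ := gS_uS A p
    refine ⟨p', ?_⟩
    change mk F (uS F p') = mk F (gS F A) * mk F (uS F p) * (mk F (gS F A))⁻¹
    rw [eq_mul_inv_iff_mul_eq, ← map_mul, ← map_mul, hp']
  · rw [card_map_eq]

theorem UK_isPGroup (h3 : (3 : F) = 0) : IsPGroup 3 (UK F) := by
  rintro ⟨_, p, rfl⟩
  refine ⟨1, Subtype.ext ?_⟩
  change (((mk F).comp (uS F)) p) ^ 3 ^ 1 = 1
  rw [pow_one, ← map_pow]
  have h1 : p ^ 3 = 1 := by
    apply Multiplicative.toAdd.injective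
    rw [toAdd_pow, toAdd_one]
    refine Prod.ext ?_ ?_
    · change 3 • (Multiplicative.toAdd p).1 = 0
      rw [nsmul_eq_mul, Nat.cast_ofNat, h3, zero_mul]
    · change 3 • (Multiplicative.toAdd p).2 = 0
      rw [nsmul_eq_mul, Nat.cast_ofNat, h3, zero_mul]
  rw [h1, map_one]

/-- **`3 ∣ q`** -/
theorem no_three_own [Fintype F] (h : 3 ∣ Fintype.card F) {k : ℕ} {D : Subgroup K3} (hD : OddTI k D)
    (h3 : 3 ∣ Nat.card D) : False := by
  have hf : Fact (Nat.Prime 3) := ⟨Nat.prime_three⟩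
  obtain ⟨p, hch⟩ := CharP.exists F
  obtain ⟨n, hp, hn⟩ := FiniteField.card F p
  have hp3 : 3 = p := by
    rw [hn] at h
    exact (Nat.prime_dvd_prime_iff_eq Nat.prime_three hp).1 (Nat.prime_three.dvd_of_dvd_pow h)
  subst hp3
  have h0 : (3 : F) = 0 := by
    have h1 := CharP.cast_eq_zero F 3
    exact_mod_cast h1
  have hodd : Odd (Fintype.card F) := by
    rw [hn]; exact Odd.pow (by decide)
  obtain ⟨E, _, _, _, hcard, ⟨b⟩⟩ := exists_ext F
  suffices hex : ∃ D' : Subgroup K3, OddTI k D' ∧ UK F ≤ D' by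
    obtain ⟨D', hD', hle⟩ := hex
    refine hD'.not_eight hle UK_ne_bot (Y := (tor b).range) ?_ (eight_dvd_range b hodd hcard)
    rintro _ ⟨a, rfl⟩
    exact gK_mem_normalizer _
  rcases hD.three h3 with ⟨Q, hQ⟩ | h9
  · exact exists_le_of_sylow Nat.prime_three hD hQ (UK_isPGroup h0)
  · exfalso
    obtain ⟨Q⟩ : Nonempty (Sylow 3 K3) := inferInstance
    have h1 : 3 ^ 3 ∣ Nat.card Q := Q.pow_dvd_card_of_pow_dvd_card (by norm_num; exact dvd27 h)
    have h2 : Nat.card Q = 9 := (h9 Q).1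
    rw [h2] at h1
    omega

/-! ### Cyclic Sylow subgroups -/

theorem cyc [Fintype F] {r e : ℕ} (hr : r.Prime) (hr2 : r ≠ 2) (he : 2 ≤ e)
    (hiff : ∀ j, r ∣ Fintype.card F ^ j - 1 ↔ e ∣ j) (P : Sylow r K3) : IsCyclic ↥(P : Subgroup K3) := by
  have : Fact r.Prime := ⟨hr⟩
  exact Cfsg.Agent.H124.LinCyc.isCyclic_sylow_of_gl (F := F) (ι := Fin 3) (p := r) (e := e) hr2 (by omega)
    hiff (by rw [Fintype.card_fin]; omega) (Matrix.SpecialLinearGroup.toGL (n := Fin 3) (R := F))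
    (Matrix.SpecialLinearGroup.toGL_injective) (mk F) mk_surjective P

/-- cyclic Sylow subgroups: a Sylow subgroup in `D` -/
theorem exists_sylow_le' {G : Type*} [Group G] [Finite G] {k r : ℕ} (hr : r.Prime) (hr2 : r ≠ 2) {D : Subgroup G}
    (hD : OddTI k D) (hd : r ∣ Nat.card D) (hcyc : ∀ P : Sylow r G, IsCyclic ↥(P : Subgroup G)) :
    ∃ P : Sylow r G, (P : Subgroup G) ≤ D := by
  have : Fact r.Prime := ⟨hr⟩
  by_cases h5 : 5 ≤ r
  · exact hD.exists_sylow_le hr h5 hd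
  · have h3 : r = 3 := by
      have h2 := hr.two_le
      have h4 : r ≠ 4 := by rintro rfl; revert hr; decide
      omega
    subst h3
    rcases hD.three hd with h | h
    · exact h
    · exfalso
      obtain ⟨Q⟩ : Nonempty (Sylow 3 G) := inferInstance
      obtain ⟨h9, hexp⟩ := h Q
      obtain ⟨g, hg⟩ := (hcyc Q).exists_generator
      have h1 : orderOf g = 9 := by
        rw [← h9, orderOf_eq_card_of_forall_mem_zpowers hg]
      have h2 : g ^ 3 = 1 := Subtype.ext (hexp g g.2)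
      have h3 := orderOf_dvd_of_pow_eq_one h2
      rw [h1] at h3
      omega

/-- **`NoTI 4 (PSL_3(q))`** -/
theorem noTI4 [Fintype F] : NoTI 4 K3 := by
  intro D hD
  have hs := simple (F := F)
  obtain ⟨p, hch⟩ := CharP.exists F
  obtain ⟨n, hp, hn⟩ := FiniteField.card F p
  have hfp : Fact p.Prime := ⟨hp⟩
  have hq1 : 1 < Fintype.card F := Fintype.one_lt_card
  have hne : Nat.card D ≠ 1 := fun h1 => hD.ne (Subgroup.eq_bot_of_card_eq D h1)
  obtain ⟨r, hr, hrd⟩ := Nat.exists_prime_and_dvd hne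
  have hfr : Fact r.Prime := ⟨hr⟩
  have hr2 : r ≠ 2 := by
    rintro rfl
    have h4 := hD.odd
    rw [← Nat.not_even_iff_odd, even_iff_two_dvd] at h4
    exact h4 hrd
  have hge : r = 3 ∨ 5 ≤ r := by
    have h2 := hr.two_le
    have h4 : r ≠ 4 := by rintro rfl; revert hr; decide
    omega
  have hok : ¬ r ∣ Fintype.card F - 1 → Ok F r := by
    intro h
    rcases hge with rfl | h5
    · right
      intro c hc
      exact Cfsg.Agent.H583.FxLin.eq_one_of_pow hc h
    · left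
      rw [Nat.coprime_primes hr Nat.prime_three]
      omega
  rcases prime_cases hr (hrd.trans (card_subgroup_dvd_card D)) with h | h | ⟨h1, h2⟩ | ⟨h1, h2⟩
  · -- `r = p`
    rcases hge with rfl | h5
    · exact no_three_own h hD hrd
    · have hrp : r = p := by
        rw [hn] at h
        exact (Nat.prime_dvd_prime_iff_eq hr hp).1 (hr.dvd_of_dvd_pow h)
      subst hrp
      exact oddTI_false_of_noSP hD two_dvd hr h5 hrd noSP_own
  · rcases hge with rfl | h5
    · exact no_three_split h hD hrd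
    · exact oddTI_false_of_noSP hD two_dvd hr h5 hrd (noSP_split hr h5 h)
  · -- `r ∣ q + 1`
    have hiff := iff_of_prime hr Nat.prime_two hq1.le h1 h2
    have hcyc := cyc hr hr2 le_rfl hiff
    obtain ⟨P, hP⟩ := exists_sylow_le' hr hr2 hD hrd hcyc
    rcases Nat.even_or_odd (Fintype.card F) with he | ho
    · have hp2 : 2 = p := by
        rw [hn] at he
        exact ((Nat.prime_dvd_prime_iff_eq Nat.prime_two hp).1
          (Nat.prime_two.dvd_of_dvd_pow (even_iff_two_dvd.1 he)))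
      subst hp2
      have hPne : r ∣ Nat.card (P : Subgroup K3) := P.dvd_card_of_dvd_card (hrd.trans (card_subgroup_dvd_card D))
      obtain ⟨x, hx⟩ := exists_prime_orderOf_dvd_card' r hPne
      have hx' : orderOf (x : K3) = r := by rw [Subgroup.orderOf_coe]; exact hx
      exact not_four hr (hok h1) hiff hx' (four_dvd hD hr hP (hcyc P) x.2 hx')
    · obtain ⟨E, _, _, _, hcard, ⟨b⟩⟩ := exists_ext F
      obtain ⟨a, ha⟩ := exists_prime_orderOf_dvd_card' (G := Eˣ) r (by rw [Nat.card_units, hcard]; exact h2)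
      have hx := orderOf_tor b hr (hok h1) ha
      obtain ⟨g, hg⟩ := exists_conj_of_sylow_le hr hP hx
      refine hD.not_bad hg ?_ ((bad_tor b ho hcard a).conj g)
      intro h3
      have h4 : orderOf (g * tor b a * g⁻¹) = r := by
        rw [← hx]; exact (MulAut.conj g).orderOf_eq (tor b a)
      rw [h3, orderOf_one] at h4
      exact hr.one_lt.ne h4
  · have hiff := iff_of_prime hr Nat.prime_three hq1.le h1 h2
    have hcyc := cyc hr hr2 (by norm_num) hiff
    obtain ⟨P, hP⟩ := exists_sylow_le' hr hr2 hD hrd hcyc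
    have hPne : r ∣ Nat.card (P : Subgroup K3) := P.dvd_card_of_dvd_card (hrd.trans (card_subgroup_dvd_card D))
    obtain ⟨x, hx⟩ := exists_prime_orderOf_dvd_card' r hPne
    have hx' : orderOf (x : K3) = r := by rw [Subgroup.orderOf_coe]; exact hx
    have h4 := four_dvd hD hr hP (hcyc P) x.2 hx'
    have hf2 : Fact (Nat.Prime 2) := ⟨Nat.prime_two⟩
    obtain ⟨t, ht⟩ := exists_prime_orderOf_dvd_card'
      (G := ↥(normalizer (zpowers (x : K3) : Set K3))) 2 ((by norm_num : 2 ∣ 4).trans h4)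
    have ht' : orderOf (t : K3) = 2 := by rw [Subgroup.orderOf_coe]; exact ht
    refine no_inv hr hr2 (hok h1) hiff hx' (t := (t : K3)) ?_ ?_ t.2
    · rw [← pow_two, ← ht', pow_orderOf_eq_one]
    · intro h5
      rw [h5, orderOf_one] at ht'
      omega

/-- **`NoTI 4 (PSL_3(q))`** -/
theorem noTI4_psl3 (F : Type) [Field F] [Fintype F] (_h3 : 3 ≤ Fintype.card F) :
    NoTI 4 (Matrix.ProjectiveSpecialLinearGroup (Fin 3) F) := noTI4

end Cfsg.Agent.H583.FxThree
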