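import Cfsg.Agent.H583.GoodTw
import Cfsg.Agent.S1082
import Cfsg.Agent.LieClassical.OrthCenter
import Cfsg.Agent.LieClassical.QuadForms

/-!
# The good prime of `³D4(2)` (helper583, for S4384)
-/

set_option autoImplicit false
set_option linter.unusedSectionVars false

namespace Cfsg.Agent.H583.GoodTri

open Cfsg.Agent.H465.SU Cfsg.Agent.H585.Good Cfsg.Agent.H583.GoodGen Cfsg.Agent.H585.SuTor
open Cfsg.Agent.H728.DghpNum Cfsg.Agent.H728.DghpTwA
open Cfsg Cfsg.Lie Cfsg.Agent.Nodes.RGDChev Cfsg.Agent.LieClassical.QuadForms Cfsg.Agent.LieClassical.OrthCenter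
open QuadraticMap

/-- the eight-dimensional representation of `D4(q)`, `q` even -/
theorem exists_rep8 {K : Type} [Field K] (h2 : (2 : K) = 0) :
    ∃ ρ : ↥(chevD4.group K) →* ((Fin 4 ⊕ Fin 4 → K) ≃ₗ[K] (Fin 4 ⊕ Fin 4 → K)), Function.Injective ρ := by
  obtain ⟨e⟩ := Cfsg.Agent.S1082.result (F := K)
  have hc : Subgroup.center (Cfsg.Omega K (Cfsg.quadFormPlus 4 K)) = ⊥ := by
    rw [← coe_plusForm]
    refine center_omega_eq_bot_char_two h2 ?_ (by simp) ⟨Pi.single (Sum.inl 0) 1, ?_, ?_⟩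
    · refine ⟨fun u hu => polar_plusForm_nondeg 4 u hu, fun u hu => polar_plusForm_nondeg 4 u fun v => ?_⟩
      rw [QuadraticMap.polar_comm]
      exact hu v
    · intro h
      have := congrFun h (Sum.inl 0)
      simp at this
    · rw [plusForm_apply]
      refine Finset.sum_eq_zero fun i _ => ?_
      simp
  have e1 : Cfsg.POmega K (Cfsg.quadFormPlus 4 K) ≃* ↥(Cfsg.Omega K (Cfsg.quadFormPlus 4 K)) :=
    (QuotientGroup.quotientMulEquivOfEq hc).trans QuotientGroup.quotientBot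
  let f : ↥(Cfsg.Omega K (Cfsg.quadFormPlus 4 K)) →* GL (Fin 4 ⊕ Fin 4) K :=
    (Cfsg.isometryGroup K (Cfsg.quadFormPlus 4 K)).subtype.comp (Cfsg.Omega K (Cfsg.quadFormPlus 4 K)).subtype
  have hf : Function.Injective f := (Subgroup.subtype_injective _).comp (Subgroup.subtype_injective _)
  let g : GL (Fin 4 ⊕ Fin 4) K →* ((Fin 4 ⊕ Fin 4 → K) ≃ₗ[K] (Fin 4 ⊕ Fin 4 → K)) :=
    (LinearMap.GeneralLinearGroup.generalLinearEquiv K (Fin 4 ⊕ Fin 4 → K)).toMonoidHom.comp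
    (Matrix.GeneralLinearGroup.toLin (n := Fin 4 ⊕ Fin 4) (R := K)).toMonoidHom
  have hg : Function.Injective g :=
    (LinearMap.GeneralLinearGroup.generalLinearEquiv K (Fin 4 ⊕ Fin 4 → K)).injective.comp
      (Matrix.GeneralLinearGroup.toLin).injective
  exact ⟨g.comp (f.comp (e.trans e1).toMonoidHom), hg.comp (hf.comp (e.trans e1).injective)⟩

/-- **³D4(2)** -/
theorem good_3D4_two {K : Type} [Field K] [Fintype K] (hK : Fintype.card K = 2 ^ 3) : HasGood ↥(twistedD4 K 2) := by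
  have hq : IsPrimePow 2 := Nat.prime_two.isPrimePow
  have h13 : Nat.Prime 13 := by norm_num
  have hr : Ppd 2 12 13 := Cfsg.Agent.H728.DghpTwelve.ppd_of_dvd (by norm_num) (by norm_num)
  obtain ⟨hsimp, hnc⟩ := Cfsg.Agent.S1071.result hq hK
  obtain ⟨p, hpc⟩ := CharP.exists K
  have hp2 : p = 2 := by
    obtain ⟨n, hp, hn⟩ := FiniteField.card K p
    rw [hK] at hn
    exact (exp_unique Nat.prime_two hp (by norm_num) hn).1.symm
  subst hp2
  have h2 : (2 : K) = 0 := by exact_mod_cast CharP.cast_eq_zero K 2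
  have hle : twistedD4 K 2 ≤ chevD4.group K := genSubgroup_le (by simp [Cfsg.Agent.ChevalleyStructure.Elts.InList]) _
  obtain ⟨ρ, hρ⟩ := exists_rep8 (K := K) h2
  have hN : ((13 : ℕ) : ℤ) = 1 - ((2 : ℕ) : ℤ) ^ 2 + ((2 : ℕ) : ℤ) ^ 4 := by norm_num
  obtain ⟨T, hT1, hT2, hT3, hT4, hT5⟩ := Cfsg.Agent.H585.SuTD4.torus (q := 2) (N := 13) hq hK hN h13 (by norm_num)
    dvd_rfl
  obtain ⟨y, hy, hfull, hsu⟩ := exists_SU (ρ.comp (Subgroup.inclusion hle)) (hρ.comp (Subgroup.inclusion_injective hle))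
    (p := 2) h13 (by norm_num) hT1 hT5 hT2 hT3 (by norm_num) (a := 1) le_rfl (by norm_num) (by norm_num) (by norm_num)
    (by rw [Module.finrank_fintype_fun_eq_card]; simp) (Cfsg.Agent.H585.SuTD4.own hq hK h13 hr.ord 2)
  refine ⟨13, 1, y, h13, by norm_num, le_rfl, hy, hfull, hsu, InnAt.of_out h13 ?_, ?_⟩
  · have h1 := Cfsg.Agent.S2129.result (K := K) 2 1 (by rw [hK]) le_rfl
    rw [pow_one] at h1
    rw [h1]
    norm_num
  · have e1 : y ^ 13 ^ (1 - 1) = y := by simp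
    rw [e1]
    rw [pow_one] at hy
    exact Wit.of_one h13 hy hsu hnc

end Cfsg.Agent.H583.GoodTri
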