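import Cfsg.Agent.H583.GoodGen
import Cfsg.Agent.H585.SuTD4
import Cfsg.Agent.H585.SuTE6
import Cfsg.Agent.H728.DghpTwA
import Cfsg.Agent.H728.DghpTwD
import Cfsg.Agent.S1070
import Cfsg.Agent.S1071
import Cfsg.Agent.S2129
import Cfsg.Agent.S2130

/-!
# The good primes of `²E6(q)` and `³D4(q)` (helper583, for S4384)
-/

set_option autoImplicit false
set_option linter.unusedSectionVars false

namespace Cfsg.Agent.H583.GoodTw

open Cfsg.Agent.H465.SU Cfsg.Agent.H585.Good Cfsg.Agent.H585.SuRow Cfsg.Agent.H583.GoodGen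
open Cfsg.Agent.H728.DghpLem Cfsg.Agent.H728.DghpMat Cfsg.Agent.H728.DghpNum Cfsg.Agent.H728.DghpRow
  Cfsg.Agent.H518.Dghp Cfsg.Agent.H728.DghpCent Cfsg.Agent.H728.DghpUntw Cfsg.Agent.H728.DghpTwA
open Cfsg Cfsg.Lie Cfsg.Agent.Nodes.RGDChev Cfsg.Agent.H129.TorusChar
  Cfsg.Agent.ChevalleyStructure.CoxeterGeomTypes

theorem wit_2E6 {K : Type*} [Field K] [Fintype K] {q : ℕ} (hq : IsPrimePow q) (hK : Fintype.card K = q ^ 2) {r : ℕ}
    (hr : Ppd q 18 r) {x : ↥(twistedE6 K q)} (hx : orderOf x = r) : Wit ↥(twistedE6 K q) r x := by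
  have hq2 : 2 ≤ q := hq.two_le
  obtain ⟨s, hs⟩ := exists_ppd (q := q) (e := 10) hq2 (by norm_num) (by omega)
  have hr1 : 19 ≤ r := hr.le_of (by decide)
  have hs1 : 11 ≤ s := hs.le_of (by decide)
  have hcard := Cfsg.Agent.S1066.result (K := K) hq hK
  have hN : Fintype.card chevE6.Idx = 78 := card_idx _
  have hr' : Ppd (q ^ 2) 9 r := hr.pow 2 (by norm_num)
  have hs' : Ppd (q ^ 2) 5 s := hs.pow 2 (by norm_num)
  have hp : IsType chevE6 6 CoxeterMatrix.E₆ := by simp [IsType, typeList]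
  have hle : twistedE6 K q ≤ chevE6.group K := genSubgroup_le hp.inList _
  have hinc := Subgroup.inclusion_injective hle
  have hs5 : ∀ n ∈ [2, 5, 6, 8, 9, 12], 0 < n ∧ n < 13 := by decide
  have hsW : ¬ s ∣ [2, 5, 6, 8, 9, 12].prod := by
    intro h
    rw [hs.prime.prime.dvd_prod_iff] at h
    obtain ⟨n, hn, h1⟩ := h
    have h2 := Nat.le_of_dvd (hs5 n hn).1 h1
    have h3 := (hs5 n hn).2
    have h4 : s = 11 ∨ s = 12 := by omega
    rcases h4 with rfl | rfl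
    · revert h1; revert n; decide
    · exact absurd hs.prime (by norm_num)
  refine wit_cyc (k := 2) (φ := (twistedE6 K q).subtype) (twistedE6 K q).subtype_injective hK two_ne_zero hr hs
    ?_ (by norm_num) ?_ ?_ ?_ ?_ ?_ hx
  · refine dvd_of_gcd hs.prime (by norm_num) (by omega) hcard ?_
    exact (((((dvd_add_one hs (k := 5) (by norm_num) (by norm_num))).mul_left _).mul_right _).mul_right _).mul_right _
      |>.mul_right _
  · refine NonAdj.of_injective ?_ hinc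
    exact nonAdj (l := 6) (M := CoxeterMatrix.E₆) hp card_E6 (by norm_num) (d := 3)
      (by norm_num) invC_E6 hK hr' hs' (by norm_num) (by decide)
      (not_dvd_list (L := [2, 5, 6, 8, 9, 12]) hr.prime hr1 (by decide)) (fun h => by
        have := Nat.le_of_dvd (by norm_num) h; omega)
  · exact elem_cyclic_of_injective (elem_cyclic hK (chevE6, [2, 5, 6, 8, 9, 12]) (by simp) hr'
      (not_dvd_list hr.prime hr1 (by decide)) (by decide)) hinc
  · exact elem_cyclic_of_injective (elem_cyclic hK (chevE6, [2, 5, 6, 8, 9, 12]) (by simp) hs'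
      hsW (by decide)) hinc
  · rw [hN]
    exact lcm_gt hs.prime (by norm_num) (by norm_num; omega) hs1 (by norm_num)
  · rw [hN]
    exact lcm_gt hr.prime (by norm_num) (by norm_num; omega) hr1 (by norm_num)

/-- **²E6(q)** -/
theorem good_2E6 {K : Type} [Field K] [Fintype K] {q : ℕ} (hq : IsPrimePow q) (hK : Fintype.card K = q ^ 2) :
    HasGood ↥(twistedE6 K q) := by
  refine hasGood_of_rowE (Cfsg.Agent.S1070.result hq hK) (by norm_num) (Cfsg.Agent.H585.SuTE6.resultE hq hK)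
    (fun r hr h7 hf => ?_) (fun r a y _ hr _ _ x hx => wit_2E6 hq hK hr hx)
  obtain ⟨p, f, hp, hpc, rfl, hf1, hF, hrf⟩ := not_dvd_exp (F := K) two_ne_zero hK hf
  rw [Cfsg.Agent.S2130.result p f hF hf1]
  exact not_dvd_mul hr (not_dvd_mul hr (not_dvd_of_lt (by norm_num) (by omega)) (not_dvd_gcd (by norm_num) (by omega)))
    hrf

/-! ### `³D4(q)` -/

theorem ord_two_169 : orderOf (2 : ZMod 169) = 156 := by
  refine orderOf_eq_of_pow_and_pow_div_prime (by norm_num) (by decide +kernel) fun p hp hd => ?_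
  have h1 : p ∣ 2 ^ 2 * (3 * 13) := by simpa using hd
  rcases (Nat.Prime.dvd_mul hp).1 h1 with h | h
  · obtain rfl := (Nat.prime_dvd_prime_iff_eq hp Nat.prime_two).1 (hp.dvd_of_dvd_pow h)
    decide +kernel
  · rcases (Nat.Prime.dvd_mul hp).1 h with h | h
    · obtain rfl := (Nat.prime_dvd_prime_iff_eq hp Nat.prime_three).1 h
      decide +kernel
    · obtain rfl := (Nat.prime_dvd_prime_iff_eq hp (by norm_num)).1 h
      decide +kernel

/-- `13² ∤ 2^(12 f) - 1` if `13 ∤ f` -/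
theorem not_two {f : ℕ} (h : 169 ∣ (2 ^ f) ^ 12 - 1) : 13 ∣ f := by
  have h1 : ((2 : ZMod 169)) ^ (f * 12) = 1 := by
    have h2 : 1 ≤ 2 ^ (f * 12) := Nat.one_le_two_pow
    rw [← pow_mul] at h
    have h3 := (ZMod.natCast_eq_zero_iff (2 ^ (f * 12) - 1) 169).2 h
    rw [Nat.cast_sub h2, sub_eq_zero] at h3
    push_cast at h3
    exact h3
  have h4 := orderOf_dvd_of_pow_eq_one h1
  rw [ord_two_169] at h4
  omega

/-- `ord_13 (3^f) ≠ 12` -/
theorem not_three {f : ℕ} (h : orderOf (((3 ^ f : ℕ)) : ZMod 13) = 12) : False := by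
  have h1 : (((3 ^ f : ℕ)) : ZMod 13) ^ 3 = 1 := by
    push_cast
    rw [← pow_mul, mul_comm, pow_mul]
    have h2 : (3 : ZMod 13) ^ 3 = 1 := by decide
    rw [h2, one_pow]
  have h3 := orderOf_dvd_of_pow_eq_one h1
  rw [h] at h3
  omega

theorem dvd_cyc {q r : ℕ} (hr : Ppd q 12 r) : r ∣ q ^ 4 - q ^ 2 + 1 := by
  have hq : 1 ≤ q := hr.q_pos
  have h1 : r ∣ q ^ 12 - 1 := (hr.dvd_iff 12).2 dvd_rfl
  have h6 : ¬ r ∣ q ^ 6 - 1 := fun h => absurd ((hr.dvd_iff 6).1 h) (by norm_num)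
  have h4 : ¬ r ∣ q ^ 4 - 1 := fun h => absurd ((hr.dvd_iff 4).1 h) (by norm_num)
  have e0 : q ^ 2 ≤ q ^ 4 := Nat.pow_le_pow_right hq (by norm_num)
  have e2 : 1 ≤ q ^ 2 := Nat.one_le_pow _ _ hq
  have e4 : 1 ≤ q ^ 4 := Nat.one_le_pow _ _ hq
  have e6 : 1 ≤ q ^ 6 := Nat.one_le_pow _ _ hq
  have e12 : 1 ≤ q ^ 12 := Nat.one_le_pow _ _ hq
  have h2 : q ^ 12 - 1 = (q ^ 6 - 1) * ((q ^ 2 + 1) * (q ^ 4 - q ^ 2 + 1)) := by
    zify [e0, e6, e12]
    ring
  rw [h2] at h1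
  rcases (Nat.Prime.dvd_mul hr.prime).1 h1 with h | h
  · exact absurd h h6
  · rcases (Nat.Prime.dvd_mul hr.prime).1 h with h | h
    · exfalso
      apply h4
      have h5 : q ^ 4 - 1 = (q ^ 2 + 1) * (q ^ 2 - 1) := by
        zify [e4, e2]
        ring
      rw [h5]
      exact h.mul_right _
    · exact h

theorem idx_D4 : Fintype.card chevD4.Idx = 28 := by
  show Fintype.card (Fin _ ⊕ Fin _) = _
  rw [Fintype.card_sum, Fintype.card_fin, Fintype.card_fin]
  rfl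

/-- the large primes -/
theorem wit_3D4_big {K : Type*} [Field K] [Fintype K] {q : ℕ} (hq : IsPrimePow q) (hK : Fintype.card K = q ^ 3)
    (h3 : 3 ≤ q) {r : ℕ} (hr : Ppd q 12 r) (h29 : 29 ≤ r) {x : ↥(twistedD4 K q)} (hx : orderOf x = r) :
    Wit ↥(twistedD4 K q) r x := by
  have hrq := dvd_cyc hr
  obtain ⟨f, s, hs, hf, hs13⟩ := Cfsg.Agent.H728.DghpTwD.exists_second h3
  obtain ⟨h1, h2, h4⟩ := Cfsg.Agent.H728.DghpTwD.facts hq hK hr hrq
  have hs6 : s ∣ q ^ 6 - 1 := (hs.dvd_iff 6).2 (by rcases hf with rfl | rfl <;> norm_num)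
  have hf12 : f ≠ 12 := by rcases hf with rfl | rfl <;> norm_num
  have hsG : s ∣ Nat.card ↥(twistedD4 K q) := by
    rw [Cfsg.Agent.H728.DghpTwD.card_eq hq hK]
    exact ((hs6.mul_left _).mul_right _).mul_left _
  obtain ⟨c, hc⟩ := exists_order hs.prime hsG
  refine ⟨s, c, hs.prime, (Ppd.ne hr hs hf12.symm).symm, ⟨1, hc⟩, ?_⟩
  rw [pow_one] at hc
  refine not_solvable_wt (a := 1) (φ := (twistedD4 K q).subtype) (twistedD4 K q).subtype_injective hr.prime hs.prime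
    (hr.natCast_ne hK) (hs.natCast_ne hK)
    (Cfsg.Agent.H728.DghpTwD.nonAdj hq hK hr hrq hs hf12) h2 0 (Or.inl rfl) ?_ one_pos (by rw [pow_one, idx_D4]; omega) x c
    (by rw [pow_one]; exact hx) hc
  rw [hK, (hr.pow 3 (by norm_num)).ord, add_zero, idx_D4]
  exact lcm_gt hs.prime (by norm_num) (by norm_num; omega) hs13 (by norm_num)

/-- the prime `13` -/
theorem wit_3D4_small {K : Type} [Field K] [Fintype K] {q : ℕ} (hq : IsPrimePow q) (hK : Fintype.card K = q ^ 3)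
    {p f : ℕ} (hp : p.Prime) (hpK : CharP K p) (hqp : q = p ^ f) (hf : f ≠ 0) (h5 : 5 ≤ p)
    (hr : Ppd q 12 13) {x : ↥(twistedD4 K q)} (hx : orderOf x = 13) :
    Wit ↥(twistedD4 K q) 13 x := by
  have hrq := dvd_cyc hr
  obtain ⟨h1, h2, h4⟩ := Cfsg.Agent.H728.DghpTwD.facts hq hK hr hrq
  have hpq : p ∣ q := by rw [hqp]; exact dvd_pow_self p hf
  have hpG : p ∣ Nat.card ↥(twistedD4 K q) := by
    rw [Cfsg.Agent.H728.DghpTwD.card_eq hq hK]
    exact (((dvd_pow hpq (by norm_num)).mul_right _).mul_right _ |>.mul_right _).mul_left _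
  have hp13 : p ≠ 13 := by
    rintro rfl
    exact hr.ndvd hpq
  have hna : NonAdj ↥(twistedD4 K q) 13 p := by
    refine nonAdj_of_card fun y hy h => ?_
    rw [h1 y hy] at h
    have h6 : q ^ 2 ≤ q ^ 4 := Nat.pow_le_pow_right hq.pos (by norm_num)
    have h7 : p ∣ q ^ 4 - q ^ 2 := Nat.dvd_sub (dvd_pow hpq (by norm_num)) (dvd_pow hpq (by norm_num))
    have h8 : p ∣ 1 := (Nat.dvd_add_right h7).1 h
    exact hp.one_lt.ne' (Nat.dvd_one.1 h8)
  obtain ⟨c, hc⟩ := exists_order hp hpG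
  refine ⟨p, c, hp, hp13, ⟨1, hc⟩, ?_⟩
  refine not_solvable_of_norm (r := 13) (s := p) (a := 1) (b := 1) (by norm_num) hp one_pos (fun P hP y hy hn => ?_)
    (fun P hP z hz hn => ?_) x c (by rw [pow_one]; exact hx) hc
  · rw [pow_one] at hy
    obtain ⟨w, hw, rfl⟩ := hP.eq_zpowers_of_cyclic (by norm_num) (h2 P hP)
    obtain ⟨u, hu, -⟩ := act_on_prime (by norm_num) hp hw hy hn (fun e => hna w y hw hy e.symm)
    have : Fact (Nat.Prime 13) := ⟨by norm_num⟩
    have h6 : orderOf u ∣ Fintype.card (ZMod 13)ˣ := orderOf_dvd_card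
    rw [ZMod.card_units, hu] at h6
    have h7 : p ≤ 12 := Nat.le_of_dvd (by norm_num) h6
    interval_cases p <;> first | omega | (revert hp; decide)
  · rw [pow_one] at hz
    have hPp : IsPGroup p P := fun u => ⟨1, by
      rw [pow_one]
      exact Subtype.ext (hP.2.2 u.1 u.2)⟩
    refine hP.1 (Cfsg.Agent.H585.SuTD4.own hq hK hr.prime hr.ord p z hz (fun v hv => hna z v hz hv) P hPp
      fun u hu => ?_)
    exact (Subgroup.mem_normalizer_iff.1 hn u).1 hu

theorem wit_3D4 {K : Type} [Field K] [Fintype K] {q : ℕ} (hq : IsPrimePow q) (hK : Fintype.card K = q ^ 3)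
    (h3 : 3 ≤ q) {r a : ℕ} (ha : 2 ≤ a) (hr : Ppd q 12 r) {y : ↥(twistedD4 K q)} (hy : orderOf y = r ^ a)
    (hf : ∃ p f : ℕ, p.Prime ∧ q = p ^ f ∧ ¬ r ∣ f) {x : ↥(twistedD4 K q)} (hx : orderOf x = r) :
    Wit ↥(twistedD4 K q) r x := by
  rcases Nat.lt_or_ge r 29 with h29 | h29
  · -- `r = 13`
    have h13 : r = 13 := by
      have h1 := hr.dvd_pred
      have h2 := hr.prime
      have h4 := hr.lt
      interval_cases r <;> first | rfl | omega | (exfalso; revert h2; decide)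
    subst h13
    obtain ⟨p, f, hp, hpc, hqp, hf1, hF, hrf⟩ := not_dvd_exp (F := K) three_ne_zero hK hf
    refine wit_3D4_small hq hK hp.out hpc hqp (by omega) ?_ hr hx
    by_contra h5
    have h6 : p = 2 ∨ p = 3 := by
      have h7 := hp.out.two_le
      have h8 := hp.out
      interval_cases p
      · exact Or.inl rfl
      · exact Or.inr rfl
      · exact absurd h8 (by norm_num)
    rcases h6 with rfl | rfl
    · apply hrf
      apply not_two
      rw [← hqp]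
      -- `169 ∣ |G|`
      have h7 : 13 ^ 2 ∣ Nat.card ↥(twistedD4 K q) :=
        (pow_dvd_pow 13 ha).trans (by rw [← hy]; exact orderOf_dvd_natCard y)
      rw [Cfsg.Agent.H728.DghpTwD.card_eq hq hK] at h7
      have h8 : 13 ^ 2 ∣ q ^ 4 - q ^ 2 + 1 :=
        Nat.Coprime.dvd_of_dvd_mul_right (Nat.Coprime.pow_left _
          ((Nat.Prime.coprime_iff_not_dvd hr.prime).2 (Cfsg.Agent.H728.DghpTwD.not_dvd_rest hq.pos hr))) h7
      refine (by norm_num : (169 : ℕ) = 13 ^ 2) ▸ h8.trans ⟨(q ^ 6 - 1) * (q ^ 2 + 1), ?_⟩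
      have e0 : q ^ 2 ≤ q ^ 4 := Nat.pow_le_pow_right hq.pos (by norm_num)
      have e6 : 1 ≤ q ^ 6 := Nat.one_le_pow _ _ hq.pos
      have e12 : 1 ≤ q ^ 12 := Nat.one_le_pow _ _ hq.pos
      zify [e0, e6, e12]
      ring
    · have h7 := hr.ord
      rw [hqp] at h7
      exact not_three h7
  · exact wit_3D4_big hq hK h3 hr h29 hx

/-- **³D4(q)**, `q ≠ 2` -/
theorem good_3D4 {K : Type} [Field K] [Fintype K] {q : ℕ} (hq : IsPrimePow q) (hK : Fintype.card K = q ^ 3)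
    (h2 : q ≠ 2) : HasGood ↥(twistedD4 K q) := by
  have h3 : 3 ≤ q := by have := hq.two_le; omega
  refine hasGood_of_rowE (Cfsg.Agent.S1071.result hq hK) (by norm_num) (Cfsg.Agent.H585.SuTD4.resultE hq hK h2)
    (fun r hr h7 hf => ?_) (fun r a y ha hr hy hf x hx => wit_3D4 hq hK h3 ha hr hy hf hx)
  obtain ⟨p, f, hp, hpc, rfl, hf1, hF, hrf⟩ := not_dvd_exp (F := K) three_ne_zero hK hf
  rw [Cfsg.Agent.S2129.result p f hF hf1]
  exact not_dvd_mul hr (not_dvd_of_lt (by norm_num) (by omega)) hrf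

end Cfsg.Agent.H583.GoodTw
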