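/-
A finite 2-group of sectional 2-rank at most 2 is metacyclic (Blackburn).
-/
import Mathlib
import Cfsg.Prelude.Def_OddOrderLocal
import Cfsg.Prelude.Def_CaseTheorems
import Cfsg.Agent.PLocal.Huppert
import Cfsg.Agent.H583.SecRank

set_option autoImplicit false

namespace Cfsg.Agent.H583.MetaTwo

open Cfsg Cfsg.Agent.PLocal.Huppert Cfsg.Agent.H583.SecRank
open scoped commutatorElement

/-- In a commutative finite `p`-group in which every element is `h ^ i * s ^ p`, the element `h` generates. -/
theorem cyclic_of_gen {A : Type*} [Group A] [Finite A] {p : ℕ} [Fact p.Prime] (hA : IsPGroup p A)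
    (hcomm : ∀ a b : A, Commute a b) (h : A) (hone : ∀ q : A, ∃ i : ℤ, ∃ s : A, q = h ^ i * s ^ p) :
    IsCyclic A := by
  have hall : ∀ (n : ℕ) (q : A), ∃ i : ℤ, ∃ s : A, q = h ^ i * s ^ (p ^ n) := by
    intro n
    induction n with
    | zero => intro q; exact ⟨0, q, by simp⟩
    | succ n ih =>
      intro q
      obtain ⟨i, s, rfl⟩ := ih q
      obtain ⟨j, t, rfl⟩ := hone s
      refine ⟨i + j * (p ^ n : ℕ), t, ?_⟩
      rw [(hcomm _ _).mul_pow, ← mul_assoc, zpow_add, zpow_mul, zpow_natCast, ← pow_mul, pow_succ']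
  obtain ⟨n, hn⟩ := IsPGroup.iff_card.1 hA
  refine ⟨⟨h, fun q => ?_⟩⟩
  obtain ⟨i, s, rfl⟩ := hall n q
  refine ⟨i, ?_⟩
  rw [← hn, pow_card_eq_one', mul_one]

variable {R : Type*} [Group R]

/-- The base case: central elementary derived subgroup. -/
theorem base_two [Finite R] (hR : IsPGroup 2 R)
    (h : ∀ T : Subgroup R, T.Normal → (∀ a b : R, a * b * a⁻¹ * b⁻¹ ∈ T) → (∀ x : R, x ^ 2 ∈ T) → T.index ≤ 4)
    (hrank : PRankLE 2 2 R)
    (hDc : ∀ d ∈ commutator R, ∀ r : R, d * r = r * d)
    (hDp : ∀ d ∈ commutator R, d ^ 2 = 1) : Cfsg.IsMetacyclic R := by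
  have hpp : (2 : ℕ).Prime := Nat.prime_two
  rcases subsingleton_or_nontrivial R with hs | hnt
  · refine ⟨⊥, inferInstance, inferInstance, ?_⟩
    exact isCyclic_of_subsingleton
  have hcommD : ∀ x y : R, ∃ c ∈ commutator R, y * x = x * y * c := fun x y =>
    ⟨⁅y⁻¹, x⁻¹⁆, Subgroup.commutator_mem_commutator (Subgroup.mem_top _) (Subgroup.mem_top _),
      by rw [commutatorElement_def]; group⟩
  have hcomD : ∀ x y : R, x * y * x⁻¹ * y⁻¹ ∈ commutator R := fun x y => by
    have := Subgroup.commutator_mem_commutator (Subgroup.mem_top x) (Subgroup.mem_top y)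
    rwa [commutatorElement_def] at this
  have hpow : ∀ x y : R, ∃ c ∈ commutator R, (x * y) ^ 2 = x ^ 2 * y ^ 2 * c := by
    intro x y
    obtain ⟨c, hc, hcxy⟩ := hcommD x y
    exact ⟨c, hc, by rw [mul_pow_central (hDc c hc) hcxy 2]; simp⟩
  have hcen : ∀ x r : R, x ^ 2 * r = r * x ^ 2 := by
    intro x r
    obtain ⟨c, hc, hcxy⟩ := hcommD r x
    have h1 := pow_mul_comm_central (hDc c hc) hcxy 2
    rw [hDp c hc, mul_one] at h1
    exact h1
  have hDn : (commutator R).Normal := inferInstance
  -- the subgroup of squares modulo the derived subgroup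
  let P : Subgroup R :=
    { carrier := {r | ∃ s : R, ∃ d ∈ commutator R, r = s ^ 2 * d}
      one_mem' := ⟨1, 1, one_mem _, by simp⟩
      mul_mem' := by
        rintro _ _ ⟨s, d, hd, rfl⟩ ⟨t, e, he, rfl⟩
        obtain ⟨c, hc, hst⟩ := hpow s t
        refine ⟨s * t, c⁻¹ * (d * e), mul_mem (inv_mem hc) (mul_mem hd he), ?_⟩
        rw [hst]
        have h1 := hcen t d
        calc s ^ 2 * d * (t ^ 2 * e) = s ^ 2 * (d * t ^ 2) * e := by group
          _ = s ^ 2 * (t ^ 2 * d) * e := by rw [h1]
          _ = s ^ 2 * t ^ 2 * c * (c⁻¹ * (d * e)) := by group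
      inv_mem' := by
        rintro _ ⟨s, d, hd, rfl⟩
        refine ⟨s⁻¹, d⁻¹, inv_mem hd, ?_⟩
        have h1 := hcen s⁻¹ d⁻¹
        rw [mul_inv_rev, h1, inv_pow] }
  have hPmem : ∀ r, r ∈ P ↔ ∃ s : R, ∃ d ∈ commutator R, r = s ^ 2 * d := fun r => Iff.rfl
  have hPsq : ∀ s : R, s ^ 2 ∈ P := fun s => ⟨s, 1, one_mem _, by simp⟩
  have hDP : commutator R ≤ P := fun d hd => ⟨1, d, hd, by simp⟩
  have hPn : P.Normal := ⟨by
    rintro _ ⟨s, d, hd, rfl⟩ g
    refine ⟨s, d, hd, ?_⟩
    have h1 := hcen s g
    have h2 := hDc d hd g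
    calc g * (s ^ 2 * d) * g⁻¹ = (g * s ^ 2) * d * g⁻¹ := by group
      _ = s ^ 2 * (g * d) * g⁻¹ := by rw [← h1]; group
      _ = s ^ 2 * d := by rw [← h2]; group⟩
  have hPindex : P.index ≤ 2 ^ 2 := h P hPn (fun a b => hDP (hcomD a b)) hPsq
  have hQ : IsPGroup 2 (R ⧸ P) := hR.to_quotient P
  have hQc : Nat.card (R ⧸ P) ≤ 2 ^ 2 := hPindex
  -- generation modulo `P`
  have hgen : ∀ g : R, g ∉ P → ∃ h : R, ∀ r : R, ∃ i j : ℤ, ∃ s : R, ∃ d ∈ commutator R,
      r = h ^ i * g ^ j * (s ^ 2 * d) := by
    intro g hg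
    have hg' : (QuotientGroup.mk g : R ⧸ P) ≠ 1 := fun h => hg ((QuotientGroup.eq_one_iff g).1 h)
    obtain ⟨y, hy⟩ := exists_complement_gen hQ hQc hg'
    obtain ⟨y, rfl⟩ := QuotientGroup.mk_surjective y
    refine ⟨y, fun r => ?_⟩
    obtain ⟨i, j, hij⟩ := hy (QuotientGroup.mk r)
    have hij' : (QuotientGroup.mk (y ^ i * g ^ j) : R ⧸ P) = QuotientGroup.mk r := by
      rw [hij]; rfl
    rw [QuotientGroup.eq] at hij'
    obtain ⟨s, d, hd, hs⟩ := hij'
    exact ⟨i, j, s, d, hd, by rw [← hs]; group⟩
  -- the quotient by a subgroup containing the derived subgroup is cyclic, if generated by one element modulo `P`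
  have hcyc : ∀ (g h' : R), commutator R ≤ Subgroup.zpowers g →
      (∀ r : R, ∃ i j : ℤ, ∃ s : R, ∃ d ∈ commutator R, r = h' ^ i * g ^ j * (s ^ 2 * d)) →
      Cfsg.IsMetacyclic R := by
    intro g h' hgD hh'
    have hgn : (Subgroup.zpowers g).Normal := Subgroup.Normal.of_commutator_le R hgD
    refine ⟨Subgroup.zpowers g, hgn, inferInstance, ?_⟩
    have hcommQ : ∀ a b : R ⧸ Subgroup.zpowers g, Commute a b := by
      intro a b
      obtain ⟨a, rfl⟩ := QuotientGroup.mk_surjective a
      obtain ⟨b, rfl⟩ := QuotientGroup.mk_surjective b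
      change (QuotientGroup.mk a : R ⧸ Subgroup.zpowers g) * (QuotientGroup.mk b) = _
      rw [← commutatorElement_eq_one_iff_mul_comm]
      change (QuotientGroup.mk ⁅a, b⁆ : R ⧸ Subgroup.zpowers g) = 1
      rw [QuotientGroup.eq_one_iff]
      exact hgD (Subgroup.commutator_mem_commutator (Subgroup.mem_top _) (Subgroup.mem_top _))
    refine cyclic_of_gen (p := 2) (hR.to_quotient _) hcommQ (QuotientGroup.mk h') ?_
    intro q
    obtain ⟨r, rfl⟩ := QuotientGroup.mk_surjective q
    obtain ⟨i, j, s, d, hd, rfl⟩ := hh' r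
    refine ⟨i, QuotientGroup.mk s, ?_⟩
    have hg1 : (QuotientGroup.mk g : R ⧸ Subgroup.zpowers g) = 1 := by
      rw [QuotientGroup.eq_one_iff]; exact Subgroup.mem_zpowers g
    have hd1 : (QuotientGroup.mk d : R ⧸ Subgroup.zpowers g) = 1 := by
      rw [QuotientGroup.eq_one_iff]; exact hgD hd
    change (QuotientGroup.mk h' : R ⧸ Subgroup.zpowers g) ^ i * QuotientGroup.mk g ^ j *
      (QuotientGroup.mk s ^ 2 * QuotientGroup.mk d) = _
    rw [hg1, hd1, one_zpow, mul_one, mul_one]
  have hPt : P ≠ ⊤ := by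
    intro hPt
    -- then `R` is metacyclic with `h' = 1`; use the order
    have hall : ∀ r : R, ∃ s : R, ∃ d ∈ commutator R, r = s ^ 2 * d := fun r => by
      have : r ∈ P := hPt ▸ Subgroup.mem_top r
      exact this
    -- every element is central
    have hcent : ∀ a b : R, a * b = b * a := by
      intro a b
      obtain ⟨s, d, hd, rfl⟩ := hall a
      rw [mul_assoc, hDc d hd b, ← mul_assoc, hcen s b, mul_assoc]
    have hDbot : ∀ d ∈ commutator R, d = 1 := by
      have : commutator R ≤ ⊥ := by
        rw [commutator_def, Subgroup.commutator_le]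
        intro a _ b _
        rw [Subgroup.mem_bot, commutatorElement_eq_one_iff_mul_comm]
        exact hcent a b
      intro d hd
      exact this hd
    let φ : R →* R :=
      { toFun := fun x => x ^ 2
        map_one' := one_pow 2
        map_mul' := fun x y => (show Commute x y from hcent x y).mul_pow 2 }
    have hsurj : Function.Surjective φ := by
      intro r
      obtain ⟨s, d, hd, rfl⟩ := hall r
      exact ⟨s, by rw [hDbot d hd, mul_one]; rfl⟩
    have hinj : Function.Injective φ := Finite.injective_iff_surjective.2 hsurj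
    obtain ⟨k, hk, hcard⟩ := hR.nontrivial_iff_card.1 hnt
    obtain ⟨x, hx⟩ := exists_prime_orderOf_dvd_card' (G := R) 2 (by rw [hcard]; exact dvd_pow_self 2 hk.ne')
    have h1 : φ x = φ 1 := by
      rw [map_one]
      change x ^ 2 = 1
      rw [← hx, pow_orderOf_eq_one]
    rw [hinj h1, orderOf_one] at hx
    omega
  -- the derived subgroup is contained in a cyclic subgroup
  obtain ⟨c, hc⟩ : ∃ c : R, commutator R ≤ Subgroup.zpowers c := by
    obtain ⟨g, hg⟩ : ∃ g, g ∉ P := by
      by_contra hcon
      push Not at hcon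
      exact hPt (eq_top_iff.2 fun y _ => hcon y)
    obtain ⟨h, hh⟩ := hgen g hg
    refine ⟨⁅h, g⁆, ?_⟩
    set d := ⁅h, g⁆ with hd
    have hdD : d ∈ commutator R :=
      Subgroup.commutator_mem_commutator (Subgroup.mem_top _) (Subgroup.mem_top _)
    have hDn : (Subgroup.zpowers d).Normal := ⟨by
      rintro _ ⟨j, rfl⟩ r
      simp only
      rw [← hDc _ (Subgroup.zpow_mem _ hdD j) r, mul_inv_cancel_right]
      exact Subgroup.zpow_mem_zpowers _ _⟩
    rw [commutator_def, Subgroup.commutator_le]
    intro a _ b _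
    refine (QuotientGroup.eq_one_iff (N := Subgroup.zpowers d) _).1 ?_
    change ⁅(QuotientGroup.mk a : R ⧸ Subgroup.zpowers d), (QuotientGroup.mk b : R ⧸ Subgroup.zpowers d)⁆ = 1
    rw [commutatorElement_eq_one_iff_mul_comm]
    have hhg : Commute (QuotientGroup.mk h : R ⧸ Subgroup.zpowers d) (QuotientGroup.mk g) := by
      change (QuotientGroup.mk h : R ⧸ Subgroup.zpowers d) * (QuotientGroup.mk g) = _
      rw [← commutatorElement_eq_one_iff_mul_comm]
      change (QuotientGroup.mk ⁅h, g⁆ : R ⧸ Subgroup.zpowers d) = 1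
      rw [QuotientGroup.eq_one_iff]
      exact Subgroup.mem_zpowers d
    have hsp : ∀ (s e : R), e ∈ commutator R → ∀ (q : R ⧸ Subgroup.zpowers d),
        Commute ((QuotientGroup.mk (s ^ 2 * e) : R ⧸ Subgroup.zpowers d)) q := by
      intro s e he q
      obtain ⟨r, rfl⟩ := QuotientGroup.mk_surjective q
      change (QuotientGroup.mk (s ^ 2 * e * r) : R ⧸ Subgroup.zpowers d) = QuotientGroup.mk (r * (s ^ 2 * e))
      congr 1
      rw [mul_assoc, hDc e he r, ← mul_assoc, hcen s r, mul_assoc]
    obtain ⟨i, j, s, e, he, rfl⟩ := hh a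
    obtain ⟨k, l, t, f, hf, rfl⟩ := hh b
    change Commute ((QuotientGroup.mk h : R ⧸ Subgroup.zpowers d) ^ i * QuotientGroup.mk g ^ j *
        QuotientGroup.mk (s ^ 2 * e))
      ((QuotientGroup.mk h : R ⧸ Subgroup.zpowers d) ^ k * QuotientGroup.mk g ^ l * QuotientGroup.mk (t ^ 2 * f))
    apply Commute.mul_left
    · apply Commute.mul_right
      · apply Commute.mul_left
        · apply Commute.mul_right
          · exact (Commute.refl _).zpow_zpow i k
          · exact hhg.zpow_zpow i l
        · apply Commute.mul_right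
          · exact hhg.symm.zpow_zpow j k
          · exact (Commute.refl _).zpow_zpow j l
      · exact (hsp t f hf _).symm
    · exact hsp s e he _
  -- choose `g` of maximal order with `D ≤ ⟨g⟩`
  obtain ⟨g, hgD, hgmax⟩ := Set.exists_max_image {g : R | commutator R ≤ Subgroup.zpowers g} orderOf
    (Set.toFinite _) ⟨c, hc⟩
  replace hgD : commutator R ≤ Subgroup.zpowers g := hgD
  have hmax : ∀ s : R, commutator R ≤ Subgroup.zpowers s → orderOf s ≤ orderOf g := fun s hs => hgmax s hs
  by_cases hgP : g ∉ P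
  · obtain ⟨h', hh'⟩ := hgen g hgP
    exact hcyc g h' hgD hh'
  rw [not_not] at hgP
  exfalso
  obtain ⟨s, d, hd, hs⟩ := hgP
  -- if `⟨s ^ 2⟩ = ⟨g⟩` then contradiction
  have hkey : ∀ t : R, Subgroup.zpowers (t ^ 2) = Subgroup.zpowers g → False := by
    intro t ht
    have h1 : commutator R ≤ Subgroup.zpowers t := by
      refine hgD.trans ?_
      rw [← ht, Subgroup.zpowers_le]
      exact Subgroup.pow_mem _ (Subgroup.mem_zpowers t) 2
    have h2 : orderOf t ≤ orderOf g := hmax t h1
    have h3 : orderOf (t ^ 2) = orderOf g := by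
      rw [← Nat.card_zpowers, ← Nat.card_zpowers, ht]
    by_cases ht1 : t = 1
    · have hg1 : orderOf g = 1 := by rw [← h3, ht1]; simp
      obtain ⟨x, hx⟩ := exists_ne (1 : R)
      have hg1' : g = 1 := orderOf_eq_one_iff.1 hg1
      have h4 : commutator R ≤ Subgroup.zpowers x := by
        refine hgD.trans ?_
        rw [hg1', Subgroup.zpowers_one_eq_bot]
        exact bot_le
      have h5 := hmax x h4
      have h6 := orderOf_pos x
      exact hx (orderOf_eq_one_iff.1 (by omega))
    · have hps : 2 ∣ orderOf t := hR.dvd_orderOf ht1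
      rw [orderOf_pow_of_dvd two_ne_zero hps] at h3
      have h5 := orderOf_pos t
      omega
  by_cases hd1 : d = 1
  · apply hkey s
    rw [hs, hd1, mul_one]
  -- now `d ≠ 1`
  obtain ⟨j, hj⟩ := hgD hd
  simp only at hj
  have hd2 : d ^ 2 = 1 := hDp d hd
  have hg2 : g ≠ 1 := by
    rintro rfl
    rw [one_zpow] at hj
    exact hd1 hj.symm
  have hgo : 2 ∣ orderOf g := hR.dvd_orderOf hg2
  have hjo : (orderOf g : ℤ) ∣ 2 * j := by
    rw [orderOf_dvd_iff_zpow_eq_one, mul_comm, zpow_mul, hj]
    exact_mod_cast hd2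
  have hjno : ¬ (orderOf g : ℤ) ∣ j := by
    rw [orderOf_dvd_iff_zpow_eq_one, hj]
    exact hd1
  by_cases hg4 : 4 ∣ orderOf g
  · -- `j` is even
    have hje : (2 : ℤ) ∣ j := by
      have h1 : (4 : ℤ) ∣ 2 * j := (by exact_mod_cast hg4 : (4 : ℤ) ∣ (orderOf g : ℤ)).trans hjo
      omega
    apply hkey s
    have hs2 : s ^ 2 = g ^ (1 - j) := by
      rw [zpow_sub, zpow_one, hj, hs]
      group
    rw [hs2]
    apply le_antisymm
    · rw [Subgroup.zpowers_le]
      exact Subgroup.zpow_mem_zpowers g _
    · rw [Subgroup.zpowers_le]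
      -- `1 - j` is odd so coprime to the order of `g`
      have hcop : IsCoprime (1 - j) (orderOf g : ℤ) := by
        obtain ⟨k, hk⟩ := (IsPGroup.iff_orderOf.1 hR) g
        rw [hk]
        push_cast
        apply IsCoprime.pow_right
        obtain ⟨m, hm⟩ := hje
        exact ⟨1, m, by rw [hm]; ring⟩
      obtain ⟨u, v, huv⟩ := hcop
      refine ⟨u, ?_⟩
      simp only
      rw [← zpow_mul]
      have : (1 - j) * u = 1 - v * (orderOf g : ℤ) := by linear_combination huv
      rw [this, zpow_sub, zpow_one, mul_comm v, zpow_mul, zpow_natCast, pow_orderOf_eq_one, one_zpow, inv_one,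
        mul_one]
  · -- `g` has order two
    have hgo2 : orderOf g = 2 := by
      obtain ⟨k, hk⟩ := (IsPGroup.iff_orderOf.1 hR) g
      rcases k with _ | _ | k
      · exact absurd (orderOf_eq_one_iff.1 (by simpa using hk)) hg2
      · simpa using hk
      · exact absurd ⟨2 ^ k, by rw [hk]; ring⟩ hg4
    -- the derived subgroup has order two
    have hDcard : 2 ≤ Nat.card (commutator R) := by
      have : Nontrivial (commutator R) := ⟨⟨⟨d, hd⟩, 1, fun h => hd1 (congrArg Subtype.val h)⟩⟩
      exact Finite.one_lt_card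
    -- no element of order four has its square in the derived subgroup
    have hns : ∀ b : R, b ^ 2 ∈ commutator R → b ^ 2 = 1 := by
      intro b hb
      by_contra hb1
      have h1 : Subgroup.zpowers (b ^ 2) = Subgroup.zpowers g := by
        apply Subgroup.eq_of_le_of_card_ge
        · rw [Subgroup.zpowers_le]; exact hgD hb
        · rw [Nat.card_zpowers, Nat.card_zpowers, hgo2]
          have h2 := orderOf_pos (b ^ 2)
          have h3 : orderOf (b ^ 2) ≠ 1 := fun h => hb1 (orderOf_eq_one_iff.1 h)
          omega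
      exact hkey b h1
    -- the subgroup `B`
    let B : Subgroup R :=
      { carrier := {b | b ^ 2 = 1}
        one_mem' := by simp
        mul_mem' := by
          intro a b ha hb
          obtain ⟨c, hc, hab⟩ := hpow a b
          change (a * b) ^ 2 = 1
          have ha' : a ^ 2 = 1 := ha
          have hb' : b ^ 2 = 1 := hb
          apply hns
          rw [hab, ha', hb', one_mul, one_mul]
          exact hc
        inv_mem' := by
          intro a ha
          have ha' : a ^ 2 = 1 := ha
          change (a⁻¹) ^ 2 = 1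
          rw [inv_pow, ha', inv_one] }
    have hBc : Nat.card B ≤ 2 ^ 2 := by
      apply hrank B
      · refine ⟨⟨?_⟩⟩
        rintro ⟨a, ha⟩ ⟨b, hb⟩
        apply Subtype.ext
        change a * b = b * a
        have hab : (a * b) ^ 2 = 1 := B.mul_mem ha hb
        have ha' : a ^ 2 = 1 := ha
        have hb' : b ^ 2 = 1 := hb
        have hai : a⁻¹ = a := by rw [inv_eq_iff_mul_eq_one, ← sq]; exact ha'
        have hbi : b⁻¹ = b := by rw [inv_eq_iff_mul_eq_one, ← sq]; exact hb'
        have : (a * b)⁻¹ = a * b := by rw [inv_eq_iff_mul_eq_one, ← sq]; exact hab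
        rw [mul_inv_rev, hai, hbi] at this
        exact this.symm
      · intro a ha
        exact ha
    -- counting in the abelianization
    have hker : ∀ r : R, (Abelianization.of r) ^ 2 = 1 ↔ r ∈ B := by
      intro r
      rw [← map_pow]
      constructor
      · intro h1
        apply hns
        have : r ^ 2 ∈ (Abelianization.of (G := R)).ker := h1
        rwa [Abelianization.ker_of] at this
      · intro h1
        have h2 : r ^ 2 = 1 := h1
        rw [h2, map_one]
    have hkerB : ((powMonoidHom 2 : Abelianization R →* Abelianization R).ker).comap Abelianization.of = B := by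
      ext r
      rw [Subgroup.mem_comap, MonoidHom.mem_ker, powMonoidHom_apply]
      exact hker r
    have hrangeP : ((powMonoidHom 2 : Abelianization R →* Abelianization R).range).comap Abelianization.of = P := by
      ext r
      rw [Subgroup.mem_comap, MonoidHom.mem_range]
      constructor
      · rintro ⟨q, hq⟩
        obtain ⟨s, rfl⟩ := QuotientGroup.mk_surjective q
        replace hq : (Abelianization.of s) ^ 2 = Abelianization.of r := hq
        refine ⟨s, (s ^ 2)⁻¹ * r, ?_, by group⟩
        have h1 : (Abelianization.of (s ^ 2)) = Abelianization.of r := by rw [map_pow]; exact hq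
        have h2 : (s ^ 2)⁻¹ * r ∈ (Abelianization.of (G := R)).ker := by
          rw [MonoidHom.mem_ker, map_mul, map_inv, h1, inv_mul_cancel]
        rwa [Abelianization.ker_of] at h2
      · rintro ⟨s, d, hd, rfl⟩
        refine ⟨Abelianization.of s, ?_⟩
        rw [powMonoidHom_apply, map_mul, map_pow]
        have h2 : d ∈ (Abelianization.of (G := R)).ker := by rw [Abelianization.ker_of]; exact hd
        rw [MonoidHom.mem_ker.1 h2, mul_one]
    have hsurj : Function.Surjective (Abelianization.of (G := R)) := QuotientGroup.mk_surjective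
    have hPi : P.index = (powMonoidHom 2 : Abelianization R →* Abelianization R).range.index := by
      rw [← hrangeP, Subgroup.index_comap_of_surjective _ hsurj]
    have hBi : B.index = (powMonoidHom 2 : Abelianization R →* Abelianization R).ker.index := by
      rw [← hkerB, Subgroup.index_comap_of_surjective _ hsurj]
    have hcardA : Nat.card (Abelianization R) * Nat.card (commutator R) = Nat.card R := by
      have := Subgroup.card_mul_index (commutator R)
      rw [mul_comm]
      exact this
    have h1 : Nat.card (Abelianization R) = P.index * B.index := by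
      rw [hPi, hBi, Subgroup.index_ker, mul_comm]
      exact (Subgroup.card_mul_index _).symm
    have h2 : Nat.card B = Nat.card (commutator R) * P.index := by
      have h3 := Subgroup.card_mul_index B
      have h4 : 0 < B.index := Nat.pos_of_ne_zero Subgroup.index_ne_zero_of_finite
      rw [h1] at hcardA
      have h5 : Nat.card B * B.index = (Nat.card (commutator R) * P.index) * B.index := by
        rw [h3, ← hcardA]; ring
      exact Nat.eq_of_mul_eq_mul_right h4 h5
    -- so the index of `P` is at most two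
    have hPi2 : P.index ≤ 2 := by
      rw [h2] at hBc
      nlinarith
    -- `R` is generated by one element modulo `P`, so it is abelian
    obtain ⟨y, hy⟩ : ∃ y : R, ∀ r : R, ∃ i : ℤ, ∃ p ∈ P, r = y ^ i * p := by
      have hcycQ : IsCyclic (R ⧸ P) := by
        have hle : Nat.card (R ⧸ P) ≤ 2 := hPi2
        have hpos : 0 < Nat.card (R ⧸ P) := Nat.card_pos
        rcases (by omega : Nat.card (R ⧸ P) = 1 ∨ Nat.card (R ⧸ P) = 2) with h6 | h6
        · have := (Nat.card_eq_one_iff_unique.1 h6).1
          exact isCyclic_of_subsingleton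
        · exact isCyclic_of_prime_card h6
      obtain ⟨y, hy⟩ := hcycQ.exists_generator
      obtain ⟨y, rfl⟩ := QuotientGroup.mk_surjective y
      refine ⟨y, fun r => ?_⟩
      obtain ⟨i, hi⟩ := hy (QuotientGroup.mk r)
      have hi' : (QuotientGroup.mk (y ^ i) : R ⧸ P) = QuotientGroup.mk r := hi
      rw [QuotientGroup.eq] at hi'
      exact ⟨i, _, hi', by group⟩
    have hcent : ∀ a b : R, a * b = b * a := by
      intro a b
      have hPc : ∀ p ∈ P, ∀ r : R, Commute p r := by
        rintro _ ⟨s, d, hd, rfl⟩ r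
        change s ^ 2 * d * r = r * (s ^ 2 * d)
        rw [mul_assoc, hDc d hd r, ← mul_assoc, hcen s r, mul_assoc]
      obtain ⟨i, p, hp, rfl⟩ := hy a
      obtain ⟨k, q, hq, rfl⟩ := hy b
      change Commute (y ^ i * p) (y ^ k * q)
      apply Commute.mul_left
      · apply Commute.mul_right
        · exact (Commute.refl y).zpow_zpow i k
        · exact (hPc q hq _).symm
      · exact hPc p hp _
    have hDbot : commutator R ≤ ⊥ := by
      rw [commutator_def, Subgroup.commutator_le]
      intro a _ b _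
      rw [Subgroup.mem_bot, commutatorElement_eq_one_iff_mul_comm]
      exact hcent a b
    exact hd1 (hDbot hd)

theorem isMetacyclic_aux (n : ℕ) : ∀ (R : Type*) [Group R] [Finite R], Nat.card R = n →
    IsPGroup 2 R → SectionalPRankLE 2 2 R → Cfsg.IsMetacyclic R := by
  induction n using Nat.strong_induction_on with
  | _ n ih =>
  intro R _ _ hn hR h
  have hpp : (2 : ℕ).Prime := Nat.prime_two
  set K : Subgroup R := Subgroup.normalClosure
    ({a | ∃ d ∈ commutator R, ∃ r : R, ⁅d, r⁆ = a} ∪ {a | ∃ d ∈ commutator R, d ^ 2 = a}) with hK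
  have hK1 : ∀ d ∈ commutator R, ∀ r : R, ⁅d, r⁆ ∈ K := fun d hd r =>
    Subgroup.subset_normalClosure (Or.inl ⟨d, hd, r, rfl⟩)
  have hK2 : ∀ d ∈ commutator R, d ^ 2 ∈ K := fun d hd =>
    Subgroup.subset_normalClosure (Or.inr ⟨d, hd, rfl⟩)
  by_cases hKb : K = ⊥
  · apply base_two hR
    · intro T hT h1 h2
      exact index_le h T h1 h2
    · exact pRankLE h
    · intro d hd r
      have := hK1 d hd r
      rw [hKb, Subgroup.mem_bot] at this
      exact commutatorElement_eq_one_iff_mul_comm.1 this
    · intro d hd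
      have := hK2 d hd
      rwa [hKb, Subgroup.mem_bot] at this
  · have hnil : Group.IsNilpotent R := hR.isNilpotent
    obtain ⟨x, hxK, hx1, hxc⟩ := Cfsg.Agent.S0015.exists_mem_center_of_normal K hKb
    obtain ⟨z, hzK, hzc, hz⟩ : ∃ z ∈ K, z ∈ Subgroup.center R ∧ orderOf z = 2 := by
      have hd : 2 ∣ orderOf x := hR.dvd_orderOf hx1
      refine ⟨x ^ (orderOf x / 2), K.pow_mem hxK _, Subgroup.pow_mem _ hxc _, ?_⟩
      exact orderOf_pow_orderOf_div (orderOf_pos x).ne' hd
    have hzN : (Subgroup.zpowers z).Normal := ⟨by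
      rintro _ ⟨j, rfl⟩ r
      have h1 : z ^ j ∈ Subgroup.center R := Subgroup.zpow_mem _ hzc j
      simp only
      rw [Subgroup.mem_center_iff.1 h1 r, mul_inv_cancel_right]
      exact Subgroup.zpow_mem_zpowers _ _⟩
    have hcardz : Nat.card (Subgroup.zpowers z) = 2 := by rw [Nat.card_zpowers, hz]
    have hm : Cfsg.IsMetacyclic (R ⧸ Subgroup.zpowers z) := by
      refine ih (Nat.card (R ⧸ Subgroup.zpowers z)) ?_ _ rfl (hR.to_quotient _) (sectional_quotient h _)
      rw [← hn, ← Subgroup.card_mul_index (Subgroup.zpowers z), hcardz]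
      change (Subgroup.zpowers z).index < 2 * (Subgroup.zpowers z).index
      have h1 : 0 < (Subgroup.zpowers z).index := Nat.pos_of_ne_zero Subgroup.index_ne_zero_of_finite
      omega
    refine isMetacyclic_of_quotient hR (Subgroup.zpowers z) ?_ hcardz ?_ hm
    · rw [Subgroup.zpowers_le]; exact hzc
    · intro K' hK'n h1 h2
      rw [Subgroup.zpowers_le]
      have hKK' : K ≤ K' := by
        rw [hK]
        apply Subgroup.normalClosure_le_normal
        rintro a (⟨d, hd, r, rfl⟩ | ⟨d, hd, rfl⟩)
        · exact h1 d hd r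
        · exact h2 d hd
      exact hKK' hzK

/-- A finite 2-group of sectional 2-rank at most 2 is metacyclic. -/
theorem isMetacyclic {R : Type*} [Group R] [Finite R] (hR : IsPGroup 2 R) (h : SectionalPRankLE 2 2 R) :
    Cfsg.IsMetacyclic R :=
  isMetacyclic_aux (Nat.card R) R rfl hR h

end Cfsg.Agent.H583.MetaTwo
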