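import Mathlib
import Cfsg.Prelude.Def_Classical
import Cfsg.Agent.H583.SylLin
import Cfsg.Agent.H728.DghpNum
import Cfsg.Agent.ClassicalGeometry.PSL2Basic
import Cfsg.Agent.LieRecognition.PSLTwoLocal
import Cfsg.Agent.SmallSimple.SylFiveReduce
import Cfsg.Agent.S0278

/-!
# Sylow numbers of `PSL₂(q)` and `PSU₃(q)`, cross characteristic (helper583, for S3932)
-/

set_option autoImplicit false
set_option linter.unusedSectionVars false

namespace Cfsg.Agent.H583.SylRows

open Subgroup Cfsg.Agent.H512.SylNum Cfsg.Agent.H583.SylLin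

/-- from `E` to `E / Z(E)` -/
theorem row_quot {E : Type*} [Group E] [Finite E] {p r : ℕ} [hr : Fact r.Prime] (h : p ∣ Nat.card (Sylow r E)) :
    Row p (E ⧸ center E) := by
  refine ⟨r, hr, ?_⟩
  rwa [Cfsg.Agent.SmallSimple.SylFiveReduce.card_sylow_quotient (center E)
    (fun P => (center_le_centralizer _).trans (centralizer_le_normalizer _))]

theorem dvd_of_quot {E : Type*} [Group E] [Finite E] {p : ℕ} (h : p ∣ Nat.card (E ⧸ center E)) :
    p ∣ Nat.card E := h.trans (Subgroup.card_quotient_dvd_card _)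

section PSL

variable {F : Type*} [Field F] [Fintype F]

local notation "SL2" => Matrix.SpecialLinearGroup (Fin 2) F
local notation "PSL2" => Matrix.ProjectiveSpecialLinearGroup (Fin 2) F

/-- the order of `q` modulo an odd prime divisor of `q + 1` -/
theorem ord_two {q r : ℕ} (hr : r.Prime) (hr2 : r ≠ 2) (h : r ∣ q + 1) : orderOf ((q : ℕ) : ZMod r) = 2 := by
  have hrf : Fact r.Prime := ⟨hr⟩
  have h1 : ((q : ℕ) : ZMod r) = -1 := by
    have h2 := (ZMod.natCast_eq_zero_iff (q + 1) r).2 h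
    push_cast at h2
    linear_combination h2
  have h3 : Fact (Nat.Prime 2) := ⟨Nat.prime_two⟩
  apply orderOf_eq_prime
  · rw [h1]; ring
  · rw [h1]
    intro h4
    have h5 : ((2 : ℕ) : ZMod r) = 0 := by push_cast; linear_combination -h4
    rw [ZMod.natCast_eq_zero_iff] at h5
    exact hr2 ((Nat.prime_dvd_prime_iff_eq hr Nat.prime_two).1 h5)

theorem mersenne (hF : 4 ≤ Fintype.card F) {k : ℕ} (hk : Fintype.card F + 1 = 2 ^ k) {p : ℕ} [hp : Fact p.Prime]
    (hp2 : p ≠ 2) (hd : p ∣ Nat.card PSL2) : p ∣ Nat.card (Sylow 2 PSL2) := by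
  have h2f : Fact (Nat.Prime 2) := ⟨Nat.prime_two⟩
  have hk3 : 3 ≤ k := by
    by_contra h
    push Not at h
    have : 2 ^ k ≤ 2 ^ 2 := Nat.pow_le_pow_right (by norm_num) (by omega)
    omega
  have h8 : 8 ∣ Fintype.card F + 1 := by rw [hk]; exact pow_dvd_pow 2 hk3
  have h4 : Fintype.card F % 4 = 3 := by omega
  by_contra hcon
  obtain ⟨P⟩ : Nonempty (Sylow p PSL2) := inferInstance
  obtain ⟨R, hR⟩ := exists_norm (p := p) hcon P.2
  obtain ⟨a, haP, ha, -⟩ := exists_center P.2 (card_sylow_ne_one hd P)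
  have h2G : 2 ∣ Nat.card PSL2 := by
    have h5 := Cfsg.Agent.LieRecognition.PSLTwoLocal.card_torus (F := F) h4
    have h6 : 2 ∣ Nat.card (Cfsg.Agent.LieRecognition.PSLTwoLocal.torus F) := by omega
    exact h6.trans (card_subgroup_dvd_card _)
  obtain ⟨t, htR, ht, htc⟩ := exists_center R.2 (card_sylow_ne_one h2G R)
  have ht1 : t ≠ 1 := ne_one_of_orderOf (p := 2) ht
  obtain ⟨T, hT⟩ := Cfsg.Agent.LieRecognition.PSLTwoLocal.exists_isTorusAt h4 t ht1 (by
    have h5 := pow_orderOf_eq_one t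
    rwa [ht, pow_two] at h5)
  have hCp : IsPGroup 2 (centralizer ({t} : Set PSL2)) := IsPGroup.of_card (n := k) (by rw [hT.card_centralizer, hk])
  have hRC : (R : Subgroup PSL2) ≤ centralizer ({t} : Set PSL2) := le_cent htc
  have hRC' : centralizer ({t} : Set PSL2) = (R : Subgroup PSL2) := R.is_maximal' hCp hRC
  -- an element of order `> 2`
  have hTcard : 4 ≤ Nat.card T := by have := hT.card; omega
  obtain ⟨y, hy⟩ := hT.cyclic.exists_generator
  have hyo : orderOf (y : PSL2) = Nat.card T := by rw [orderOf_coe, orderOf_eq_card_of_forall_mem_zpowers hy]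
  have hyy : (y : PSL2) * y ≠ 1 := by
    intro h
    rw [← pow_two] at h
    have := Nat.le_of_dvd (by norm_num) (orderOf_dvd_of_pow_eq_one h)
    omega
  have hCy := hT.centralizer_eq y y.2 hyy
  have htaR : a * t * a⁻¹ ∈ (R : Subgroup PSL2) := conj_mem hR haP htR
  -- `t ^ a` is central in `R`
  have hta : a * t * a⁻¹ ∈ T := by
    rw [← hCy, mem_centralizer_singleton_iff]
    have hyR : (y : PSL2) ∈ (R : Subgroup PSL2) := by rw [← hRC']; exact hT.le y.2
    have h5 : a⁻¹ * y * a ∈ (R : Subgroup PSL2) := by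
      have := conj_mem hR (inv_mem haP) hyR
      rwa [inv_inv] at this
    have h6 := htc _ h5
    calc a * t * a⁻¹ * y = a * (t * (a⁻¹ * y * a)) * a⁻¹ := by group
      _ = a * (a⁻¹ * y * a * t) * a⁻¹ := by rw [h6]
      _ = y * (a * t * a⁻¹) := by group
  have h7 : zpowers (a * t * a⁻¹) = zpowers t := by
    refine Cfsg.Agent.OddOrderLocal.CyclicSub.eq_of_card_eq_of_le_cyclic (Z := T) hT.cyclic ?_ ?_ ?_
    · rwa [zpowers_le]
    · rw [zpowers_le]; exact hT.mem
    · have e : a * t * a⁻¹ = MulAut.conj a t := rfl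
      rw [Nat.card_zpowers, Nat.card_zpowers, e, MulEquiv.orderOf_eq]
  have h8 : a * t * a⁻¹ = t := by
    have h9 : a * t * a⁻¹ ∈ zpowers t := by rw [← h7]; exact mem_zpowers _
    obtain ⟨i, hi⟩ := mem_zpowers_iff.1 h9
    have h10 : t ^ i = 1 ∨ t ^ i = t := by
      have htt : t ^ (2 : ℤ) = 1 := by
        have := pow_orderOf_eq_one t
        rw [ht] at this
        exact_mod_cast this
      rcases Int.even_or_odd' i with ⟨j, rfl | rfl⟩
      · left; rw [zpow_mul, htt, one_zpow]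
      · right; rw [zpow_add, zpow_mul, htt, one_zpow, one_mul, zpow_one]
    rcases h10 with h10 | h10
    · exfalso
      rw [hi] at h10
      exact ht1 (conj_eq_one_iff.1 h10)
    · rw [← hi, h10]
  have haC : a ∈ centralizer ({t} : Set PSL2) := by
    rw [mem_centralizer_singleton_iff]
    exact mul_inv_eq_iff_eq_mul.1 h8
  rw [hRC'] at haC
  obtain ⟨j, hj⟩ := (IsPGroup.iff_orderOf.1 R.2) ⟨a, haC⟩
  rw [orderOf_mk, ha] at hj
  have h11 : p ∣ 2 ^ j := by rw [← hj]
  exact hp2 ((Nat.prime_dvd_prime_iff_eq hp.out Nat.prime_two).1 (hp.out.dvd_of_dvd_pow h11))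

/-- **The row of `PSL₂(q)`** -/
theorem row_psl2 (hF : 4 ≤ Fintype.card F) {p : ℕ} [hp : Fact p.Prime] (hp2 : p ≠ 2) (hpF : ¬ p ∣ Fintype.card F)
    (hd : p ∣ Nat.card PSL2) : Row p PSL2 := by
  have hcard := Cfsg.Agent.ClassicalGeometry.PSL2Basic.card_SL2 (F := F)
  have hd' : p ∣ Nat.card SL2 := dvd_of_quot hd
  obtain ⟨q, hq⟩ : ∃ q, Fintype.card F = q := ⟨_, rfl⟩
  have hq1 : 1 ≤ q := by omega
  have hfac : q ^ 2 - 1 = (q + 1) * (q - 1) := by
    have := Nat.sq_sub_sq q 1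
    rwa [one_pow] at this
  obtain ⟨ℓ, hℓ⟩ := CharP.exists F
  obtain ⟨n, hlp, hn⟩ := FiniteField.card F ℓ
  have hlf : Fact ℓ.Prime := ⟨hlp⟩
  let φ : SL2 →* GL (Fin 2) F := Matrix.SpecialLinearGroup.toGL
  have hφ : Function.Injective φ := Matrix.SpecialLinearGroup.toGL_injective
  have hcase : p ∣ q + 1 ∨ p ∣ q - 1 := by
    rw [hcard, hq, hfac] at hd'
    rcases (Nat.Prime.dvd_mul hp.out).1 hd' with h | h
    · exact absurd (hq ▸ h) hpF
    · exact (Nat.Prime.dvd_mul hp.out).1 h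
  rcases hcase with h | h
  · refine row_quot (r := ℓ) (dvd_sylow_char (K := F) hφ ?_ (by simp) ?_ hd')
    · rw [hq, Fintype.card_fin]
      exact ord_two hp.out hp2 h
    · rw [hcard, hn]
      exact (dvd_pow_self ℓ n.ne_zero).mul_right _
  · by_cases hr : ∃ r : ℕ, r.Prime ∧ r ≠ 2 ∧ r ∣ q + 1
    · obtain ⟨r, hr, hr2, hrq⟩ := hr
      have hrf : Fact r.Prime := ⟨hr⟩
      refine row_quot (r := r) (dvd_sylow_split (K := F) hφ (fun g => g.2) ?_ ?_ ?_ (by simp) (by rw [hq]; exact h)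
        ?_ hd')
      · intro h0
        have h1 : ℓ ∣ r := (CharP.cast_eq_zero_iff F ℓ r).1 h0
        have h2 := (Nat.prime_dvd_prime_iff_eq hlp hr).1 h1
        subst h2
        have h3 : ℓ ∣ q := by rw [← hq, hn]; exact dvd_pow_self _ n.ne_zero
        have h4 : ℓ ∣ 1 := (Nat.dvd_add_right h3).1 hrq
        exact hlp.one_lt.ne' (Nat.dvd_one.1 h4)
      · rw [hq, Fintype.card_fin]
        exact ord_two hr hr2 hrq
      · rw [Fintype.card_fin]
        have := hp.out.two_le
        omega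
      · rw [hcard, hq, hfac]
        exact (hrq.mul_right _).mul_left _
    · push Not at hr
      have h1 : q + 1 = 2 ^ (q + 1).primeFactorsList.length := by
        refine Nat.eq_prime_pow_of_unique_prime_dvd (by omega) ?_
        intro d hd1 hd2
        by_contra hne
        exact hr d hd1 hne hd2
      exact ⟨2, ⟨Nat.prime_two⟩, mersenne hF (hq ▸ h1) hp2 hd⟩

end PSL

section PSU

variable {F : Type*} [Field F] [Fintype F] {q : ℕ}

theorem card_SU3 (hF : Fintype.card F = q ^ 2) : Nat.card (Cfsg.SU 3 F q) = q ^ 3 * ((q ^ 2 - 1) * (q ^ 3 + 1)) := by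
  have h := Cfsg.Agent.S0278.result hF 3 (by norm_num)
  have h1 : (∏ i ∈ Finset.range 3, (if Even i then q ^ (i + 1) + 1 else q ^ (i + 1) - 1)) =
      (q + 1) * ((q ^ 2 - 1) * (q ^ 3 + 1)) := by
    rw [Finset.prod_range_succ, Finset.prod_range_succ, Finset.prod_range_succ, Finset.prod_range_zero]
    norm_num
    ring
  rw [h1] at h
  have h2 : (q + 1) * Nat.card (Cfsg.SU 3 F q) = (q + 1) * (q ^ 3 * ((q ^ 2 - 1) * (q ^ 3 + 1))) := by
    rw [h]
    norm_num
    ring
  exact Nat.eq_of_mul_eq_mul_left (Nat.succ_pos _) h2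

/-- **The row of `PSU₃(q)`** -/
theorem row_psu3 (hF : Fintype.card F = q ^ 2) {p : ℕ} [hp : Fact p.Prime] (hp5 : 5 ≤ p) (hpq : ¬ p ∣ q)
    (hd : p ∣ Nat.card (Cfsg.PSU 3 F q)) : Row p (Cfsg.PSU 3 F q) := by
  have hcard := card_SU3 hF
  have hd' : p ∣ Nat.card (Cfsg.SU 3 F q) := dvd_of_quot hd
  have hq2 : 2 ≤ q := by
    have h1 : 1 < Fintype.card F := Fintype.one_lt_card
    rw [hF] at h1
    by_contra h
    have : q = 0 ∨ q = 1 := by omega
    rcases this with rfl | rfl <;> norm_num at h1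
  obtain ⟨ℓ, hℓ⟩ := CharP.exists F
  obtain ⟨n, hlp, hn⟩ := FiniteField.card F ℓ
  have hlf : Fact ℓ.Prime := ⟨hlp⟩
  have hlq : ℓ ∣ q := by
    have : ℓ ∣ q ^ 2 := by rw [← hF, hn]; exact dvd_pow_self _ n.ne_zero
    exact hlp.dvd_of_dvd_pow this
  let φ : ↥(Cfsg.SU 3 F q) →* GL (Fin 3) F :=
    (Matrix.SpecialLinearGroup.toGL).comp (Cfsg.SU 3 F q).subtype
  have hφ : Function.Injective φ :=
    Matrix.SpecialLinearGroup.toGL_injective.comp (Cfsg.SU 3 F q).subtype_injective
  rw [hcard] at hd'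
  by_cases h1 : p ∣ q ^ 2 - 1
  · have hq3 : q ≠ 2 := by
      rintro rfl
      have := Nat.le_of_dvd (by norm_num) h1
      omega
    obtain ⟨r, hr⟩ := Cfsg.Agent.H728.DghpNum.exists_ppd (q := q) (e := 6) hq2 (by norm_num) (fun h => hq3 h.1)
    have hrf : Fact r.Prime := ⟨hr.prime⟩
    have h6 : q ^ 6 - 1 = (q ^ 3 + 1) * (q ^ 3 - 1) := by
      have := Nat.sq_sub_sq (q ^ 3) 1
      rw [one_pow, ← pow_mul] at this
      exact this
    have hr3 : r ∣ q ^ 3 + 1 := by
      have h2 := (hr.dvd_iff 6).2 dvd_rfl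
      rw [h6] at h2
      rcases (Nat.Prime.dvd_mul hr.prime).1 h2 with h3 | h3
      · exact h3
      · exact absurd ((hr.dvd_iff 3).1 h3) (by norm_num)
    refine row_quot (r := r) (dvd_sylow_split (K := F) hφ (fun g => g.1.2) (hr.natCast_ne hF) ?_ ?_ (by simp)
      (by rw [hF]; exact h1) ?_ (by rw [hcard]; exact hd'))
    · rw [hF, Fintype.card_fin]
      exact (hr.pow 2 (by norm_num)).ord
    · rw [Fintype.card_fin]; omega
    · rw [hcard]
      exact (hr3.mul_left _).mul_left _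
  · have h2 : p ∣ q ^ 3 + 1 := by
      rcases (Nat.Prime.dvd_mul hp.out).1 hd' with h | h
      · exact absurd (hp.out.dvd_of_dvd_pow h) hpq
      · rcases (Nat.Prime.dvd_mul hp.out).1 h with h | h
        · exact absurd h h1
        · exact h
    refine row_quot (r := ℓ) (dvd_sylow_char (K := F) hφ ?_ (by simp) ?_ (by rw [hcard]; exact hd'))
    · rw [hF, Fintype.card_fin]
      have h3f : Fact (Nat.Prime 3) := ⟨Nat.prime_three⟩
      have h3 : ((q : ℕ) : ZMod p) ^ 3 = -1 := by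
        have h4 := (ZMod.natCast_eq_zero_iff (q ^ 3 + 1) p).2 h2
        push_cast at h4
        linear_combination h4
      apply orderOf_eq_prime
      · push_cast
        calc (((q : ℕ) : ZMod p) ^ 2) ^ 3 = (((q : ℕ) : ZMod p) ^ 3) ^ 2 := by ring
          _ = 1 := by rw [h3]; ring
      · intro h5
        apply h1
        rw [← ZMod.natCast_eq_zero_iff, Nat.cast_sub (Nat.one_le_pow _ _ (by omega))]
        push_cast at h5 ⊢
        rw [h5, sub_self]
    · rw [hcard]
      exact (dvd_pow hlq (by norm_num)).mul_right _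

end PSU

end Cfsg.Agent.H583.SylRows
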